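import Mathlib

/-!
# The equation `(q^n - 1) (z + u - 2) = D (u z - 1)`, `z = u^(M-1)`, for the special numbers `D` of `PSL_n(q)`, `n = 5, 7`
-/

set_option autoImplicit false

namespace Cfsg.Agent.R2.Spec.X7

theorem pos_le {X Y : ℤ} (h : 0 ≤ Y - X) : X ≤ Y := by linarith

theorem pos_lt {X Y : ℤ} (h : 0 < Y - X) : X < Y := by linarith

/-- the solutions `u` of `z (N u - Φ) = N + (u - 2) Φ`, `u² ≤ z`, lie between `lo` and `hi` -/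
theorem trich {N Φ z u lo hi : ℤ} (h : z * (N * u - Φ) = N + (u - 2) * Φ) (hz : u ^ 2 ≤ z) (hu : 2 ≤ u) (hN : 0 < N)
    (hN2 : N < 2 * Φ) (hlo : N * lo ≤ Φ) (hhi : 0 ≤ N * hi - Φ) (hhi' : Φ ≤ hi * (N * hi - Φ)) (h0 : 0 ≤ hi) :
    lo < u ∧ u < hi := by
  have hz0 : 0 ≤ z := (sq_nonneg _).trans hz
  have hΦ : 0 < Φ := by linarith
  constructor
  · by_contra hcon
    have h1 : N * u ≤ N * lo := mul_le_mul_of_nonneg_left (not_lt.1 hcon) hN.le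
    have h2 : z * (N * u - Φ) ≤ 0 := mul_nonpos_of_nonneg_of_nonpos hz0 (by linarith)
    have h3 : 0 ≤ (u - 2) * Φ := mul_nonneg (by linarith) hΦ.le
    linarith
  · by_contra hcon
    have hcon' := not_lt.1 hcon
    have h1 : N * hi ≤ N * u := mul_le_mul_of_nonneg_left hcon' hN.le
    have h2 : u ^ 2 * (N * u - Φ) ≤ z * (N * u - Φ) := mul_le_mul_of_nonneg_right hz (by linarith)
    have h3 : hi * (N * hi - Φ) ≤ u * (N * u - Φ) := mul_le_mul hcon' (by linarith) hhi (by linarith)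
    have h4 : u * Φ ≤ u * (u * (N * u - Φ)) := mul_le_mul_of_nonneg_left (hhi'.trans h3) (by linarith)
    have h5 : u * (u * (N * u - Φ)) = u ^ 2 * (N * u - Φ) := by ring
    linarith

/-- `n = 5`, `D = q⁴ + q - 2` -/
theorem p5D1 {q u z : ℤ} (hq : 3 ≤ q) (hu : 2 ≤ u) (hz : u ^ 2 ≤ z)
    (h : (q ^ 4 + q - 2) * (u * z - 1) = (q ^ 5 - 1) * (z + u - 2)) : u = q := by
  have h1 : z * ((q ^ 3 + q ^ 2 + q + 2) * u - (q ^ 4 + q ^ 3 + q ^ 2 + q + 1)) =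
      (q ^ 3 + q ^ 2 + q + 2) + (u - 2) * (q ^ 4 + q ^ 3 + q ^ 2 + q + 1) := by
    apply mul_left_cancel₀ (show q - 1 ≠ 0 by omega)
    linear_combination h
  obtain ⟨a, rfl⟩ : ∃ a : ℕ, q = a + 3 := ⟨(q - 3).toNat, by omega⟩
  have := trich (lo := (a : ℤ) + 3 - 1) (hi := (a : ℤ) + 3 + 1) h1 hz hu (by clear * -; positivity)
    (pos_lt (by clear * -; ring_nf; positivity)) (pos_le (by clear * -; ring_nf; positivity)) (by clear * -; ring_nf; positivity)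
    (pos_le (by clear * -; ring_nf; positivity)) (by clear * -; positivity)
  omega

/-- `n = 5`, `D = q⁴ + q² - q - 1` -/
theorem p5D1' {q u z : ℤ} (hq : 3 ≤ q) (hu : 2 ≤ u) (hz : u ^ 2 ≤ z)
    (h : (q ^ 4 + q ^ 2 - q - 1) * (u * z - 1) = (q ^ 5 - 1) * (z + u - 2)) : u = q := by
  have h1 : z * ((q ^ 3 + q ^ 2 + 2 * q + 1) * u - (q ^ 4 + q ^ 3 + q ^ 2 + q + 1)) =
      (q ^ 3 + q ^ 2 + 2 * q + 1) + (u - 2) * (q ^ 4 + q ^ 3 + q ^ 2 + q + 1) := by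
    apply mul_left_cancel₀ (show q - 1 ≠ 0 by omega)
    linear_combination h
  obtain ⟨a, rfl⟩ : ∃ a : ℕ, q = a + 3 := ⟨(q - 3).toNat, by omega⟩
  have := trich (lo := (a : ℤ) + 3 - 1) (hi := (a : ℤ) + 3 + 1) h1 hz hu (by clear * -; positivity)
    (pos_lt (by clear * -; ring_nf; positivity)) (pos_le (by clear * -; ring_nf; positivity)) (by clear * -; ring_nf; positivity)
    (pos_le (by clear * -; ring_nf; positivity)) (by clear * -; positivity)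
  omega

/-- `n = 5`, `D = q³ + q² - 2` -/
theorem p5D2 {q u z : ℤ} (hq : 3 ≤ q) (hu : 2 ≤ u) (hz : z = u ^ 2 ∨ u ^ 3 ≤ z)
    (h : (q ^ 3 + q ^ 2 - 2) * (u * z - 1) = (q ^ 5 - 1) * (z + u - 2)) : False := by
  have h1 : z * ((q ^ 2 + 2 * q + 2) * u - (q ^ 4 + q ^ 3 + q ^ 2 + q + 1)) =
      (q ^ 2 + 2 * q + 2) + (u - 2) * (q ^ 4 + q ^ 3 + q ^ 2 + q + 1) := by
    apply mul_left_cancel₀ (show q - 1 ≠ 0 by omega)
    linear_combination h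
  have hz2 : u ^ 2 ≤ z := by
    rcases hz with hz | hz
    · exact hz.ge
    · exact le_trans (pow_le_pow_right₀ (by omega) (by norm_num)) hz
  obtain ⟨a, rfl⟩ : ∃ a : ℕ, q = a + 3 := ⟨(q - 3).toNat, by omega⟩
  have h2 := trich (lo := ((a : ℤ) + 3) ^ 2 - (a + 3) + 1) (hi := ((a : ℤ) + 3) ^ 2 - (a + 3) + 3) h1 hz2 hu (by clear * -; positivity)
    (pos_lt (by clear * -; ring_nf; positivity)) (pos_le (by clear * -; ring_nf; positivity)) (by clear * -; ring_nf; positivity)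
    (pos_le (by clear * -; ring_nf; positivity)) (by clear * -; ring_nf; positivity)
  obtain rfl : u = ((a : ℤ) + 3) ^ 2 - (a + 3) + 2 := by omega
  have e1 : (((a : ℤ) + 3) ^ 2 + 2 * (a + 3) + 2) * (((a : ℤ) + 3) ^ 2 - (a + 3) + 2) -
      (((a : ℤ) + 3) ^ 4 + (a + 3) ^ 3 + (a + 3) ^ 2 + (a + 3) + 1) = (a + 3) ^ 2 + (a + 3) + 3 := by ring
  rw [e1] at h1
  rcases hz with hz | hz
  · subst hz
    have h3 : (a : ℤ) = 0 ∨ (a : ℤ) = 1 ∨ (a : ℤ) = 2 ∨ 3 ≤ (a : ℤ) := by omega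
    rcases h3 with h3 | h3 | h3 | h3
    · rw [h3] at h1; norm_num at h1
    · rw [h3] at h1; norm_num at h1
    · rw [h3] at h1; norm_num at h1
    · obtain ⟨b, hb⟩ : ∃ b : ℕ, (a : ℤ) = b + 3 := ⟨(a - 3 : ℤ).toNat, by omega⟩
      rw [hb] at h1
      have h4 : (0 : ℤ) < ((((b : ℤ) + 3 + 3) ^ 2 + 2 * (b + 3 + 3) + 2) + (((b : ℤ) + 3 + 3) ^ 2 - (b + 3 + 3) + 2 - 2) *
          (((b : ℤ) + 3 + 3) ^ 4 + (b + 3 + 3) ^ 3 + (b + 3 + 3) ^ 2 + (b + 3 + 3) + 1)) -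
          (((b : ℤ) + 3 + 3) ^ 2 - (b + 3 + 3) + 2) ^ 2 * (((b : ℤ) + 3 + 3) ^ 2 + (b + 3 + 3) + 3) := by
        clear * -
        ring_nf
        positivity
      linarith
  · have h3 : (((a : ℤ) + 3) ^ 2 - (a + 3) + 2) ^ 3 * (((a : ℤ) + 3) ^ 2 + (a + 3) + 3) ≤
        z * (((a : ℤ) + 3) ^ 2 + (a + 3) + 3) := mul_le_mul_of_nonneg_right hz (by clear * -; positivity)
    have h4 : (0 : ℤ) < (((a : ℤ) + 3) ^ 2 - (a + 3) + 2) ^ 3 * (((a : ℤ) + 3) ^ 2 + (a + 3) + 3) -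
        ((((a : ℤ) + 3) ^ 2 + 2 * (a + 3) + 2) + (((a : ℤ) + 3) ^ 2 - (a + 3) + 2 - 2) *
          (((a : ℤ) + 3) ^ 4 + (a + 3) ^ 3 + (a + 3) ^ 2 + (a + 3) + 1)) := by
      clear * -
      ring_nf
      positivity
    linarith

/-- `n = 7`, `D = q⁶ + q - 2` -/
theorem p7D1 {q u z : ℤ} (hq : 3 ≤ q) (hu : 2 ≤ u) (hz : u ^ 2 ≤ z)
    (h : (q ^ 6 + q - 2) * (u * z - 1) = (q ^ 7 - 1) * (z + u - 2)) : u = q := by
  have h1 : z * ((q ^ 5 + q ^ 4 + q ^ 3 + q ^ 2 + q + 2) * u - (q ^ 6 + q ^ 5 + q ^ 4 + q ^ 3 + q ^ 2 + q + 1)) =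
      (q ^ 5 + q ^ 4 + q ^ 3 + q ^ 2 + q + 2) + (u - 2) * (q ^ 6 + q ^ 5 + q ^ 4 + q ^ 3 + q ^ 2 + q + 1) := by
    apply mul_left_cancel₀ (show q - 1 ≠ 0 by omega)
    linear_combination h
  obtain ⟨a, rfl⟩ : ∃ a : ℕ, q = a + 3 := ⟨(q - 3).toNat, by omega⟩
  have := trich (lo := (a : ℤ) + 3 - 1) (hi := (a : ℤ) + 3 + 1) h1 hz hu (by clear * -; positivity)
    (pos_lt (by clear * -; ring_nf; positivity)) (pos_le (by clear * -; ring_nf; positivity)) (by clear * -; ring_nf; positivity)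
    (pos_le (by clear * -; ring_nf; positivity)) (by clear * -; positivity)
  omega

/-- `n = 7`, `D = q⁶ + q² - q - 1` -/
theorem p7D1' {q u z : ℤ} (hq : 3 ≤ q) (hu : 2 ≤ u) (hz : u ^ 2 ≤ z)
    (h : (q ^ 6 + q ^ 2 - q - 1) * (u * z - 1) = (q ^ 7 - 1) * (z + u - 2)) : u = q := by
  have h1 : z * ((q ^ 5 + q ^ 4 + q ^ 3 + q ^ 2 + 2 * q + 1) * u - (q ^ 6 + q ^ 5 + q ^ 4 + q ^ 3 + q ^ 2 + q + 1)) =
      (q ^ 5 + q ^ 4 + q ^ 3 + q ^ 2 + 2 * q + 1) + (u - 2) * (q ^ 6 + q ^ 5 + q ^ 4 + q ^ 3 + q ^ 2 + q + 1) := by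
    apply mul_left_cancel₀ (show q - 1 ≠ 0 by omega)
    linear_combination h
  obtain ⟨a, rfl⟩ : ∃ a : ℕ, q = a + 3 := ⟨(q - 3).toNat, by omega⟩
  have := trich (lo := (a : ℤ) + 3 - 1) (hi := (a : ℤ) + 3 + 1) h1 hz hu (by clear * -; positivity)
    (pos_lt (by clear * -; ring_nf; positivity)) (pos_le (by clear * -; ring_nf; positivity)) (by clear * -; ring_nf; positivity)
    (pos_le (by clear * -; ring_nf; positivity)) (by clear * -; positivity)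
  omega

/-- `n = 7`, `D = q⁵ + q² - 2` -/
theorem p7D2 {q u z : ℤ} (hq : 3 ≤ q) (hu : 2 ≤ u) (hz : u ^ 2 ≤ z)
    (h : (q ^ 5 + q ^ 2 - 2) * (u * z - 1) = (q ^ 7 - 1) * (z + u - 2)) : u = q ^ 2 := by
  have h1 : z * ((q ^ 4 + q ^ 3 + q ^ 2 + 2 * q + 2) * u - (q ^ 6 + q ^ 5 + q ^ 4 + q ^ 3 + q ^ 2 + q + 1)) =
      (q ^ 4 + q ^ 3 + q ^ 2 + 2 * q + 2) + (u - 2) * (q ^ 6 + q ^ 5 + q ^ 4 + q ^ 3 + q ^ 2 + q + 1) := by
    apply mul_left_cancel₀ (show q - 1 ≠ 0 by omega)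
    linear_combination h
  obtain ⟨a, rfl⟩ : ∃ a : ℕ, q = a + 3 := ⟨(q - 3).toNat, by omega⟩
  have := trich (lo := ((a : ℤ) + 3) ^ 2 - 1) (hi := ((a : ℤ) + 3) ^ 2 + 1) h1 hz hu (by clear * -; positivity)
    (pos_lt (by clear * -; ring_nf; positivity)) (pos_le (by clear * -; ring_nf; positivity)) (by clear * -; ring_nf; positivity)
    (pos_le (by clear * -; ring_nf; positivity)) (by clear * -; positivity)
  omega

/-- `n = 7`, `D = q⁴ + q³ - 2` -/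
theorem p7D3 {q u z : ℤ} (hq : 3 ≤ q) (hu : 2 ≤ u) (hz : u ^ 2 ≤ z)
    (h : (q ^ 4 + q ^ 3 - 2) * (u * z - 1) = (q ^ 7 - 1) * (z + u - 2)) : u = q ^ 3 - q ^ 2 + q := by
  have h1 : z * ((q ^ 3 + 2 * q ^ 2 + 2 * q + 2) * u - (q ^ 6 + q ^ 5 + q ^ 4 + q ^ 3 + q ^ 2 + q + 1)) =
      (q ^ 3 + 2 * q ^ 2 + 2 * q + 2) + (u - 2) * (q ^ 6 + q ^ 5 + q ^ 4 + q ^ 3 + q ^ 2 + q + 1) := by
    apply mul_left_cancel₀ (show q - 1 ≠ 0 by omega)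
    linear_combination h
  obtain ⟨a, rfl⟩ : ∃ a : ℕ, q = a + 3 := ⟨(q - 3).toNat, by omega⟩
  have := trich (lo := ((a : ℤ) + 3) ^ 3 - (a + 3) ^ 2 + (a + 3) - 1) (hi := ((a : ℤ) + 3) ^ 3 - (a + 3) ^ 2 + (a + 3) + 1)
    h1 hz hu (by clear * -; positivity)
    (pos_lt (by clear * -; ring_nf; positivity)) (pos_le (by clear * -; ring_nf; positivity)) (by clear * -; ring_nf; positivity)
    (pos_le (by clear * -; ring_nf; positivity)) (by clear * -; ring_nf; positivity)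
  omega

end Cfsg.Agent.R2.Spec.X7
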