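import Cfsg.Agent.R2.Spec.X7.NC
import Cfsg.Agent.R2.Spec.X7.LtP

/-!
# The exceptional families: the numerical contradictions
-/

set_option autoImplicit false

namespace Cfsg.Agent.R2.Spec.X7

namespace NC

variable {p R : ℕ} {W : ℕ → Prop} (h : NC p R W)

include h

theorem R61 : 61 ≤ R := by
  have := h.big
  omega

theorem negZ {E E' : ℕ} (hW : W E) (hW' : W E') (h7 : 7 * (R : ℤ) < 10 * E')
    (h1 : (E' : ℤ) < E) (h2 : (E : ℤ) < R) :
    23 * ((R : ℤ) - E) < 10 * (R - E') ∨ (10 * ((R : ℤ) - E') ≤ 11 * (R - E) ∧ ((E : ℤ) - E') * (R - E') ≤ R) :=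
  h.neg E E' (by have := h.R61; omega) hW hW' (by omega) (by omega) (by omega)

theorem posZ {E E' : ℕ} (hW : W E) (hW' : W E') (h1 : (E' : ℤ) < E) (h2 : (R : ℤ) < E') :
    (4 * ((E : ℤ) - R) ≤ 5 * (E' - R) ∧ ((E : ℤ) - E') * (E - R) ≤ 2 * R) ∨ 10 * ((E' : ℤ) - R) ≤ E - R :=
  h.posi E E' (by omega) hW hW' (by omega) (by omega)

theorem oppZ {E E' : ℕ} (hW : W E) (hW' : W E') (h7 : 7 * (R : ℤ) < 10 * E')
    (h1 : (E' : ℤ) < R) (h2 : (R : ℤ) < E) : 3 * ((R : ℤ) - E') ≤ E - R ∨ 4 * ((E : ℤ) - R) ≤ R - E' :=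
  h.opp E E' (by have := h.R61; omega) hW hW' (by omega) (by omega) (by omega)

/-- `G₂(u)` -/
theorem gTwo {u A B C : ℕ} (hA : (A : ℤ) = (u : ℤ) ^ 2 + u + 1) (hB : (B : ℤ) = (u : ℤ) ^ 2 - u + 1)
    (hC : (C : ℤ) = (u : ℤ) ^ 2 - 1) (hWA : W A) (hWB : W B) (hWC : W C)
    (hR : R = A ∨ R = B) : False := by
  have hR0 := h.R61
  have hu : 8 ≤ u := by
    by_contra hcon
    have h1 : u = 0 ∨ u = 1 ∨ u = 2 ∨ u = 3 ∨ u = 4 ∨ u = 5 ∨ u = 6 ∨ u = 7 := by omega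
    rcases h1 with rfl | rfl | rfl | rfl | rfl | rfl | rfl | rfl <;> norm_num at hA hB <;>
      rcases hR with h3 | h3 <;> omega
  obtain ⟨t, rfl⟩ : ∃ t, u = t + 8 := ⟨u - 8, by omega⟩
  push_cast at hA hB hC
  rcases hR with h3 | h3
  · have h4 : (R : ℤ) = A := by exact_mod_cast h3
    rcases h.negZ hWC hWB (by rw [h4, hA, hB]; nlinarith) (by rw [hB, hC]; nlinarith)
      (by rw [h4, hA, hC]; nlinarith) with h5 | ⟨h5, -⟩
    · rw [h4, hA, hB, hC] at h5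
      nlinarith
    · rw [h4, hA, hB, hC] at h5
      nlinarith
  · have h4 : (R : ℤ) = B := by exact_mod_cast h3
    rcases h.posZ hWA hWC (by rw [hA, hC]; nlinarith) (by rw [h4, hB, hC]; nlinarith) with ⟨h5, -⟩ | h5
    · rw [h4, hA, hB, hC] at h5
      nlinarith
    · rw [h4, hA, hB, hC] at h5
      nlinarith

/-- `³D₄(u)`, `F₄(u)` -/
theorem dFour {u A B : ℕ} (hA : (A : ℤ) = ((u : ℤ) ^ 3 - 1) * (u + 1)) (hB : (B : ℤ) = ((u : ℤ) ^ 3 + 1) * (u - 1))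
    (hWA : W A) (hWB : W B)
    (hR : (R : ℤ) = (u : ℤ) ^ 4 - (u : ℤ) ^ 2 + 1 ∨ (R : ℤ) = (u : ℤ) ^ 4 + 1) : False := by
  have hR0 := h.big
  have hu : 4 ≤ u := by
    by_contra hcon
    have h1 : u = 0 ∨ u = 1 ∨ u = 2 ∨ u = 3 := by omega
    rcases h1 with rfl | rfl | rfl | rfl <;> norm_num at hR <;> omega
  obtain ⟨t, rfl⟩ : ∃ t, u = t + 4 := ⟨u - 4, by omega⟩
  push_cast at hA hB hR
  rcases hR with h4 | h4
  · rcases h.oppZ hWA hWB (by rw [h4, hB]; apply pos_lt; clear * -; ring_nf; positivity)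
      (by rw [h4, hB]; apply pos_lt; clear * -; ring_nf; positivity)
      (by rw [h4, hA]; apply pos_lt; clear * -; ring_nf; positivity) with h5 | h5
    · rw [h4, hA, hB] at h5
      refine absurd h5 (not_le.2 (pos_lt ?_))
      clear * -; ring_nf; positivity
    · rw [h4, hA, hB] at h5
      refine absurd h5 (not_le.2 (pos_lt ?_))
      clear * -; ring_nf; positivity
  · rcases h.oppZ hWA hWB (by rw [h4, hB]; apply pos_lt; clear * -; ring_nf; positivity)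
      (by rw [h4, hB]; apply pos_lt; clear * -; ring_nf; positivity)
      (by rw [h4, hA]; apply pos_lt; clear * -; ring_nf; positivity) with h5 | h5
    · rw [h4, hA, hB] at h5
      refine absurd h5 (not_le.2 (pos_lt ?_))
      clear * -; ring_nf; positivity
    · rw [h4, hA, hB] at h5
      refine absurd h5 (not_le.2 (pos_lt ?_))
      clear * -; ring_nf; positivity

/-- `E₆(u)` -/
theorem eSix {u g A B : ℕ} (hg : g = 1 ∨ g = 3) (hR : (R : ℤ) * g = (u : ℤ) ^ 6 + (u : ℤ) ^ 3 + 1)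
    (hA : (A : ℤ) * g = ((u : ℤ) ^ 2 + u + 1) * ((u : ℤ) ^ 4 - (u : ℤ) ^ 2 + 1))
    (hB : (B : ℤ) * g = ((u : ℤ) ^ 5 - 1) * (u + 1)) (hWA : W A) (hWB : W B) : False := by
  have hR0 := h.big
  have hgZ : (g : ℤ) = 1 ∨ (g : ℤ) = 3 := by
    rcases hg with h1 | h1
    · left; exact_mod_cast h1
    · right; exact_mod_cast h1
  have hg0 : (0 : ℤ) < g := by rcases hgZ with h1 | h1 <;> omega
  have hu : 4 ≤ u := by
    by_contra hcon
    have h1 : u = 0 ∨ u = 1 ∨ u = 2 ∨ u = 3 := by omega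
    rcases h1 with rfl | rfl | rfl | rfl <;> rcases hgZ with h2 | h2 <;> rw [h2] at hR <;> norm_num at hR <;>
      omega
  obtain ⟨t, rfl⟩ : ∃ t, u = t + 4 := ⟨u - 4, by omega⟩
  push_cast at hA hB hR
  have hAB : (A : ℤ) < B := by
    apply lt_of_mul_lt_mul_right _ hg0.le
    rw [hA, hB]
    apply pos_lt
    clear * -; ring_nf; positivity
  have hRA : (R : ℤ) < A := by
    apply lt_of_mul_lt_mul_right _ hg0.le
    rw [hA, hR]
    apply pos_lt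
    clear * -; ring_nf; positivity
  have e1 : (B : ℤ) * g - A * g = ((t : ℤ) + 4) ^ 3 - 2 * ((t : ℤ) + 4) - 2 := by rw [hA, hB]; ring
  have e2 : (B : ℤ) * g - R * g = ((t : ℤ) + 4) ^ 5 - ((t : ℤ) + 4) ^ 3 - ((t : ℤ) + 4) - 2 := by rw [hB, hR]; ring
  have h5 : ((B : ℤ) - A) * (B - R) ≤ 2 * R := by
    rcases h.posZ hWB hWA hAB hRA with ⟨-, h5⟩ | h5
    · exact h5
    · exfalso
      have h6 := mul_le_mul_of_nonneg_right h5 hg0.le
      have h7 : 10 * (((B : ℤ) * g - R * g) - (B * g - A * g)) ≤ B * g - R * g := by linarith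
      rw [e1, e2] at h7
      refine absurd h7 (not_le.2 (pos_lt ?_))
      clear * -; ring_nf; positivity
  have h6 : ((B : ℤ) * g - A * g) * (B * g - R * g) ≤ 2 * (R * g) * g := by
    have := mul_le_mul_of_nonneg_right (mul_le_mul_of_nonneg_right h5 hg0.le) hg0.le
    linarith
  have h8 : (0 : ℤ) < R * g := by rw [hR]; clear * -; positivity
  have h7 : 2 * ((R : ℤ) * g) * g ≤ 2 * (R * g) * 3 :=
    mul_le_mul_of_nonneg_left (by rcases hgZ with h1 | h1 <;> omega) (by linarith)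
  rw [e1, e2] at h6
  rw [hR] at h7 h6
  refine absurd (h6.trans h7) (not_le.2 (pos_lt ?_))
  clear * -; ring_nf; positivity

/-- `²E₆(u)` -/
theorem eSixT {u g A B : ℕ} (hg : g = 1 ∨ g = 3) (hR : (R : ℤ) * g = (u : ℤ) ^ 6 - (u : ℤ) ^ 3 + 1)
    (hA : (A : ℤ) * g = ((u : ℤ) ^ 2 - u + 1) * ((u : ℤ) ^ 4 - (u : ℤ) ^ 2 + 1))
    (hB : (B : ℤ) * g = ((u : ℤ) ^ 5 + 1) * (u - 1)) (hWA : W A) (hWB : W B) : False := by
  have hR0 := h.big
  have hgZ : (g : ℤ) = 1 ∨ (g : ℤ) = 3 := by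
    rcases hg with h1 | h1
    · left; exact_mod_cast h1
    · right; exact_mod_cast h1
  have hg0 : (0 : ℤ) < g := by rcases hgZ with h1 | h1 <;> omega
  have hu : 4 ≤ u := by
    by_contra hcon
    have h1 : u = 0 ∨ u = 1 ∨ u = 2 ∨ u = 3 := by omega
    rcases h1 with rfl | rfl | rfl | rfl <;> rcases hgZ with h2 | h2 <;> rw [h2] at hR <;> norm_num at hR <;>
      omega
  obtain ⟨t, rfl⟩ : ∃ t, u = t + 4 := ⟨u - 4, by omega⟩
  push_cast at hA hB hR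
  have hAB : (B : ℤ) < A := by
    apply lt_of_mul_lt_mul_right _ hg0.le
    rw [hA, hB]
    apply pos_lt
    clear * -; ring_nf; positivity
  have hRA : (A : ℤ) < R := by
    apply lt_of_mul_lt_mul_right _ hg0.le
    rw [hA, hR]
    apply pos_lt
    clear * -; ring_nf; positivity
  have h7 : 7 * (R : ℤ) < 10 * B := by
    apply lt_of_mul_lt_mul_right _ hg0.le
    rw [mul_assoc, mul_assoc, hB, hR]
    apply pos_lt
    clear * -; ring_nf; positivity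
  have e1 : (R : ℤ) * g - A * g = ((t : ℤ) + 4) ^ 5 - 2 * ((t : ℤ) + 4) ^ 3 + ((t : ℤ) + 4) := by rw [hA, hR]; ring
  have e2 : (R : ℤ) * g - B * g = ((t : ℤ) + 4) ^ 5 - ((t : ℤ) + 4) ^ 3 - ((t : ℤ) + 4) + 2 := by rw [hB, hR]; ring
  have e3 : (A : ℤ) * g - B * g = ((t : ℤ) + 4) ^ 3 - 2 * ((t : ℤ) + 4) + 2 := by rw [hA, hB]; ring
  rcases h.negZ hWA hWB h7 hAB hRA with h5 | ⟨-, h5⟩
  · have h6 : 23 * ((R : ℤ) * g - A * g) < 10 * (R * g - B * g) := by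
      have := mul_lt_mul_of_pos_right h5 hg0
      linarith
    rw [e1, e2] at h6
    refine absurd h6 (not_lt.2 (pos_le ?_))
    clear * -; ring_nf; positivity
  · have h6 : ((A : ℤ) * g - B * g) * (R * g - B * g) ≤ (R * g) * g := by
      have := mul_le_mul_of_nonneg_right (mul_le_mul_of_nonneg_right h5 hg0.le) hg0.le
      linarith
    have h8 : (0 : ℤ) ≤ R * g := by positivity
    have h7 : ((R : ℤ) * g) * g ≤ (R * g) * 3 :=
      mul_le_mul_of_nonneg_left (by rcases hgZ with h1 | h1 <;> omega) h8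
    rw [e3, e2] at h6
    rw [hR] at h7 h6
    refine absurd (h6.trans h7) (not_le.2 (pos_lt ?_))
    clear * -; ring_nf; positivity

omit h in
theorem eEight_aux (t : ℕ) {A B C D : ℤ}
    (hA : A = ((t : ℤ) + 3) ^ 8 - ((t : ℤ) + 3) ^ 7 + ((t : ℤ) + 3) ^ 5 - ((t : ℤ) + 3) ^ 4 + ((t : ℤ) + 3) ^ 3 -
      ((t : ℤ) + 3) + 1)
    (hB : B = ((t : ℤ) + 3) ^ 8 - ((t : ℤ) + 3) ^ 6 + ((t : ℤ) + 3) ^ 4 - ((t : ℤ) + 3) ^ 2 + 1)
    (hC : C = ((t : ℤ) + 3) ^ 8 - ((t : ℤ) + 3) ^ 4 + 1)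
    (hD : D = ((t : ℤ) + 3) ^ 8 + ((t : ℤ) + 3) ^ 7 - ((t : ℤ) + 3) ^ 5 - ((t : ℤ) + 3) ^ 4 - ((t : ℤ) + 3) ^ 3 +
      ((t : ℤ) + 3) + 1) :
    0 < C - B ∧ 2 * (C - B) < C - A ∧ 0 < A ∧ 7 * D < 10 * B ∧ 7 * B < 10 * A ∧
      7 * C < 10 * A ∧ D < (C - B) * (C - A) ∧ D - C = C - A := by
  subst hA hB hC hD
  refine ⟨?_, pos_lt ?_, ?_, pos_lt ?_, pos_lt ?_, pos_lt ?_, pos_lt ?_, by ring⟩ <;> ring_nf <;> positivity

/-- `E₈(u)` -/
theorem eEight {u A B C D : ℕ}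
    (hA : (A : ℤ) = (u : ℤ) ^ 8 - (u : ℤ) ^ 7 + (u : ℤ) ^ 5 - (u : ℤ) ^ 4 + (u : ℤ) ^ 3 - u + 1)
    (hB : (B : ℤ) = (u : ℤ) ^ 8 - (u : ℤ) ^ 6 + (u : ℤ) ^ 4 - (u : ℤ) ^ 2 + 1)
    (hC : (C : ℤ) = (u : ℤ) ^ 8 - (u : ℤ) ^ 4 + 1)
    (hD : (D : ℤ) = (u : ℤ) ^ 8 + (u : ℤ) ^ 7 - (u : ℤ) ^ 5 - (u : ℤ) ^ 4 - (u : ℤ) ^ 3 + u + 1)
    (hWA : W A) (hWB : W B) (hWC : W C) (hWD : W D)
    (hR : R = A ∨ R = B ∨ R = C ∨ R = D) : False := by
  have hR0 := h.big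
  have hu : 3 ≤ u := by
    by_contra hcon
    have h1 : u = 0 ∨ u = 1 ∨ u = 2 := by omega
    rcases h1 with rfl | rfl | rfl <;> norm_num at hA hB hC hD <;>
      rcases hR with h2 | h2 | h2 | h2 <;> omega
  obtain ⟨t, rfl⟩ : ∃ t, u = t + 3 := ⟨u - 3, by omega⟩
  push_cast at hA hB hC hD
  obtain ⟨p1, p2, p5, p6, p7, p8, p9, e5⟩ := eEight_aux t hA hB hC hD
  rcases hR with h3 | h3 | h3 | h3
  · have h4 : (R : ℤ) = A := by exact_mod_cast h3
    rcases h.posZ hWD hWC (by linarith) (by linarith) with ⟨h5, -⟩ | h5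
    · rw [h4] at h5
      linarith
    · rw [h4] at h5
      linarith
  · have h4 : (R : ℤ) = B := by exact_mod_cast h3
    rcases h.oppZ hWD hWA (by linarith) (by linarith) (by linarith) with h5 | h5
    · rw [h4] at h5
      linarith
    · rw [h4] at h5
      linarith
  · have h4 : (R : ℤ) = C := by exact_mod_cast h3
    rcases h.oppZ hWD hWA (by linarith) (by linarith) (by linarith) with h5 | h5 <;> linarith
  · have h4 : (R : ℤ) = D := by exact_mod_cast h3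
    rcases h.negZ hWC hWB (by linarith) (by linarith) (by linarith) with h5 | ⟨-, h5⟩
    · rw [h4] at h5
      linarith
    · rw [h4] at h5
      have h6 : ((C : ℤ) - B) * (C - A) ≤ (C - B) * (D - B) := mul_le_mul_of_nonneg_left (by linarith) p1.le
      linarith

/-- Suzuki and small Ree groups -/
theorem szRee {u s A B C : ℕ} (hs : ((s : ℤ) ^ 2 = 2 * u ∧ 16 ≤ s) ∨ ((s : ℤ) ^ 2 = 3 * u ∧ 27 ≤ s))
    (hA : (A : ℤ) = (u : ℤ) + s + 1)
    (hB : (B : ℤ) = (u : ℤ) - s + 1) (hC : (C : ℤ) = (u : ℤ) - 1) (hWA : W A) (hWB : W B)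
    (hWC : W C) (hR : R = A ∨ R = B ∨ R = C) : False := by
  have hs2 : 16 ≤ s ∧ 17 * (s : ℤ) < 3 * u + 3 := by
    rcases hs with ⟨h1, h2⟩ | ⟨h1, h2⟩
    · refine ⟨h2, ?_⟩
      have h3 : (16 : ℤ) * s ≤ (s : ℤ) ^ 2 := by
        rw [pow_two]; exact mul_le_mul_of_nonneg_right (by exact_mod_cast h2) (by positivity)
      have h4 : (16 : ℤ) ≤ s := by exact_mod_cast h2
      omega
    · refine ⟨by omega, ?_⟩
      have h3 : (27 : ℤ) * s ≤ (s : ℤ) ^ 2 := by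
        rw [pow_two]; exact mul_le_mul_of_nonneg_right (by exact_mod_cast h2) (by positivity)
      have h4 : (27 : ℤ) ≤ s := by exact_mod_cast h2
      omega
  obtain ⟨hs16, h20⟩ := hs2
  rcases hR with h3 | h3 | h3
  · have h4 : (R : ℤ) = A := by exact_mod_cast h3
    rcases h.negZ hWC hWB (by omega) (by omega) (by omega) with h5 | ⟨h5, -⟩ <;> omega
  · have h4 : (R : ℤ) = B := by exact_mod_cast h3
    rcases h.posZ hWA hWC (by omega) (by omega) with ⟨h5, -⟩ | h5 <;> omega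
  · have h4 : (R : ℤ) = C := by exact_mod_cast h3
    rcases h.oppZ hWA hWB (by omega) (by omega) (by omega) with h5 | h5 <;> omega

/-- `²F₄(u)`, `u = 2 r²` -/
theorem fFourT {r A B C : ℕ} (hr : 6 ≤ r) (hA : (A : ℤ) = 4 * (r : ℤ) ^ 4 + 4 * (r : ℤ) ^ 3 + 2 * (r : ℤ) ^ 2 + 2 * r + 1)
    (hB : (B : ℤ) = 4 * (r : ℤ) ^ 4 - 4 * (r : ℤ) ^ 3 + 2 * (r : ℤ) ^ 2 - 2 * r + 1)
    (hC : (C : ℤ) = 4 * (r : ℤ) ^ 4 - 2 * (r : ℤ) ^ 2 + 1) (hWA : W A)
    (hWB : W B) (hWC : W C) (hR : R = A ∨ R = B) : False := by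
  obtain ⟨t, rfl⟩ : ∃ t, r = t + 6 := ⟨r - 6, by omega⟩
  push_cast at hA hB hC
  rcases hR with h3 | h3
  · have h4 : (R : ℤ) = A := by exact_mod_cast h3
    rcases h.negZ hWC hWB (by rw [h4, hA, hB]; apply pos_lt; clear * -; ring_nf; positivity)
      (by rw [hB, hC]; apply pos_lt; clear * -; ring_nf; positivity)
      (by rw [h4, hA, hC]; apply pos_lt; clear * -; ring_nf; positivity) with h5 | ⟨h5, -⟩
    · rw [h4, hA, hB, hC] at h5
      refine absurd h5 (not_lt.2 (pos_le ?_))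
      clear * -; ring_nf; positivity
    · rw [h4, hA, hB, hC] at h5
      refine absurd h5 (not_le.2 (pos_lt ?_))
      clear * -; ring_nf; positivity
  · have h4 : (R : ℤ) = B := by exact_mod_cast h3
    rcases h.posZ hWA hWC (by rw [hA, hC]; apply pos_lt; clear * -; ring_nf; positivity)
      (by rw [h4, hB, hC]; apply pos_lt; clear * -; ring_nf; positivity) with ⟨h5, -⟩ | h5
    · rw [h4, hA, hB, hC] at h5
      refine absurd h5 (not_le.2 (pos_lt ?_))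
      clear * -; ring_nf; positivity
    · rw [h4, hA, hB, hC] at h5
      refine absurd h5 (not_le.2 (pos_lt ?_))
      clear * -; ring_nf; positivity

end NC

end Cfsg.Agent.R2.Spec.X7
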