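import Cfsg.Agent.R2.Spec.X7.NC
import Cfsg.Agent.H437.Win.FamL
import Cfsg.Agent.H437.Win.FamM

/-!
# Elimination of the simple groups with an isolated number `R`: classical groups
-/

set_option autoImplicit false

namespace Cfsg.Agent.R2.Spec.X7

open Cfsg Cfsg.Agent.H182.Orth Cfsg.Agent.H182.Sign Cfsg.Agent.H403.Classify Cfsg.Agent.H360.Iso Matrix
open Cfsg.Agent.LieClassical.OrthForms
open Cfsg.Agent.H437.Win (two_primes exists_minus_elt)

/-- the situation of a composition factor of a group isospectral to `PSL_n(q)`, `PSU_n(q)`, `n = 5, 7` -/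
structure SC (T : Type*) [Group T] (p R : ℕ) (W : ℕ → Prop) : Prop where
  iso : IsoN T R
  nc : NC p R W
  win : ∀ x : T, W (orderOf x)
  s13 : R = 61 → ¬ 13 ∣ Nat.card T
  s31 : R = 61 → ¬ 31 ∣ Nat.card T
  s197 : R = 1181 → ¬ 197 ∣ Nat.card T
  s41 : R = 547 → ¬ 41 ∣ Nat.card T
  s137 : R = 547 → ¬ 137 ∣ Nat.card T

namespace SC

variable {T : Type*} [Group T] {p R : ℕ} {W : ℕ → Prop}

theorem congr {T' : Type*} [Group T'] (h : SC T p R W) (e : T ≃* T') : SC T' p R W := by
  refine ⟨h.iso.congr e, h.nc, ?_, ?_, ?_, ?_, ?_, ?_⟩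
  · intro x
    have h1 := h.win (e.symm x)
    rwa [show orderOf (e.symm x) = orderOf x from orderOf_injective e.symm.toMonoidHom e.symm.injective x] at h1
  · rw [← Nat.card_congr e.toEquiv]; exact h.s13
  · rw [← Nat.card_congr e.toEquiv]; exact h.s31
  · rw [← Nat.card_congr e.toEquiv]; exact h.s197
  · rw [← Nat.card_congr e.toEquiv]; exact h.s41
  · rw [← Nat.card_congr e.toEquiv]; exact h.s137

/-- the window condition for an element order -/
theorem wd (h : SC T p R W) {E : ℕ} (he : ∃ x : T, orderOf x = E) : W E := by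
  obtain ⟨x, rfl⟩ := he
  exact h.win x

theorem R61 (h : SC T p R W) : 61 ≤ R := by
  have := h.nc.big
  omega

/-- orders which are small multiples of an element order -/
theorem upper [Finite T] (h : SC T p R W) {E : ℕ} (he : ∃ x : T, orderOf x = E) : 10 * E ≤ 14 * R := by
  have h1 := h.wd he
  obtain ⟨x, rfl⟩ := he
  exact h.nc.upper _ (orderOf_pos x) h1

theorem p_ne_three (h : SC T p R W) {u k : ℕ} (hpu : ¬ p ∣ u) (hu : u = 3 ^ k) (hk : 1 ≤ k) : p ≠ 3 := by
  rintro rfl
  exact hpu (hu ▸ dvd_pow_self 3 (by omega))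

/-- **`PSL_m(u)`, `m ≥ 3`.** -/
theorem not_psl {F : Type} [Field F] [Fintype F] {m : ℕ} (hm : 3 ≤ m) (hpu : ¬ p ∣ Nat.card F)
    (h : SC (ProjectiveSpecialLinearGroup (Fin m) F) p R W) : False := by
  have hu : 2 ≤ Nat.card F := Finite.one_lt_card
  have hR5 := h.R61
  have hR0 : 0 < R := by omega
  rcases psl_row hm h.iso with ⟨h1, x, hx⟩ | ⟨h0, h1, x, hx⟩
  · -- first row
    have hW := h.win x
    have hxpos := orderOf_pos x
    generalize orderOf x = E at hx hW hxpos
    obtain ⟨u, hud⟩ : ∃ u, u = Nat.card F := ⟨_, rfl⟩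
    rw [← hud] at h1 hx hu hpu
    have hg0 : 0 < Nat.gcd m (u - 1) := Nat.gcd_pos_of_pos_left _ (by omega)
    have hgv : Nat.gcd m (u - 1) ≤ u - 1 := Nat.gcd_le_right _ (by omega)
    generalize hg : Nat.gcd m (u - 1) = g at h1 hx hg0 hgv
    rcases Nat.lt_or_ge u 3 with hu2 | hu3
    · -- `u = 2`
      have hu2' : u = 2 := by omega
      have hg1 : g = 1 := by omega
      rw [hu2', hg1] at h1
      norm_num at h1
      rcases Nat.even_or_odd m with hme | hmo
      · -- `3 ∣ R`
        apply h.iso.not_three_dvd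
        rw [h1]
        obtain ⟨k, hk⟩ := hme
        rw [hk, ← two_mul, pow_mul]
        have := Nat.sub_dvd_pow_sub_pow (2 ^ 2) 1 k
        rw [one_pow] at this
        exact this
      · obtain ⟨k, rfl⟩ : ∃ k, m = 2 + k := ⟨m - 2, by omega⟩
        have hk : Odd k := by
          rcases Nat.even_or_odd k with h4 | h4
          · exact absurd hmo (Nat.not_odd_iff_even.2 ((by decide : Even 2).add h4))
          · exact h4
        have hE := exists_two (F := F) (by rw [← hud, hu2']) (a := 2) (b := k) (by norm_num) (by omega) (by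
          norm_num
          rw [Nat.Prime.coprime_iff_not_dvd Nat.prime_three]
          intro hd
          obtain ⟨j, rfl⟩ := hk
          have h5 : 2 ^ (2 * j + 1) % 3 = 2 := by
            rw [pow_succ, pow_mul, Nat.mul_mod, Nat.pow_mod]
            norm_num
          generalize 2 ^ (2 * j + 1) = z at hd h5
          omega)
        have hWE := h.wd hE
        have e1 : 2 ^ (2 + k) = 4 * 2 ^ k := by rw [pow_add]; norm_num
        rw [e1] at h1
        norm_num at hWE
        generalize 2 ^ k = z at h1 hWE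
        exact h.nc.two z (3 * (z - 1)) (by omega) (by omega) rfl hWE
    · have hK : R * (g * (u - 1)) = u ^ m - 1 := by rw [← h1]; ring
      have hKE : (g * (u - 1)) * E = (u ^ (m - 1) - 1) * (u - 1) := by rw [← hx]; ring
      obtain ⟨h2, h3, h4⟩ := h.nc.lT u m (g * (u - 1)) E hpu hu3 hm hK hKE hxpos hW
      -- `u = 13`
      subst h4
      have h5 := Cfsg.Agent.S0243.result (F := F) (q := 13) (by rw [← Nat.card_eq_fintype_card, ← hud, h3]) 3 (by norm_num)
      have h6 : 13 ∣ ∏ i : Fin 3, (13 ^ 3 - 13 ^ (i : ℕ)) := by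
        rw [Fin.prod_univ_three]
        norm_num
      rw [← h5] at h6
      have hp : Nat.Prime 13 := by norm_num
      refine h.s13 h2 ?_
      rcases (hp.dvd_mul).1 h6 with h7 | h7
      · exfalso
        revert h7
        norm_num
      · rcases (hp.dvd_mul).1 h7 with h8 | h8
        · exfalso
          revert h8
          norm_num
        · exact h8
  · -- second row
    have hW := h.win x
    have hxpos := orderOf_pos x
    generalize orderOf x = E at hx hW hxpos
    obtain ⟨u, hud⟩ : ∃ u, u = Nat.card F := ⟨_, rfl⟩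
    rw [← hud] at h0 h1 hx hu hpu
    obtain ⟨v, rfl⟩ : ∃ v, u = v + 1 := ⟨u - 1, by omega⟩
    rw [Nat.add_sub_cancel] at h0 h1 hx
    obtain ⟨M, rfl⟩ : ∃ M, m = M + 1 := ⟨m - 1, by omega⟩
    rw [Nat.add_sub_cancel] at h1
    have hv0 : 0 < v := by omega
    have hvm := Nat.le_of_dvd (by omega) h0
    have hM4 : 4 ≤ M := by
      by_contra hcon
      have hM3 : M = 2 ∨ M = 3 := by omega
      rcases hM3 with hM3 | hM3
      · rw [hM3] at h1 hvm
        have h3 : (v + 1) ^ 2 ≤ 4 ^ 2 := Nat.pow_le_pow_left (by omega) 2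
        have h4 : R * 1 ≤ R * v := Nat.mul_le_mul_left _ hv0
        omega
      · rw [hM3] at h1 hvm h0
        have hv4 : v = 1 ∨ v = 2 ∨ v = 4 := by
          have : v = 1 ∨ v = 2 ∨ v = 3 ∨ v = 4 := by omega
          rcases this with h3 | h3 | h3 | h3
          · exact Or.inl h3
          · exact Or.inr (Or.inl h3)
          · rw [h3] at h0; revert h0; norm_num
          · exact Or.inr (Or.inr h3)
        rcases hv4 with h3 | h3 | h3 <;> rw [h3] at h1 <;> norm_num at h1 <;> omega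
    exact h.nc.mT v M E hv0 hM4 h1 hx hxpos hW

/-- twin orders -/
theorem not_twin [Finite T] (h : SC T p R W) {A B : ℕ} (hAB : A + 1 = B ∨ A + 2 = B)
    (ht : Twin T R A B) : False := by
  obtain ⟨h1, hA, hB⟩ := ht
  have hR := h.R61
  rcases h1 with h1 | h1
  · exact h.nc.near B (by omega) (h.wd hB) (by omega) (by omega) (by omega)
  · exact h.nc.near A (by omega) (h.wd hA) (by omega) (by omega) (by omega)

theorem not_psp {F : Type} [Field F] [Fintype F] {m : ℕ} (hm : 2 ≤ m) (h : SC (PSp m F) p R W) : False := by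
  have hfin : Finite (PSp m F) := inferInstance
  obtain ⟨A, B, hAB, ht⟩ := psp hm h.iso
  exact h.not_twin hAB ht

theorem not_omegaOdd {F : Type} [Field F] [Fintype F] {m : ℕ} (hm : 3 ≤ m) (ho : Odd (Fintype.card F))
    (h : SC (POmega F (quadFormOdd m F)) p R W) : False := by
  have hfin : Finite (POmega F (quadFormOdd m F)) := inferInstance
  obtain ⟨A, B, hAB, ht⟩ := omegaOdd (by rwa [Nat.card_eq_fintype_card]) hm h.iso
  exact h.not_twin hAB ht

/-- **`PΩ⁺_{2m}(u)`.** -/
theorem not_plus {F : Type} [Field F] [Fintype F] {m : ℕ} (hm : 4 ≤ m) (hpu : ¬ p ∣ Nat.card F)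
    (h : SC (POmega F (quadFormPlus m F)) p R W) : False := by
  have hcard := Cfsg.Agent.S0293.result (F := F) rfl m hm
  simp only [← Nat.card_eq_fintype_card] at hcard
  have h' := h
  rw [← coe_plusForm] at hcard h'
  have hu : 2 ≤ Nat.card F := Finite.one_lt_card
  have hR5 := h.R61
  have hrow := plus_row (sg_plusForm (F := F) m) hm hcard h'.iso
  obtain ⟨u, hud⟩ : ∃ u, u = Nat.card F := ⟨_, rfl⟩
  rw [← hud] at hrow hu hpu
  have hmul : u * u ^ (m - 1) = u ^ m := by rw [← pow_succ']; congr 1; omega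
  rcases hrow with ⟨hmo, h0, h1, x, hx⟩ | ⟨hmo, huo, h1, x, hx⟩ | ⟨hme, h0, h1, x, hx⟩ | ⟨hme, h0, h1, x, hx⟩
  · have hup := h'.upper ⟨x, hx⟩
    have e1 : 2 ^ m = 2 * 2 ^ (m - 1) := by rw [← pow_succ']; congr 1; omega
    rw [e1] at h1
    omega
  · have hW := h'.win x
    have hxpos := orderOf_pos x
    have hup := h'.nc.upper _ hxpos hW
    generalize orderOf x = E at hx hW hxpos hup
    have hcase : u = 3 ∨ u = 5 ∨ 7 ≤ u := by
      obtain ⟨k, hk⟩ := huo
      omega
    have hone : 1 ≤ u ^ (m - 1) := Nat.one_le_pow _ _ (by omega)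
    rcases hcase with hu3 | hu5 | hu7
    · -- `u = 3`
      have hp3 : p ≠ 3 := h.p_ne_three (u := u) (k := 1) hpu (by rw [pow_one]; exact hu3) le_rfl
      rw [hu3] at h1 hx hmul hone
      norm_num at h1 hx
      rw [← hmul] at h1
      exact h.nc.p3 E hp3 (by omega) hW
    · -- `u = 5`
      rw [hu5] at h1 hx hmul hone
      norm_num at h1 hx
      rw [← hmul] at h1
      exact h.nc.d5 E (by omega) hW
    · -- `7 ≤ u`
      obtain ⟨z, hz⟩ : ∃ z, u ^ (m - 1) = z + 1 := ⟨u ^ (m - 1) - 1, by omega⟩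
      rw [hz] at hx hmul
      rw [← hmul] at h1
      obtain ⟨y, rfl⟩ : ∃ y, u = y + 7 := ⟨u - 7, by omega⟩
      have e1 : y + 7 - 1 = y + 6 := by omega
      have e2 : (y + 7) * (z + 1) - 1 = (y + 7) * z + (y + 6) := by
        have : (y + 7) * (z + 1) = (y + 7) * z + (y + 6) + 1 := by ring
        omega
      rw [e1, e2] at h1
      have h3 : 40 * (E * (y + 6)) ≤ 56 * (R * (y + 6)) := by nlinarith
      have h4 : 40 * (E * (y + 6)) = 10 * ((z + 1 + 1) * (y + 7 + 1)) * (y + 6) := by rw [← hx]; ring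
      rw [h4, h1] at h3
      ring_nf at h3
      nlinarith [Nat.zero_le (y * z), Nat.zero_le (y ^ 2 * z), Nat.zero_le (y ^ 2), Nat.zero_le y, Nat.zero_le z]
  · have hup := h'.upper ⟨x, hx⟩
    have e1 : 2 ^ m = 2 * 2 ^ (m - 1) := by rw [← pow_succ']; congr 1; omega
    rw [e1] at hup
    omega
  · have hW := h'.win x
    have hxpos := orderOf_pos x
    generalize orderOf x = E at hx hW hxpos
    exact h.nc.near E hxpos hW (by omega) (by omega) (by omega)

/-- **`PΩ⁻_{2m}(u)`.** -/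
theorem not_minus {F : Type} [Field F] [Fintype F] {m : ℕ} (hm : 4 ≤ m) {a b : F}
    (hab : ∀ z₁ z₂ : F, z₁ ^ 2 + a * z₁ * z₂ + b * z₂ ^ 2 = 0 → z₁ = 0 ∧ z₂ = 0) (hpu : ¬ p ∣ Nat.card F)
    (h : SC (POmega F (quadFormMinus (m - 1) F a b)) p R W) : False := by
  have hcard := Cfsg.Agent.S0294.result (F := F) rfl m hm a b hab
  have hbd := (Cfsg.Agent.S2265.result (F := F) m).2.2 hm a b hab
  simp only [← Nat.card_eq_fintype_card] at hcard hbd
  have hs := sg_minusForm (F := F) (m - 1) hab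
  rw [Nat.sub_add_cancel (by omega)] at hs
  have h' := h
  rw [← coe_minusForm] at hcard h' hbd
  have hu : 2 ≤ Nat.card F := Finite.one_lt_card
  have hR5 := h.R61
  have hrow := minus_row hs hm hcard h'.iso
  have helt := fun h1 h2 => exists_minus_elt hs hm h1 h2
  obtain ⟨u, hud⟩ : ∃ u, u = Nat.card F := ⟨_, rfl⟩
  rw [← hud] at hrow helt hu hpu hbd
  have hmul : u * u ^ (m - 1) = u ^ m := by rw [← pow_succ']; congr 1; omega
  have hmul2 : u ^ 2 * u ^ (m - 2) = u ^ m := by rw [← pow_add]; congr 1; omega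
  rcases hrow with ⟨hme, -, h1, x, hx⟩ | ⟨hme, huo, h1, x, hx⟩ | ⟨hmo, huo, h1, -⟩ | ⟨hmo, h0, h1, x, hx⟩ | ⟨h0, A, B, a, b, -, -, hA, hB, hcase, h1⟩
  · -- `m` even, `u` even
    have hW := h'.win x
    have hxpos := orderOf_pos x
    rw [hx] at hW hxpos
    exact h.nc.uO u m 1 _ hpu hu hm one_pos (by rw [mul_one, h1]) (by rw [one_mul]) hxpos hW
  · -- `m` even, `u` odd
    have hu3 : 3 ≤ u := by
      obtain ⟨k, hk⟩ := huo
      omega
    exact h.nc.mO u m _ hpu hu3 hm hme h1 hx (orderOf_pos x) (h'.win x)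
  · -- `m` odd, `u` odd
    obtain ⟨x, hx⟩ := helt hmo huo
    have hW := h'.win x
    have hxpos := orderOf_pos x
    have hup := h'.nc.upper _ hxpos hW
    generalize orderOf x = E at hx hW hxpos hup
    have hu3 : 3 ≤ u := by
      obtain ⟨k, hk⟩ := huo
      omega
    have hone : 1 ≤ u ^ (m - 2) := Nat.one_le_pow _ _ (by omega)
    have hbig : 27 ≤ u ^ (m - 2) := by
      calc 27 = 3 ^ 3 := by norm_num
        _ ≤ u ^ 3 := Nat.pow_le_pow_left hu3 3
        _ ≤ _ := Nat.pow_le_pow_right (by omega) (by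
          obtain ⟨k, hk⟩ := hmo
          omega)
    rcases Nat.eq_or_lt_of_le hu3 with hu3' | hu4
    · -- `u = 3`
      have hp3 : p ≠ 3 := h.p_ne_three (u := u) (k := 1) hpu (by rw [pow_one]; exact hu3'.symm) le_rfl
      rw [← hu3'] at h1 hx hmul2
      norm_num at h1 hx
      rw [← hmul2] at h1
      have hcR : 9 * ((E : ℤ) - R) = R - 25 := by
        have hone3 : 1 ≤ 3 ^ (m - 2) := Nat.one_le_pow _ _ (by omega)
        omega
      exact h.nc.d3 E hp3 hcR hW
    · have hu5 : 5 ≤ u := by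
        obtain ⟨k, hk⟩ := huo
        omega
      obtain ⟨z, hz⟩ : ∃ z, u ^ (m - 2) = z + 1 := ⟨u ^ (m - 2) - 1, by omega⟩
      rw [hz] at hx hbig hmul2
      rw [Nat.add_sub_cancel] at hx
      rw [← hmul2] at h1
      have h3 : 40 * (E * (u + 1)) ≤ 56 * (R * (u + 1)) := by nlinarith
      have h4 : 40 * (E * (u + 1)) = 10 * ((u ^ 2 + 1) * z) * (u + 1) := by rw [← hx]; ring
      rw [h4, h1] at h3
      obtain ⟨y, rfl⟩ : ∃ y, u = y + 5 := ⟨u - 5, by omega⟩
      obtain ⟨t, rfl⟩ : ∃ t, z = t + 26 := ⟨z - 26, by omega⟩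
      ring_nf at h3
      nlinarith [Nat.zero_le (y * t), Nat.zero_le (y ^ 2 * t), Nat.zero_le (y ^ 3 * t), Nat.zero_le (y ^ 3),
        Nat.zero_le (y ^ 2), Nat.zero_le y, Nat.zero_le t]
  · -- `m` odd, `u = 2`
    have hup := h'.upper ⟨x, hx⟩
    have e1 : 2 ^ m = 2 * 2 ^ (m - 1) := by rw [← pow_succ']; congr 1; omega
    rw [e1] at hup
    omega
  · -- `u = 3`
    rw [h0] at hbd
    have e1 : 3 ^ m = 3 * 3 ^ (m - 1) := by rw [← pow_succ']; congr 1; omega
    have e2 : 3 ^ (m - 1) = 3 * 3 ^ (m - 2) := by rw [← pow_succ']; congr 1; omega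
    rcases h1 with ⟨h1, x, hx⟩ | h1
    · have hup := h'.upper ⟨x, hx⟩
      rcases hcase with ⟨-, ha, hb⟩ | ⟨-, ha, hb⟩ <;> rw [ha] at hA <;> rw [hb] at hB <;> omega
    · obtain ⟨x, hx⟩ := h'.iso.elt
      have h2 := hbd x
      rw [hx, h1] at h2
      have h3 : 8 * (A * B) = (3 ^ m + 1) * (3 ^ (m - 1) + 1) := by
        rw [hA, hB]
        rcases hcase with ⟨-, ha, hb⟩ | ⟨-, ha, hb⟩ <;> rw [ha, hb] <;> ring
      have h4 : 3 ^ (m + 1) = 3 * 3 ^ m := pow_succ' _ _
      norm_num at h2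
      rw [h4] at h2
      have h5 : m ≠ 4 := by
        rintro rfl
        norm_num at h3
        omega
      have h6 : 3 ^ 4 ≤ 3 ^ (m - 1) := Nat.pow_le_pow_right (by norm_num) (by omega)
      generalize 3 ^ (m - 1) = z at *
      rw [e1] at h2 h3
      nlinarith

end SC

end Cfsg.Agent.R2.Spec.X7
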