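import Cfsg.Agent.R2.Spec.X7.FamA
import Cfsg.Agent.S0280

/-!
# Elimination of `PSU_m(u)`, `PSL_2(u)`
-/

set_option autoImplicit false

namespace Cfsg.Agent.R2.Spec.X7

open Cfsg Cfsg.Agent.H360.Iso Cfsg.Agent.H948.UProd Cfsg.Agent.H948.UMain

namespace SC

variable {p R : ℕ} {W : ℕ → Prop}

/-- the numbers `R K = ph u (M - 1)`, `E = ph u (M - 2) / g` -/
theorem uType {T : Type*} [Group T] (h : SC T p R W) {u M g E : ℕ} (hu : 2 ≤ u) (hpu : ¬ p ∣ u) (hM : 5 ≤ M)
    (hg0 : 0 < g) (hK : R * g * (u + 1) = ph u (M - 1)) (hE : E * g = ph u (M - 2)) (hE0 : 0 < E) (hW : W E) :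
    False := by
  have hK0 : 0 < g * (u + 1) := Nat.mul_pos hg0 (by omega)
  rcases Nat.even_or_odd M with hMe | hMo
  · have ho1 : ¬ Even (M - 1) := by
      rw [Nat.not_even_iff_odd]
      obtain ⟨k, hk⟩ := hMe
      exact ⟨k - 1, by omega⟩
    have he2 : Even (M - 2) := by
      obtain ⟨k, hk⟩ := hMe
      exact ⟨k - 1, by omega⟩
    rw [ph_odd ho1, show M - 1 + 1 = M by omega] at hK
    rw [ph_even he2, show M - 2 + 1 = M - 1 by omega] at hE
    have h1 : R * (g * (u + 1)) = u ^ M - 1 := by rw [← hK]; ring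
    have h2 : g * (u + 1) * E = (u ^ (M - 1) + 1) * (u + 1) := by rw [← hE]; ring
    have hM6 : 6 ≤ M := by
      obtain ⟨k, hk⟩ := hMe
      omega
    exact h.nc.uE u M _ E hpu hu hM6 h1 h2 hE0 hW
  · have ho1 : Even (M - 1) := by
      obtain ⟨k, hk⟩ := hMo
      exact ⟨k, by omega⟩
    have he2 : ¬ Even (M - 2) := by
      rw [Nat.not_even_iff_odd]
      obtain ⟨k, hk⟩ := hMo
      exact ⟨k - 1, by omega⟩
    rw [ph_even ho1, show M - 1 + 1 = M by omega] at hK
    rw [ph_odd he2, show M - 2 + 1 = M - 1 by omega] at hE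
    have h1 : R * (g * (u + 1)) = u ^ M + 1 := by rw [← hK]; ring
    have h2 : g * (u + 1) * E = (u ^ (M - 1) - 1) * (u + 1) := by rw [← hE]; ring
    exact h.nc.uO u M _ E hpu hu (by omega) hK0 h1 h2 hE0 hW

/-- **`PSU_m(u)`** -/
theorem not_psu {F : Type} [Field F] [Fintype F] {m u : ℕ} (hF : Fintype.card F = u ^ 2) (hm : 3 ≤ m)
    (h32 : ¬ (m = 3 ∧ u = 2)) (hpu : ¬ p ∣ u) (h : SC (PSU m F u) p R W) : False := by
  have hu : 2 ≤ u := LieClassical.HermBasic.two_le hF
  have hR5 := h.R61
  rcases psu_row hF hm h32 h.iso with ⟨h1, x, hx⟩ | ⟨hm4, h0, h1, h2⟩ | ⟨-, -, h1⟩ | ⟨-, -, h1⟩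
  · have hW := h.win x
    have hxpos := orderOf_pos x
    generalize orderOf x = E at hx hW hxpos
    have hg0 : 0 < Nat.gcd m (u + 1) := Nat.gcd_pos_of_pos_left _ (by omega)
    have hgv : Nat.gcd m (u + 1) ≤ u + 1 := Nat.gcd_le_right _ (by omega)
    have hgm : Nat.gcd m (u + 1) ≤ m := Nat.gcd_le_left _ (by omega)
    generalize hg : Nat.gcd m (u + 1) = g at h1 hx hg0 hgv hgm
    rcases Nat.lt_or_ge m 5 with hm5 | hm5
    · rcases Nat.eq_or_lt_of_le hm with hm3 | hm4
      · -- `m = 3`
        subst hm3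
        rw [ph_even (by decide)] at h1
        rw [ph_odd (by decide)] at hx
        obtain ⟨v, rfl⟩ : ∃ v, u = v + 1 := ⟨u - 1, by omega⟩
        have hRg : R * g = v ^ 2 + v + 1 := by
          apply Nat.eq_of_mul_eq_mul_right (show 0 < v + 1 + 1 by omega)
          rw [h1]
          ring
        have hRZ : (R : ℤ) * g = ((v + 1 : ℕ) : ℤ) ^ 2 - ((v + 1 : ℕ) : ℤ) + 1 := by
          have h5 : ((R * g : ℕ) : ℤ) = ((v ^ 2 + v + 1 : ℕ) : ℤ) := by rw [hRg]
          push_cast at h5 ⊢
          linarith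
        have hEZ : (E : ℤ) * g = ((v + 1 : ℕ) : ℤ) ^ 2 - 1 := by
          have h3 : ((E * g : ℕ) : ℤ) = (((v + 1) ^ (3 - 2 + 1) - 1 : ℕ) : ℤ) := by rw [hx]
          rw [Nat.cast_sub (Nat.one_le_pow _ _ (by omega))] at h3
          push_cast at h3 ⊢
          exact h3
        have hv : 8 ≤ v := by
          by_contra hcon
          have h3 : v ≤ 7 := by omega
          have h4 : v ^ 2 ≤ 7 ^ 2 := Nat.pow_le_pow_left h3 2
          have h5 : R ≤ R * g := Nat.le_mul_of_pos_right _ hg0
          omega
        obtain ⟨hR547, hu41⟩ := h.nc.uT (v + 1) g E (by omega) hRZ hEZ hxpos hW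
        refine h.s41 hR547 ?_
        have hcard := Cfsg.Agent.S0280.result (F := F) (q := v + 1) hF 3 (by norm_num)
        have h41 : 41 ∣ Nat.gcd 3 (v + 1 + 1) * ((v + 1 + 1) * Nat.card (PSU 3 F (v + 1))) := by
          rw [hcard]
          refine Dvd.dvd.mul_right ?_ _
          rw [hu41]
          norm_num
        have hc1 : Nat.Coprime 41 (Nat.gcd 3 (v + 1 + 1)) := by rw [show v + 1 + 1 = 42 by omega]; decide
        have hc2 : Nat.Coprime 41 (v + 1 + 1) := by rw [show v + 1 + 1 = 42 by omega]; decide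
        exact hc2.dvd_of_dvd_mul_left (hc1.dvd_of_dvd_mul_left h41)
      · -- `m = 4`
        have hm4 : m = 4 := by omega
        subst hm4
        rw [ph_odd (by decide)] at h1
        obtain ⟨v, rfl⟩ : ∃ v, u = v + 1 := ⟨u - 1, by omega⟩
        have hRg : R * g = v * ((v + 1) ^ 2 + 1) := by
          apply Nat.eq_of_mul_eq_mul_right (show 0 < v + 1 + 1 by omega)
          rw [h1]
          have : (v + 1) ^ (4 - 1 + 1) = v * ((v + 1) ^ 2 + 1) * (v + 1 + 1) + 1 := by ring
          omega
        have hE2 := exists_blockU hF (n := 4) (k := 2) (by norm_num) (by norm_num)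
        rw [ph_odd (by decide)] at hE2
        have hcop : Nat.Coprime R v := by
          refine Nat.coprime_of_dvd fun r hr hrR hrv => ?_
          have h3 : v * (v + 2) = (v + 1) ^ (2 - 1 + 1) - 1 := by
            have : (v + 1) ^ (2 - 1 + 1) = v * (v + 2) + 1 := by ring
            omega
          have h4 : r ∣ (v + 1) ^ (2 - 1 + 1) - 1 := by rw [← h3]; exact hrv.mul_right _
          have h5 := h.iso.dvd_of_elt hE2 hr hrR h4
          rw [← h3] at h5
          have h6 : v * (v + 2) ∣ v * ((v + 1) ^ 2 + 1) := by rw [← hRg]; exact h5.mul_right _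
          have h7 := Nat.dvd_of_mul_dvd_mul_left (by omega) h6
          have h8 : (v + 1) ^ 2 + 1 = (v + 2) * v + 2 := by ring
          rw [h8, Nat.dvd_add_right (dvd_mul_right _ _)] at h7
          have := Nat.le_of_dvd (by norm_num) h7
          omega
        have hRd : R ∣ (v + 1) ^ 2 + 1 := by
          refine hcop.dvd_of_dvd_mul_left ?_
          rw [← hRg]
          exact dvd_mul_right _ _
        obtain ⟨j, hj⟩ := hRd
        have hj0 : 0 < j := by
          rcases Nat.eq_zero_or_pos j with h3 | h3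
          · rw [h3, mul_zero] at hj; omega
          · exact h3
        have hvj : g = v * j := by
          apply Nat.eq_of_mul_eq_mul_left (show 0 < R by omega)
          rw [hRg, hj]
          ring
        have hv4 : v ≤ 4 := by
          have : v ≤ v * j := Nat.le_mul_of_pos_right _ hj0
          omega
        have h3 : (v + 1) ^ 2 ≤ 5 ^ 2 := Nat.pow_le_pow_left (by omega) 2
        have h4 : R ≤ R * j := Nat.le_mul_of_pos_right _ hj0
        omega
    · exact h.uType hu hpu hm5 hg0 h1 hx hxpos hW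
  · -- second row
    have hum := Nat.le_of_dvd (by omega) h0
    rcases Nat.lt_or_ge m 6 with hm6 | hm6
    · have hm45 : m = 4 ∨ m = 5 := by omega
      rcases hm45 with rfl | rfl
      · have hu3 : u = 3 := by
          have : u = 2 ∨ u = 3 := by omega
          rcases this with h3 | h3
          · rw [h3] at h0; revert h0; norm_num
          · exact h3
        rw [hu3, ph_even (by decide)] at h1
        norm_num at h1
        omega
      · have hu4 : u = 4 := by
          have : u = 2 ∨ u = 3 ∨ u = 4 := by omega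
          rcases this with h3 | h3 | h3
          · rw [h3] at h0; revert h0; norm_num
          · rw [h3] at h0; revert h0; norm_num
          · exact h3
        rw [hu4, ph_odd (by decide)] at h1
        norm_num at h1
        omega
    · obtain ⟨x, hx⟩ := exists_blockU hF (n := m) (k := m - 2) (by omega) (by omega)
      have hW := h.win x
      have hxpos := orderOf_pos x
      rw [hx] at hW hxpos
      refine h.uType (M := m - 1) (g := 1) hu hpu (by omega) one_pos ?_ ?_ hxpos hW
      · rw [mul_one, h1, show m - 1 - 1 = m - 2 by omega]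
      · rw [mul_one, show m - 2 - 1 = m - 1 - 2 by omega]
  · omega
  · have := h.nc.big
    omega

theorem not_psl2 {F : Type} [Field F] [Fintype F] (h4 : 4 ≤ Fintype.card F)
    (h : SC (Matrix.ProjectiveSpecialLinearGroup (Fin 2) F) p R W) : False := by
  obtain ⟨r, hp⟩ := CharP.exists F
  have hpf : Fact r.Prime := ⟨CharP.char_is_prime F r⟩
  obtain ⟨hA, hB, hk⟩ := psl2_row r h4 h.iso
  have hR5 := h.R61
  set u := Fintype.card F with hud
  obtain ⟨t, hpr, ht⟩ := FiniteField.card F r
  rw [← hud] at ht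
  have ht0 := t.pos
  rcases Nat.even_or_odd u with he | ho
  · have hg : Nat.gcd 2 (u - 1) = 1 := Nat.coprime_two_left.2 (Nat.Even.sub_odd (by omega) he odd_one)
    rw [hg, Nat.div_one, Nat.div_one] at hk
    rw [hg, Nat.div_one] at hA hB
    rcases hk with h1 | h1 | h1
    · exact h.nc.near (u + 1) (by omega) (h.wd hB) (by omega) (by omega) (by omega)
    · exact h.nc.near (u - 1) (by omega) (h.wd hA) (by omega) (by omega) (by omega)
    · have h2 : r = 2 := by
        have h3 : 2 ∣ r ^ (t : ℕ) := ht ▸ even_iff_two_dvd.1 he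
        exact ((Nat.prime_dvd_prime_iff_eq Nat.prime_two hpr).1 (Nat.prime_two.dvd_of_dvd_pow h3)).symm
      omega
  · obtain ⟨a, ha⟩ := ho
    have hg : Nat.gcd 2 (u - 1) = 2 := Nat.gcd_eq_left ⟨a, by omega⟩
    rw [hg] at hk hA hB
    have e1 : (u - 1) / 2 = a := by omega
    have e2 : (u + 1) / 2 = a + 1 := by omega
    rw [e1] at hA hk
    rw [e2] at hB hk
    rcases hk with h1 | h1 | h1
    · exact h.nc.near (a + 1) (by omega) (h.wd hB) (by omega) (by omega) (by omega)
    · exact h.nc.near a (by omega) (h.wd hA) (by omega) (by omega) (by omega)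
    · rcases Nat.lt_or_ge 1 (t : ℕ) with h2 | h2
      · have hfin : Finite (Matrix.ProjectiveSpecialLinearGroup (Fin 2) F) := inferInstance
        have hup := h.upper hB
        have h3 : R ^ 2 ≤ u := by
          rw [ht, h1]
          exact Nat.pow_le_pow_right hpr.pos h2
        have h6 : 61 * R ≤ R ^ 2 := by
          rw [pow_two]; exact Nat.mul_le_mul_right _ hR5
        omega
      · have h3 : (t : ℕ) = 1 := by omega
        rw [h3, pow_one, ← h1] at ht
        have hRp : R.Prime := by rw [h1]; exact hpr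
        have hW := h.wd hB
        have hBd : a + 1 ∣ Nat.card (Matrix.ProjectiveSpecialLinearGroup (Fin 2) F) := by
          obtain ⟨x, hx⟩ := hB
          rw [← hx]
          exact orderOf_dvd_natCard x
        rcases h.nc.half (a + 1) hRp (by omega) hW with h5 | h5 | h5
        · exact h.s31 h5 (dvd_trans (by rw [show a + 1 = 31 by omega]) hBd)
        · exact h.s197 h5 (dvd_trans ⟨3, by omega⟩ hBd)
        · exact h.s137 h5 (dvd_trans ⟨2, by omega⟩ hBd)

end SC

end Cfsg.Agent.R2.Spec.X7
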