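import Cfsg.Agent.R2.Spec.X7.FamB
import Cfsg.Agent.R2.Spec.X7.ExcX
import Cfsg.Agent.H437.Win.FamE
import Cfsg.Agent.H437.Win.Lie

/-!
# Elimination of the exceptional families; all groups of Lie type
-/

set_option autoImplicit false

namespace Cfsg.Agent.R2.Spec.X7

open Cfsg Cfsg.Lie Cfsg.Agent.H360.Iso Cfsg.Agent.H437.Iso Cfsg.Agent.H366.Iso Cfsg.Agent.H414.Iso
open Cfsg.Agent.H437.Win (not_dvd_card)
open Cfsg.Agent.H437.Win.UWin (castA castB)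

universe u

namespace SC

variable {p R : ℕ} {W : ℕ → Prop}

theorem not_g2 {F : Type u} [Field F] [Finite F] (h : SC ↥(chevG2.group F) p R W) : False := by
  have hu : 1 ≤ Nat.card F := Finite.one_lt_card.le
  refine h.nc.gTwo (u := Nat.card F) (by push_cast; ring) (g2_cast6 _)
    (by rw [Nat.cast_sub (Nat.one_le_pow _ _ hu)]; push_cast; ring) (h.wd (g2_order3 (F := F)))
    (h.wd (g2_order6 (F := F))) (h.wd (g2_order1 (F := F))) (g2_row h.iso)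

theorem not_f4 {F : Type u} [Field F] [Finite F] (h : SC ↥(chevF4.group F) p R W) : False := by
  have hu : 1 ≤ Nat.card F := Finite.one_lt_card.le
  refine h.nc.dFour (u := Nat.card F) (castA hu) (castB hu) (h.wd (f4_orderA (F := F)))
    (h.wd (f4_orderB (F := F))) ?_
  rcases f4_row h.iso with h1 | ⟨-, h1⟩
  · left; rw [h1, f4_cast12]
  · right; rw [h1]; push_cast; ring

theorem not_d4t {K : Type u} [Field K] [Fintype K] {u : ℕ} (hu : IsPrimePow u) (hK : Fintype.card K = u ^ 3)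
    (h : SC ↥(twistedD4 K u) p R W) : False := by
  have hu1 : 1 ≤ u := hu.one_lt.le
  refine h.nc.dFour (u := u) (castA hu1) (castB hu1) (h.wd (d4_orderA hu hK)) (h.wd (d4_orderB hu hK)) ?_
  left
  rw [d4_row hu hK h.iso, f4_cast12]

theorem not_e6 {F : Type u} [Field F] [Finite F] (h : SC ↥(chevE6.group F) p R W) : False := by
  have h2 : 1 < Nat.card F := Finite.one_lt_card
  have hA := h.wd (e6_orderA (F := F))
  have hC := h.wd (e6_orderC (F := F))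
  have hR := e6_row h.iso
  have hgA : Nat.gcd 3 (Nat.card F - 1) ∣ (Nat.card F ^ 5 - 1) * (Nat.card F + 1) := by
    refine Dvd.dvd.mul_right ((Nat.gcd_dvd_right _ _).trans ?_) _
    have := Nat.sub_dvd_pow_sub_pow (Nat.card F) 1 5
    rwa [one_pow] at this
  have hgC : Nat.gcd 3 (Nat.card F - 1) ∣ (Nat.card F ^ 2 + Nat.card F + 1) * (Nat.card F ^ 4 - Nat.card F ^ 2 + 1) :=
    Dvd.dvd.mul_right (g3_dvd _ h2.le) _
  refine h.nc.eSix (u := Nat.card F) ((Nat.dvd_prime Nat.prime_three).1 (Nat.gcd_dvd_left 3 (Nat.card F - 1)))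
    (by exact_mod_cast hR) ?_ ?_ hC hA
  · rw [← Nat.cast_mul, Nat.div_mul_cancel hgC, Nat.cast_mul, f4_cast12]
    push_cast
    ring
  · rw [← Nat.cast_mul, Nat.div_mul_cancel hgA, Nat.cast_mul, Nat.cast_sub (Nat.one_le_pow _ _ h2.le)]
    push_cast
    ring

theorem not_e6t {K : Type u} [Field K] [Fintype K] {u : ℕ} (hu : IsPrimePow u) (hK : Fintype.card K = u ^ 2)
    (h : SC ↥(twistedE6 K u) p R W) : False := by
  have h2 : 1 < u := hu.one_lt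
  have hA := h.wd (e6t_orderA hu hK)
  have hC := h.wd (e6t_orderC hu hK)
  rcases e6t_row hu hK h.iso with hR | ⟨-, hR⟩
  · have hgA : Nat.gcd 3 (u + 1) ∣ (u ^ 5 + 1) * (u - 1) := (gt3_dvd5 u).mul_right _
    have hgC : Nat.gcd 3 (u + 1) ∣ (u ^ 2 - u + 1) * (u ^ 4 - u ^ 2 + 1) := (gt3_dvd6 u).mul_right _
    refine h.nc.eSixT (u := u) ((Nat.dvd_prime Nat.prime_three).1 (Nat.gcd_dvd_left 3 (u + 1)))
      (by rw [← e6t_cast18]; exact_mod_cast hR) ?_ ?_ hC hA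
    · rw [← Nat.cast_mul, Nat.div_mul_cancel hgC, Nat.cast_mul, e6t_cast12, e6t_cast6]
    · rw [← Nat.cast_mul, Nat.div_mul_cancel hgA, Nat.cast_mul, Nat.cast_sub h2.le]
      push_cast
      ring
  · -- `R ∣ 13 * 17 * 19`, `13 ∤ R`
    have h13 : Nat.Coprime R 13 := ((Nat.Prime.coprime_iff_not_dvd (by norm_num)).2 h.nc.n13).symm
    have h3 : R ∣ 17 * 19 := by
      refine h13.dvd_of_dvd_mul_left ?_
      rw [show 13 * (17 * 19) = 13 * 17 * 19 by norm_num]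
      exact hR
    have h4 := Nat.le_of_dvd (by norm_num) h3
    rcases h.nc.big with h5 | h5 | h5 | h5 | h5 | h5 | h5 | h5 | h5
    · rw [h5] at h3; revert h3; norm_num
    · rw [h5] at h3; revert h3; norm_num
    all_goals omega

theorem not_e7 {F : Type u} [Field F] [Finite F] (hpu : ¬ p ∣ Nat.card F) (h : SC ↥(chevE7.group F) p R W) : False := by
  have h4 := h.nc.big
  rcases e7_row h.iso with ⟨-, h1 | h1⟩ | ⟨h0, h1 | h1⟩
  · omega
  · omega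
  · omega
  · rw [h0, h.nc.c1093 h1] at hpu
    exact hpu dvd_rfl

theorem not_e8 {F : Type u} [Field F] [Finite F] (h : SC ↥(chevE8.group F) p R W) : False := by
  have h2 : 2 ≤ Nat.card F := Finite.one_lt_card
  exact h.nc.eEight (u := Nat.card F) (cast15 h2) (cast20 h2) (cast24 h2) (cast30 h2) (h.wd (e8_order15 (F := F)))
    (h.wd (e8_order20 (F := F))) (h.wd (e8_order24 (F := F))) (h.wd (e8_order30 (F := F))) (e8_row h.iso)

theorem not_f4t {K : Type u} [Field K] [Fintype K] {m : ℕ} (hm : 1 ≤ m) (hK : Fintype.card K = 2 ^ (2 * m + 1))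
    (h : SC ↥(twistedF4 K (2 ^ m)) p R W) : False := by
  obtain ⟨b, hb⟩ : ∃ b, b = 2 ^ m := ⟨_, rfl⟩
  have hb1 : 1 ≤ b := by rw [hb]; exact Nat.one_le_two_pow
  obtain ⟨c, hc⟩ : ∃ c, b = c + 1 := ⟨b - 1, by omega⟩
  obtain ⟨M, hM⟩ : ∃ M : ℕ, (M : ℤ) = 4 * (b : ℤ) ^ 4 - 4 * (b : ℤ) ^ 3 + 2 * (b : ℤ) ^ 2 - 2 * b + 1 := by
    refine ⟨4 * c ^ 4 + 12 * c ^ 3 + 14 * c ^ 2 + 6 * c + 1, ?_⟩
    rw [hc]
    push_cast
    ring
  obtain ⟨N, hN⟩ : ∃ N : ℕ, (N : ℤ) = 4 * (b : ℤ) ^ 4 - 2 * (b : ℤ) ^ 2 + 1 := by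
    refine ⟨4 * c ^ 4 + 16 * c ^ 3 + 22 * c ^ 2 + 12 * c + 3, ?_⟩
    rw [hc]
    push_cast
    ring
  have hM' : M + 4 * b ^ 3 + 2 * b = 4 * b ^ 4 + 2 * b ^ 2 + 1 := by
    have : ((M + 4 * b ^ 3 + 2 * b : ℕ) : ℤ) = ((4 * b ^ 4 + 2 * b ^ 2 + 1 : ℕ) : ℤ) := by
      push_cast
      rw [hM]
      ring
    exact_mod_cast this
  have hP := h.wd (f4t_plus hK hb)
  have hMw := h.wd (f4t_minus hK hb hM')
  have hNw := h.wd (f4t_order6 hK hb hN)
  have hrow := f4t_row' hK hm hb h.iso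
  have hbig := h.nc.big
  have hb8 : 6 ≤ b := by
    have h1 : m = 1 ∨ m = 2 ∨ 3 ≤ m := by omega
    rcases h1 with h1 | h1 | h1
    · rw [h1] at hb
      norm_num at hb
      rw [hb] at hrow
      norm_num at hrow
      rcases hrow with h2 | h2 <;> omega
    · rw [h1] at hb
      norm_num at hb
      rw [hb] at hrow
      norm_num at hrow
      rcases hrow with h2 | h2 <;> omega
    · have : 2 ^ 3 ≤ 2 ^ m := Nat.pow_le_pow_right (by norm_num) h1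
      omega
  refine h.nc.fFourT (r := b) hb8 ?_ hM hN hP hMw hNw ?_
  · push_cast; ring
  · rcases hrow with h1 | h1
    · exact Or.inl h1
    · right; omega

/-- **Ree groups** -/
theorem not_ree {K : Type u} [Field K] [Fintype K] {m : ℕ} (hm : 1 ≤ m) (hK : Fintype.card K = 3 ^ (2 * m + 1))
    (h : SC ↥(twistedG2 K (3 ^ m)) p R W) : False := by
  have hb := h.iso.big
  have hR61 := h.R61
  have hsp := S1159.result (K := K) hm hK
  obtain ⟨t, ht, ht3⟩ : ∃ t, 3 ^ m = t ∧ 3 ≤ t := ⟨3 ^ m, rfl, by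
    calc 3 = 3 ^ 1 := by norm_num
      _ ≤ 3 ^ m := Nat.pow_le_pow_right (by norm_num) hm⟩
  have e1 : 3 ^ (2 * m + 1) = 3 * t ^ 2 := by
    rw [← ht, ← pow_mul, pow_succ]
    ring
  have e2 : 3 ^ (m + 1) = 3 * t := by
    rw [← ht]
    ring
  have hto : Odd t := by
    rw [← ht]
    exact (by decide : Odd 3).pow
  rw [e1, e2] at hsp
  have hexi : ∀ d, (d ∣ 6 ∨ d ∣ 9 ∨ d ∣ 3 * t ^ 2 - 1 ∨ d ∣ (3 * t ^ 2 + 1) / 2 ∨ d ∣ 3 * t ^ 2 - 3 * t + 1 ∨
      d ∣ 3 * t ^ 2 + 3 * t + 1) → ∃ g : ↥(Cfsg.Lie.twistedG2 K (3 ^ m)), orderOf g = d := fun d hd => (hsp d).2 hd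
  obtain ⟨a, ha⟩ := hto
  have ht2 : t ^ 2 = 4 * a ^ 2 + 4 * a + 1 := by rw [ha]; ring
  have hC := hexi _ (Or.inr (Or.inr (Or.inr (Or.inr (Or.inl dvd_rfl)))))
  have hB := hexi _ (Or.inr (Or.inr (Or.inr (Or.inr (Or.inr dvd_rfl)))))
  have hA := hexi _ (Or.inr (Or.inr (Or.inl dvd_rfl)))
  have hD := hexi _ (Or.inr (Or.inr (Or.inr (Or.inl dvd_rfl))))
  have htt : 3 * t ≤ t ^ 2 := by nlinarith
  obtain ⟨r, hr, hrn⟩ := h.iso.exists_prime
  have key : R = 3 * t ^ 2 + 3 * t + 1 ∨ R = 3 * t ^ 2 - 3 * t + 1 := by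
    rcases (hsp R).1 h.iso.elt with h1 | h1 | h1 | h1 | h1 | h1
    · have := Nat.le_of_dvd (by norm_num) h1
      omega
    · have := Nat.le_of_dvd (by norm_num) h1
      omega
    · exfalso
      refine h.iso.not_two_dvd (dvd_trans ?_ (h.iso.dvd_of_elt hA hr hrn (hrn.trans h1)))
      exact ⟨6 * a ^ 2 + 6 * a + 1, by omega⟩
    · exfalso
      refine h.iso.not_two_dvd (dvd_trans ?_ (h.iso.dvd_of_elt hD hr hrn (hrn.trans h1)))
      exact ⟨3 * a ^ 2 + 3 * a + 1, by omega⟩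
    · exact Or.inr (Nat.dvd_antisymm h1 (h.iso.dvd_of_elt hC hr hrn (hrn.trans h1)))
    · exact Or.inl (Nat.dvd_antisymm h1 (h.iso.dvd_of_elt hB hr hrn (hrn.trans h1)))
  have ht9 : 9 ≤ t := by
    rcases Nat.eq_or_lt_of_le hm with h1 | h1
    · rw [← h1, pow_one] at ht
      rw [← ht] at key
      norm_num at key
      omega
    · have : 3 ^ 2 ≤ 3 ^ m := Nat.pow_le_pow_right (by norm_num) h1
      omega
  refine h.nc.szRee (u := 3 * t ^ 2) (s := 3 * t) (Or.inr ⟨by push_cast; ring, by omega⟩) ?_ ?_ ?_ (h.wd hB) (h.wd hC)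
    (h.wd hA) (key.imp id Or.inl)
  · push_cast; ring
  · rw [Nat.cast_add, Nat.cast_sub (by omega)]
    push_cast
    ring
  · rw [Nat.cast_sub (by omega)]
    push_cast
    ring

/-- **Suzuki groups** -/
theorem not_sz {F : Type} [Field F] [Fintype F] {m : ℕ} (hm : 1 ≤ m) (hF : Fintype.card F = 2 ^ (2 * m + 1))
    (h : SC (Cfsg.Sz F m) p R W) : False := by
  have hR61 := h.R61
  obtain ⟨hs, hA, hB, hC⟩ := Cfsg.Agent.H372.SzSpec.spec (F := F) hm hF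
  obtain ⟨t, ht, ht2⟩ : ∃ t, 2 ^ m = t ∧ 2 ≤ t := ⟨2 ^ m, rfl, by
    calc 2 = 2 ^ 1 := by norm_num
      _ ≤ 2 ^ m := Nat.pow_le_pow_right (by norm_num) hm⟩
  have e1 : 2 ^ (2 * m + 1) = 2 * t ^ 2 := by
    rw [← ht, ← pow_mul, pow_succ]
    ring
  have e2 : 2 ^ (m + 1) = 2 * t := by
    rw [← ht]
    ring
  rw [e1, e2] at hs hB hC
  rw [e1] at hA
  have hww : 2 * t ≤ t ^ 2 := by nlinarith
  obtain ⟨x, hx⟩ := h.iso.elt
  obtain ⟨r, hr, hrn⟩ := h.iso.exists_prime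
  have hso := hs x (by rw [hx]; exact h.iso.odd)
  rw [hx] at hso
  have key : R = 2 * t ^ 2 + 2 * t + 1 ∨ R = 2 * t ^ 2 - 2 * t + 1 ∨ R = 2 * t ^ 2 - 1 := by
    rcases hso with h1 | h1 | h1
    · exact Or.inr (Or.inr (Nat.dvd_antisymm h1 (h.iso.dvd_of_elt hA hr hrn (hrn.trans h1))))
    · exact Or.inl (Nat.dvd_antisymm h1 (h.iso.dvd_of_elt hB hr hrn (hrn.trans h1)))
    · exact Or.inr (Or.inl (Nat.dvd_antisymm h1 (h.iso.dvd_of_elt hC hr hrn (hrn.trans h1))))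
  have ht8 : 8 ≤ t := by
    have h1 : m = 1 ∨ m = 2 ∨ 3 ≤ m := by omega
    rcases h1 with h1 | h1 | h1
    · rw [h1] at ht
      norm_num at ht
      rw [← ht] at key
      norm_num at key
      omega
    · rw [h1] at ht
      norm_num at ht
      rw [← ht] at key
      norm_num at key
      omega
    · have : 2 ^ 3 ≤ 2 ^ m := Nat.pow_le_pow_right (by norm_num) h1
      omega
  refine h.nc.szRee (u := 2 * t ^ 2) (s := 2 * t) (Or.inl ⟨by push_cast; ring, by omega⟩) ?_ ?_ ?_ (h.wd hB) (h.wd hC)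
    (h.wd hA) key
  · push_cast; ring
  · rw [Nat.cast_add, Nat.cast_sub (by omega)]
    push_cast
    ring
  · rw [Nat.cast_sub (by omega)]
    push_cast
    ring

/-- **The groups of Lie type in characteristic `r ≠ p`.** -/
theorem not_lie {T : Type*} [Group T] {r : ℕ} (h : SC T p R W) (hr : r.Prime) (hrp : r ≠ p) :
    ¬ IsLieTypeChar r T := by
  have hp := h.nc.hp
  rintro (h1 | h1 | h1 | h1 | h1 | h1 | h1 | h1 | ⟨-, h1⟩ | ⟨-, h1⟩ | ⟨-, h1⟩)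
  · obtain ⟨F, _, _, _, m, hm, h2, ⟨e⟩⟩ := h1
    rcases Nat.eq_or_lt_of_le hm with hm2 | hm3
    · subst hm2
      exact (h.congr e).not_psl2 (h2 rfl)
    · refine (h.congr e).not_psl hm3 ?_
      rw [Nat.card_eq_fintype_card]
      exact not_dvd_card hr hp hrp
  · obtain ⟨F, _, _, _, m, hm, -, ⟨e⟩⟩ := h1
    exact (h.congr e).not_psp hm
  · obtain ⟨F, _, _, _, m, u, hF, hm, h32, ⟨e⟩⟩ := h1
    refine (h.congr e).not_psu hF hm h32 fun hd => ?_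
    have h3 := not_dvd_card (F := F) hr hp hrp
    rw [hF] at h3
    exact h3 (dvd_pow hd (by norm_num))
  · obtain ⟨F, _, _, _, m, hm, ho, ⟨e⟩⟩ := h1
    exact (h.congr e).not_omegaOdd hm ho
  · obtain ⟨F, _, _, _, m, hm, ⟨e⟩⟩ := h1
    refine (h.congr e).not_plus hm ?_
    rw [Nat.card_eq_fintype_card]
    exact not_dvd_card hr hp hrp
  · obtain ⟨F, _, _, _, m, a, b, hm, hab, ⟨e⟩⟩ := h1
    refine (h.congr e).not_minus hm hab ?_
    rw [Nat.card_eq_fintype_card]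
    exact not_dvd_card hr hp hrp
  · obtain ⟨F, _, _, _, ⟨-, ⟨e⟩⟩ | ⟨⟨e⟩⟩ | ⟨⟨e⟩⟩ | ⟨⟨e⟩⟩ | ⟨⟨e⟩⟩⟩ := h1
    · exact (h.congr e).not_g2
    · exact (h.congr e).not_f4
    · exact (h.congr e).not_e6
    · refine (h.congr e).not_e7 ?_
      rw [Nat.card_eq_fintype_card]
      exact not_dvd_card hr hp hrp
    · exact (h.congr e).not_e8
  · obtain ⟨K, _, _, _, u, hu, ⟨hK, ⟨e⟩⟩ | ⟨hK, ⟨e⟩⟩⟩ := h1
    · exact (h.congr e).not_e6t hu hK
    · exact (h.congr e).not_d4t hu hK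
  · obtain ⟨F, _, _, m, hm, hF, ⟨e⟩⟩ := h1
    obtain ⟨i⟩ := Cfsg.Agent.OddCyclic.ClaimC.SzIso.iso hm hF
    exact (h.congr (e.trans i.symm)).not_sz hm hF
  · obtain ⟨K, _, _, m, hm, hK, ⟨e⟩⟩ := h1
    exact (h.congr e).not_f4t hm hK
  · obtain ⟨K, _, _, m, hm, hK, ⟨e⟩⟩ := h1
    exact (h.congr e).not_ree hm hK

end SC

end Cfsg.Agent.R2.Spec.X7
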