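import Cfsg.Agent.R2.Spec.X7.Window

/-!
# The window lemma for `PSL_n(q)`, `PSU_n(q)`
-/

set_option autoImplicit false

namespace Cfsg.Agent.R2.Spec.X7

open Finset Function Cfsg
open Cfsg.Agent.H437.Win (count_stable sg' sg'_injective)

theorem ua_plus {q : ℕ} (hq : 1 ≤ q) (a : ℕ) : ua (q : ℤ) a = q ^ a - 1 := by
  have h1 : 1 ≤ q ^ a := Nat.one_le_pow _ _ hq
  have h2 : ((q : ℤ) ^ a - 1) = ((q ^ a - 1 : ℕ) : ℤ) := by
    rw [Nat.cast_sub h1]; push_cast; ring
  rw [ua, h2, Int.natAbs_natCast]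

theorem ua_minus_even {q a : ℕ} (hq : 1 ≤ q) (ha : Even a) : ua (-(q : ℤ)) a = q ^ a - 1 := by
  rw [ua, ha.neg_pow, ← ua, ua_plus hq]

theorem ua_minus_odd {q a : ℕ} (ha : Odd a) : ua (-(q : ℤ)) a = q ^ a + 1 := by
  have h2 : ((-(q : ℤ)) ^ a - 1) = -((q ^ a + 1 : ℕ) : ℤ) := by
    rw [ha.neg_pow]; push_cast; ring
  rw [ua, h2, Int.natAbs_neg, Int.natAbs_natCast]

theorem par_plus {q : ℕ} (hq : 3 ≤ q) : Par (q : ℤ) q (q - 1) q := by
  refine ⟨Int.natAbs_natCast q, ?_, hq, by omega, by omega, ?_, ?_, ?_⟩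
  · have := ua_plus (q := q) (by omega) 1
    rwa [ua, pow_one, pow_one] at this
  · calc q = q * 1 := (mul_one q).symm
      _ ≤ _ := Nat.mul_le_mul_left _ (by omega)
  · intro a ha
    rw [ua_plus (by omega)]
    obtain ⟨b, rfl⟩ : ∃ b, a = b + 1 := ⟨a - 1, by omega⟩
    rw [Nat.add_sub_cancel, ← pow_succ]
    omega
  · intro a ha
    rw [ua_plus (by omega)]
    have h1 : 3 ^ 1 ≤ q ^ a := (Nat.pow_le_pow_left hq 1).trans (Nat.pow_le_pow_right (by omega) ha)
    omega

theorem par_minus {q : ℕ} (hq : 3 ≤ q) : Par (-(q : ℤ)) q (q + 1) (q + 1) := by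
  refine ⟨by rw [Int.natAbs_neg, Int.natAbs_natCast], ?_, hq, by omega, le_rfl, ?_, ?_, ?_⟩
  · have := ua_minus_odd (q := q) odd_one
    rwa [ua, pow_one, pow_one] at this
  · calc q + 1 = 1 * (q + 1) := (one_mul _).symm
      _ ≤ _ := Nat.mul_le_mul_right _ (by omega)
  · intro a ha
    obtain ⟨b, rfl⟩ : ∃ b, a = b + 1 := ⟨a - 1, by omega⟩
    have h2 : 1 ≤ q ^ b := Nat.one_le_pow _ _ (by omega)
    have h3 : ua (-(q : ℤ)) (b + 1) ≤ q ^ (b + 1) + 1 := by
      rcases Nat.even_or_odd (b + 1) with h | h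
      · rw [ua_minus_even (by omega) h]; omega
      · rw [ua_minus_odd h]
    rw [Nat.add_sub_cancel]
    calc ua (-(q : ℤ)) (b + 1) ≤ q ^ (b + 1) + 1 := h3
      _ ≤ q ^ (b + 1) + q ^ b := by omega
      _ = _ := by ring
  · intro a ha
    have h1 : 3 ^ 1 ≤ q ^ a := (Nat.pow_le_pow_left hq 1).trans (Nat.pow_le_pow_right (by omega) ha)
    rcases Nat.even_or_odd a with h | h
    · rw [ua_minus_even (by omega) h]
      omega
    · rw [ua_minus_odd h]
      omega

section

variable {F : Type*} [Field F] [Fintype F] {p f q n : ℕ} [Fact p.Prime] [CharP F p]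

theorem window_psl (hq : q = p ^ f) (hF : Fintype.card F = q) (hp2 : p ≠ 2) (hn : n.Prime) (h3 : 3 ≤ n)
    (g : Matrix.ProjectiveSpecialLinearGroup (Fin n) F) :
    ∃ E, 0 < E ∧ orderOf g ∣ E ∧ Shape (q : ℤ) p q (q - 1) q n (Nat.gcd n (q - 1)) E := by
  classical
  have hp := (Fact.out : p.Prime)
  have hf : f ≠ 0 := by
    rintro rfl
    have := Fintype.one_lt_card (α := F)
    rw [hF, hq] at this
    simp at this
  have hpq : p ≤ q := by rw [hq]; exact Nat.le_self_pow hf p
  have hq3 : 3 ≤ q := by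
    have := hp.two_le
    omega
  obtain ⟨g, rfl⟩ := QuotientGroup.mk_surjective g
  set A : Matrix (Fin n) (Fin n) F := ((g : Matrix.SpecialLinearGroup (Fin n) F) : Matrix (Fin n) (Fin n) F) with hA
  let K := AlgebraicClosure F
  have hCP : CharP K p := charP_of_injective_algebraMap (algebraMap F K).injective p
  have hdetA : A.det = 1 := g.2
  have hzp : (zp (q : ℤ) : K → K) = fun x => x ^ q := by
    funext x
    rw [zp, zpow_natCast]
  have hinj : Injective (zp (q : ℤ) : K → K) := by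
    rw [hzp]
    intro x y hxy
    apply (iterateFrobenius K p f).injective
    rw [iterateFrobenius_def, iterateFrobenius_def, ← hq]
    exact hxy
  have hcs : ∀ x, (A.map (algebraMap F K)).charpoly.roots.count (zp (q : ℤ) x) =
      (A.map (algebraMap F K)).charpoly.roots.count x := by
    intro x
    set Y : Matrix (Fin n) (Fin n) K := A.map (algebraMap F K) with hY
    have h1 : (Y.map (iterateFrobenius K p f)).charpoly.roots = Y.charpoly.roots.map (iterateFrobenius K p f) := by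
      rw [Matrix.charpoly_map]
      exact (IsAlgClosed.splits Y.charpoly).roots_map _
    have h2 : Y.map (iterateFrobenius K p f) = Y := by
      ext i j
      rw [hY, Matrix.map_apply, Matrix.map_apply, iterateFrobenius_def, ← map_pow, ← hq, ← hF, FiniteField.pow_card]
    rw [h2] at h1
    have h3 : Multiset.count (iterateFrobenius K p f x) (Y.charpoly.roots.map (iterateFrobenius K p f)) =
        Y.charpoly.roots.count x := Multiset.count_map_eq_count' _ _ (iterateFrobenius K p f).injective x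
    rw [← h1, iterateFrobenius_def, ← hq] at h3
    rw [hzp]
    exact h3
  obtain ⟨E, hE0, ⟨z, hz⟩, hE⟩ := window_mat (par_plus hq3) hpq hp2 hn h3 A hdetA hinj hcs
  refine ⟨E, hE0, ?_, hE⟩
  apply orderOf_dvd_of_pow_eq_one
  have h4 : g ^ E ∈ Subgroup.center (Matrix.SpecialLinearGroup (Fin n) F) := by
    rw [Subgroup.mem_center_iff]
    intro h
    apply Subtype.ext
    show (h : Matrix (Fin n) (Fin n) F) * ((g ^ E : Matrix.SpecialLinearGroup (Fin n) F) : Matrix (Fin n) (Fin n) F) =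
      ((g ^ E : Matrix.SpecialLinearGroup (Fin n) F) : Matrix (Fin n) (Fin n) F) * (h : Matrix (Fin n) (Fin n) F)
    rw [Matrix.SpecialLinearGroup.coe_pow, ← hA, hz, Matrix.mul_smul, Matrix.smul_mul, Matrix.mul_one, Matrix.one_mul]
  rw [← QuotientGroup.mk_pow]
  exact (QuotientGroup.eq_one_iff _).2 h4

theorem window_psu (hq : q = p ^ f) (hq3 : 3 ≤ q) (hp2 : p ≠ 2) (hn : n.Prime) (h3 : 3 ≤ n) (g : PSU n F q) :
    ∃ E, 0 < E ∧ orderOf g ∣ E ∧ Shape (-(q : ℤ)) p q (q + 1) (q + 1) n (Nat.gcd n (q + 1)) E := by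
  classical
  have hp := (Fact.out : p.Prime)
  have hpq : p ≤ q := by
    have hf : f ≠ 0 := by
      rintro rfl
      simp at hq
      omega
    rw [hq]
    exact Nat.le_self_pow hf p
  obtain ⟨g, rfl⟩ := QuotientGroup.mk_surjective g
  set A : Matrix (Fin n) (Fin n) F := ((g : Matrix.SpecialLinearGroup (Fin n) F) : Matrix (Fin n) (Fin n) F) with hA
  let K := AlgebraicClosure F
  have hCP : CharP K p := charP_of_injective_algebraMap (algebraMap F K).injective p
  set Y : Matrix (Fin n) (Fin n) K := A.map (algebraMap F K) with hY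
  have hdetA : A.det = 1 := (g : Matrix.SpecialLinearGroup (Fin n) F).2
  have hdet : Y.det = 1 := by
    rw [hY, show A.map (algebraMap F K) = (algebraMap F K).mapMatrix A from rfl, ← RingHom.map_det, hdetA, map_one]
  have hY1 : (Y.map (iterateFrobenius K p f)).charpoly = (Y⁻¹).charpoly := by
    have h1 := H149.PGU.charpoly_unitary hq g.2
    rw [← hA] at h1
    have h2 : Y.map (iterateFrobenius K p f) = (A.map (iterateFrobenius F p f)).map (algebraMap F K) := by
      ext i j
      simp [hY, Matrix.map_apply, iterateFrobenius_def]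
    have h3 : Y⁻¹ = (A⁻¹).map (algebraMap F K) := by
      apply Matrix.inv_eq_right_inv
      rw [hY, ← Matrix.map_mul, Matrix.mul_nonsing_inv _ (by rw [hdetA]; exact isUnit_one), Matrix.map_one _ (map_zero _) (map_one _)]
    rw [h2, h3, Matrix.charpoly_map, h1, Matrix.charpoly_map]
  have hzp : (zp (-(q : ℤ)) : K → K) = sg' q := by
    funext x
    rw [zp, zpow_neg, zpow_natCast, sg']
  have hinj : Injective (zp (-(q : ℤ)) : K → K) := by
    rw [hzp]
    exact sg'_injective hq
  have hcs : ∀ x, Y.charpoly.roots.count (zp (-(q : ℤ)) x) = Y.charpoly.roots.count x := by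
    intro x
    rw [hzp]
    exact count_stable hq hdet hY1 x
  obtain ⟨E, hE0, ⟨z, hz⟩, hE⟩ := window_mat (par_minus hq3) hpq hp2 hn h3 A hdetA hinj hcs
  refine ⟨E, hE0, ?_, hE⟩
  apply orderOf_dvd_of_pow_eq_one
  rw [← QuotientGroup.mk_pow, QuotientGroup.eq_one_iff, Subgroup.mem_center_iff]
  intro h
  apply Subtype.ext
  apply Subtype.ext
  show ((h : Matrix.SpecialLinearGroup (Fin n) F) : Matrix (Fin n) (Fin n) F) * A ^ E =
    A ^ E * ((h : Matrix.SpecialLinearGroup (Fin n) F) : Matrix (Fin n) (Fin n) F)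
  rw [hz, Matrix.mul_smul, Matrix.smul_mul, Matrix.mul_one, Matrix.one_mul]

end

end Cfsg.Agent.R2.Spec.X7
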