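import Cfsg.Agent.R2.Spec.X7.LtP

/-!
# The equations for the special numbers of `PSU_5(q)`
-/

set_option autoImplicit false

namespace Cfsg.Agent.R2.Spec.X7

/-- `E < R`: `D = q³ - q² + 2`, `PSL_m(u)` -/
theorem m5L {q u z : ℤ} (hq : 3 ≤ q) (hu : 2 ≤ u) (hz : z = u ^ 2 ∨ u ^ 3 ≤ z)
    (h : (q ^ 3 - q ^ 2 + 2) * (u * z - 1) = (q ^ 5 + 1) * (z + u - 2)) : q = 3 ∧ u = 13 ∧ z = u ^ 2 := by
  have h1 : z * ((q ^ 2 - 2 * q + 2) * u - (q ^ 4 - q ^ 3 + q ^ 2 - q + 1)) =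
      (q ^ 2 - 2 * q + 2) + (u - 2) * (q ^ 4 - q ^ 3 + q ^ 2 - q + 1) := by
    apply mul_left_cancel₀ (show q + 1 ≠ 0 by omega)
    linear_combination h
  have hz2 : u ^ 2 ≤ z := by
    rcases hz with hz | hz
    · exact hz.ge
    · exact le_trans (pow_le_pow_right₀ (by omega) (by norm_num)) hz
  obtain ⟨a, rfl⟩ : ∃ a : ℕ, q = a + 3 := ⟨(q - 3).toNat, by omega⟩
  have h2 := trich (lo := ((a : ℤ) + 3) ^ 2 + (a + 3)) (hi := ((a : ℤ) + 3) ^ 2 + (a + 3) + 2) h1 hz2 hu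
    (by clear * -; ring_nf; positivity)
    (pos_lt (by clear * -; ring_nf; positivity)) (pos_le (by clear * -; ring_nf; positivity)) (by clear * -; ring_nf; positivity)
    (pos_le (by clear * -; ring_nf; positivity)) (by clear * -; positivity)
  obtain rfl : u = ((a : ℤ) + 3) ^ 2 + (a + 3) + 1 := by omega
  have e1 : (((a : ℤ) + 3) ^ 2 - 2 * (a + 3) + 2) * (((a : ℤ) + 3) ^ 2 + (a + 3) + 1) -
      (((a : ℤ) + 3) ^ 4 - (a + 3) ^ 3 + (a + 3) ^ 2 - (a + 3) + 1) = (a + 3) + 1 := by ring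
  rw [e1] at h1
  rcases hz with hz | hz
  · subst hz
    have h3 : (a : ℤ) = 0 ∨ (a : ℤ) = 1 ∨ 2 ≤ (a : ℤ) := by omega
    rcases h3 with h3 | h3 | h3
    · rw [h3]; norm_num
    · rw [h3] at h1; norm_num at h1
    · exfalso
      obtain ⟨b, hb⟩ : ∃ b : ℕ, (a : ℤ) = b + 2 := ⟨(a - 2 : ℤ).toNat, by omega⟩
      rw [hb] at h1
      have h4 : (0 : ℤ) < ((((b : ℤ) + 2 + 3) ^ 2 - 2 * (b + 2 + 3) + 2) + (((b : ℤ) + 2 + 3) ^ 2 + (b + 2 + 3) + 1 - 2) *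
          (((b : ℤ) + 2 + 3) ^ 4 - (b + 2 + 3) ^ 3 + (b + 2 + 3) ^ 2 - (b + 2 + 3) + 1)) -
          (((b : ℤ) + 2 + 3) ^ 2 + (b + 2 + 3) + 1) ^ 2 * ((b + 2 + 3) + 1) := by
        clear * -
        ring_nf
        positivity
      linarith
  · exfalso
    have h3 : (((a : ℤ) + 3) ^ 2 + (a + 3) + 1) ^ 3 * ((a + 3) + 1) ≤ z * ((a + 3) + 1) :=
      mul_le_mul_of_nonneg_right hz (by clear * -; positivity)
    have h4 : (0 : ℤ) < (((a : ℤ) + 3) ^ 2 + (a + 3) + 1) ^ 3 * ((a + 3) + 1) -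
        ((((a : ℤ) + 3) ^ 2 - 2 * (a + 3) + 2) + (((a : ℤ) + 3) ^ 2 + (a + 3) + 1 - 2) *
          (((a : ℤ) + 3) ^ 4 - (a + 3) ^ 3 + (a + 3) ^ 2 - (a + 3) + 1)) := by
      clear * -
      ring_nf
      positivity
    linarith

/-- comparison for equations `z (N u - Φ) = S`, `u^4 ≤ z`, `S ≤ 2 u Φ` -/
theorem trich2 {N Φ S z u lo hi : ℤ} (h : z * (N * u - Φ) = S) (hz : u ^ 4 ≤ z) (hu : 2 ≤ u) (hN : 0 < N) (hΦ : 0 < Φ)
    (hS0 : 0 < S) (hS : S < u ^ 2 * Φ) (hlo : N * lo ≤ Φ) (hhi : 0 ≤ N * hi - Φ)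
    (hhi' : Φ ≤ hi ^ 2 * (N * hi - Φ)) (h0 : 0 ≤ hi) : lo < u ∧ u < hi := by
  have hz0 : 0 ≤ z := le_trans (by positivity) hz
  constructor
  · by_contra hcon
    have h1 : N * u ≤ N * lo := mul_le_mul_of_nonneg_left (not_lt.1 hcon) hN.le
    have h2 : z * (N * u - Φ) ≤ 0 := mul_nonpos_of_nonneg_of_nonpos hz0 (by linarith)
    linarith
  · by_contra hcon
    have hcon' := not_lt.1 hcon
    have h1 : N * hi ≤ N * u := mul_le_mul_of_nonneg_left hcon' hN.le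
    have h2 : u ^ 4 * (N * u - Φ) ≤ z * (N * u - Φ) := mul_le_mul_of_nonneg_right hz (by linarith)
    have h6 : hi ^ 2 ≤ u ^ 2 := pow_le_pow_left₀ h0 hcon' 2
    have h3 : hi ^ 2 * (N * hi - Φ) ≤ u ^ 2 * (N * u - Φ) := mul_le_mul h6 (by linarith) hhi (by positivity)
    have h4 : u ^ 2 * Φ ≤ u ^ 2 * (u ^ 2 * (N * u - Φ)) := mul_le_mul_of_nonneg_left (hhi'.trans h3) (by positivity)
    have h5 : u ^ 2 * (u ^ 2 * (N * u - Φ)) = u ^ 4 * (N * u - Φ) := by ring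
    linarith

/-- `X = q⁴ - q - 2`, second row of `PSL_m` -/
theorem m5M1 {q v z : ℤ} (hq : 3 ≤ q) (hv : 2 ≤ v) (hz : (v + 1) ^ 4 ≤ z)
    (h : (q ^ 4 - q - 2) * (v * (z - 1)) = (q ^ 5 + 1) * (z + v - 1)) : False := by
  have h1 : z * ((q ^ 3 - q ^ 2 + q - 2) * v - (q ^ 4 - q ^ 3 + q ^ 2 - q + 1)) =
      (q ^ 3 - q ^ 2 + q - 2) * v + (v - 1) * (q ^ 4 - q ^ 3 + q ^ 2 - q + 1) := by
    apply mul_left_cancel₀ (show q + 1 ≠ 0 by omega)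
    linear_combination h
  obtain ⟨a, rfl⟩ : ∃ a : ℕ, q = a + 3 := ⟨(q - 3).toNat, by omega⟩
  obtain ⟨b, rfl⟩ : ∃ b : ℕ, v = b + 2 := ⟨(v - 2).toNat, by omega⟩
  have hz' : ((b : ℤ) + 2) ^ 4 ≤ z := le_trans (pow_le_pow_left₀ (by clear * -; positivity) (by omega) 4) hz
  have h2 := trich2 (lo := (a : ℤ) + 3) (hi := (a : ℤ) + 3 + 1) h1 hz' (by omega)
    (by clear * -; ring_nf; positivity) (by clear * -; ring_nf; positivity) (by clear * -; ring_nf; positivity)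
    (pos_lt (by clear * -; ring_nf; positivity)) (pos_le (by clear * -; ring_nf; positivity))
    (by clear * -; ring_nf; positivity) (pos_le (by clear * -; ring_nf; positivity)) (by clear * -; positivity)
  omega

/-- `X = q⁴ + q² + q - 1`, second row of `PSL_m` -/
theorem m5M3 {q v z : ℤ} (hq : 3 ≤ q) (hv : 2 ≤ v) (hz : (v + 1) ^ 4 ≤ z)
    (h : (q ^ 4 + q ^ 2 + q - 1) * (v * (z - 1)) = (q ^ 5 + 1) * (z + v - 1)) : False := by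
  have h1 : z * ((q ^ 3 - q ^ 2 + 2 * q - 1) * v - (q ^ 4 - q ^ 3 + q ^ 2 - q + 1)) =
      (q ^ 3 - q ^ 2 + 2 * q - 1) * v + (v - 1) * (q ^ 4 - q ^ 3 + q ^ 2 - q + 1) := by
    apply mul_left_cancel₀ (show q + 1 ≠ 0 by omega)
    linear_combination h
  obtain ⟨a, rfl⟩ : ∃ a : ℕ, q = a + 3 := ⟨(q - 3).toNat, by omega⟩
  obtain ⟨b, rfl⟩ : ∃ b : ℕ, v = b + 2 := ⟨(v - 2).toNat, by omega⟩
  have hz' : ((b : ℤ) + 2) ^ 4 ≤ z := le_trans (pow_le_pow_left₀ (by clear * -; positivity) (by omega) 4) hz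
  have h2 := trich2 (lo := (a : ℤ) + 3 - 1) (hi := (a : ℤ) + 3) h1 hz' (by omega)
    (by clear * -; ring_nf; positivity) (by clear * -; ring_nf; positivity) (by clear * -; ring_nf; positivity)
    (pos_lt (by clear * -; ring_nf; positivity)) (pos_le (by clear * -; ring_nf; positivity))
    (by clear * -; ring_nf; positivity) (pos_le (by clear * -; ring_nf; positivity)) (by clear * -; positivity)
  omega

/-- `X = q⁴ - q - 2`, `PSU_m`, even -/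
theorem m5E1 {q u z : ℤ} (hq : 3 ≤ q) (hu : 2 ≤ u) (hz : u ^ 5 ≤ z)
    (h : (q ^ 4 - q - 2) * (u * z - 1) = (q ^ 5 + 1) * (z + u + 2)) : False := by
  have h1 : z * ((q ^ 3 - q ^ 2 + q - 2) * u - (q ^ 4 - q ^ 3 + q ^ 2 - q + 1)) =
      (q ^ 3 - q ^ 2 + q - 2) + (u + 2) * (q ^ 4 - q ^ 3 + q ^ 2 - q + 1) := by
    apply mul_left_cancel₀ (show q + 1 ≠ 0 by omega)
    linear_combination h
  obtain ⟨a, rfl⟩ : ∃ a : ℕ, q = a + 3 := ⟨(q - 3).toNat, by omega⟩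
  rcases lt_or_ge u 3 with h3 | h3
  · obtain rfl : u = 2 := by omega
    have h4 : (0 : ℤ) ≤ z := le_trans (by norm_num) hz
    refine absurd h1 (ne_of_lt ?_)
    have h5 : z * ((((a : ℤ) + 3) ^ 3 - (a + 3) ^ 2 + (a + 3) - 2) * 2 - (((a : ℤ) + 3) ^ 4 - (a + 3) ^ 3 + (a + 3) ^ 2 - (a + 3) + 1)) ≤ 0 := by
      apply mul_nonpos_of_nonneg_of_nonpos h4
      rw [← sub_nonneg]
      clear * -
      ring_nf
      positivity
    refine lt_of_le_of_lt h5 ?_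
    clear * -
    ring_nf
    positivity
  · obtain ⟨b, rfl⟩ : ∃ b : ℕ, u = b + 3 := ⟨(u - 3).toNat, by omega⟩
    have hz' : ((b : ℤ) + 3) ^ 4 ≤ z := le_trans (pow_le_pow_right₀ (by omega) (by norm_num)) hz
    have h2 := trich2 (lo := (a : ℤ) + 3) (hi := (a : ℤ) + 3 + 1) h1 hz' (by omega)
      (by clear * -; ring_nf; positivity) (by clear * -; ring_nf; positivity) (by clear * -; ring_nf; positivity)
      (pos_lt (by clear * -; ring_nf; positivity)) (pos_le (by clear * -; ring_nf; positivity))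
      (by clear * -; ring_nf; positivity) (pos_le (by clear * -; ring_nf; positivity)) (by clear * -; positivity)
    omega

/-- `X = q⁴ + q² + q - 1`, `PSU_m`, even -/
theorem m5E3 {q u z : ℤ} (hq : 3 ≤ q) (hu : 2 ≤ u) (hz : u ^ 5 ≤ z)
    (h : (q ^ 4 + q ^ 2 + q - 1) * (u * z - 1) = (q ^ 5 + 1) * (z + u + 2)) : u = q := by
  have h1 : z * ((q ^ 3 - q ^ 2 + 2 * q - 1) * u - (q ^ 4 - q ^ 3 + q ^ 2 - q + 1)) =
      (q ^ 3 - q ^ 2 + 2 * q - 1) + (u + 2) * (q ^ 4 - q ^ 3 + q ^ 2 - q + 1) := by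
    apply mul_left_cancel₀ (show q + 1 ≠ 0 by omega)
    linear_combination h
  obtain ⟨a, rfl⟩ : ∃ a : ℕ, q = a + 3 := ⟨(q - 3).toNat, by omega⟩
  rcases lt_or_ge u 3 with h3 | h3
  · obtain rfl : u = 2 := by omega
    have h4 : (0 : ℤ) ≤ z := le_trans (by norm_num) hz
    refine absurd h1 (ne_of_lt ?_)
    have h5 : z * ((((a : ℤ) + 3) ^ 3 - (a + 3) ^ 2 + 2 * (a + 3) - 1) * 2 - (((a : ℤ) + 3) ^ 4 - (a + 3) ^ 3 + (a + 3) ^ 2 - (a + 3) + 1)) ≤ 0 := by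
      apply mul_nonpos_of_nonneg_of_nonpos h4
      rw [← sub_nonneg]
      clear * -
      ring_nf
      positivity
    refine lt_of_le_of_lt h5 ?_
    clear * -
    ring_nf
    positivity
  · obtain ⟨b, rfl⟩ : ∃ b : ℕ, u = b + 3 := ⟨(u - 3).toNat, by omega⟩
    have hz' : ((b : ℤ) + 3) ^ 4 ≤ z := le_trans (pow_le_pow_right₀ (by omega) (by norm_num)) hz
    have h2 := trich2 (lo := (a : ℤ) + 3 - 1) (hi := (a : ℤ) + 3 + 1) h1 hz' (by omega)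
      (by clear * -; ring_nf; positivity) (by clear * -; ring_nf; positivity) (by clear * -; ring_nf; positivity)
      (pos_lt (by clear * -; ring_nf; positivity)) (pos_le (by clear * -; ring_nf; positivity))
      (by clear * -; ring_nf; positivity) (pos_le (by clear * -; ring_nf; positivity)) (by clear * -; positivity)
    omega

/-- `X = q⁴ - q - 2`, `PSU_m`, odd -/
theorem m5O1 {q u z : ℤ} (hq : 3 ≤ q) (hqo : q ≠ 4) (hu : 2 ≤ u) (hz : u ^ 3 ≤ z) (hz2 : 61 ≤ u * z + 1)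
    (h : (q ^ 4 - q - 2) * (u * z + 1) = (q ^ 5 + 1) * (z - u - 2)) : u = q := by
  have h1 : z * ((q ^ 4 - q ^ 3 + q ^ 2 - q + 1) - (q ^ 3 - q ^ 2 + q - 2) * u) =
      (q ^ 3 - q ^ 2 + q - 2) + (u + 2) * (q ^ 4 - q ^ 3 + q ^ 2 - q + 1) := by
    apply mul_left_cancel₀ (show q + 1 ≠ 0 by omega)
    linear_combination -h
  have hz0 : 0 ≤ z := le_trans (by positivity) hz
  rcases lt_trichotomy u q with h2 | h2 | h2
  · exfalso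
    rcases lt_or_ge u 3 with h3 | h3
    · obtain rfl : u = 2 := by omega
      obtain ⟨a, rfl⟩ : ∃ a : ℕ, q = a + 3 := ⟨(q - 3).toNat, by omega⟩
      have h4 : (30 : ℤ) ≤ z := by omega
      have h5 : (0 : ℤ) ≤ (((a : ℤ) + 3) ^ 4 - (a + 3) ^ 3 + (a + 3) ^ 2 - (a + 3) + 1) -
          (((a : ℤ) + 3) ^ 3 - (a + 3) ^ 2 + (a + 3) - 2) * 2 := by
        clear * -; ring_nf; positivity
      have h6 := mul_le_mul_of_nonneg_right h4 h5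
      have h7 : (0 : ℤ) < 30 * ((((a : ℤ) + 3) ^ 4 - (a + 3) ^ 3 + (a + 3) ^ 2 - (a + 3) + 1) -
          (((a : ℤ) + 3) ^ 3 - (a + 3) ^ 2 + (a + 3) - 2) * 2) - ((((a : ℤ) + 3) ^ 3 - (a + 3) ^ 2 + (a + 3) - 2) +
          (2 + 2) * (((a : ℤ) + 3) ^ 4 - (a + 3) ^ 3 + (a + 3) ^ 2 - (a + 3) + 1)) := by
        clear * -; ring_nf; positivity
      linarith
    · obtain ⟨b, rfl⟩ : ∃ b : ℕ, u = b + 3 := ⟨(u - 3).toNat, by omega⟩
      obtain ⟨e, rfl⟩ : ∃ e : ℕ, q = b + 3 + e + 1 := ⟨(q - (b + 3) - 1).toNat, by omega⟩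
      have h5 : (0 : ℤ) ≤ (((b : ℤ) + 3 + e + 1) ^ 4 - (b + 3 + e + 1) ^ 3 + (b + 3 + e + 1) ^ 2 - (b + 3 + e + 1) + 1) -
          (((b : ℤ) + 3 + e + 1) ^ 3 - (b + 3 + e + 1) ^ 2 + (b + 3 + e + 1) - 2) * (b + 3) := by
        clear * -; ring_nf; positivity
      have h6 := mul_le_mul_of_nonneg_right hz h5
      have h7 : (0 : ℤ) < ((b : ℤ) + 3) ^ 3 * ((((b : ℤ) + 3 + e + 1) ^ 4 - (b + 3 + e + 1) ^ 3 + (b + 3 + e + 1) ^ 2 -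
          (b + 3 + e + 1) + 1) - (((b : ℤ) + 3 + e + 1) ^ 3 - (b + 3 + e + 1) ^ 2 + (b + 3 + e + 1) - 2) * (b + 3)) -
          ((((b : ℤ) + 3 + e + 1) ^ 3 - (b + 3 + e + 1) ^ 2 + (b + 3 + e + 1) - 2) + (b + 3 + 2) *
          (((b : ℤ) + 3 + e + 1) ^ 4 - (b + 3 + e + 1) ^ 3 + (b + 3 + e + 1) ^ 2 - (b + 3 + e + 1) + 1)) := by
        clear * -; ring_nf; positivity
      linarith
  · exact h2
  · exfalso
    obtain ⟨a, rfl⟩ : ∃ a : ℕ, q = a + 3 := ⟨(q - 3).toNat, by omega⟩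
    have h3 : (((a : ℤ) + 3) ^ 3 - (a + 3) ^ 2 + (a + 3) - 2) * ((a + 3) + 1) ≤
        (((a : ℤ) + 3) ^ 3 - (a + 3) ^ 2 + (a + 3) - 2) * u :=
      mul_le_mul_of_nonneg_left (by omega) (by clear * -; ring_nf; positivity)
    have h4 : (((a : ℤ) + 3) ^ 4 - (a + 3) ^ 3 + (a + 3) ^ 2 - (a + 3) + 1) ≤
        (((a : ℤ) + 3) ^ 3 - (a + 3) ^ 2 + (a + 3) - 2) * ((a + 3) + 1) :=
      pos_le (by clear * -; ring_nf; positivity)
    have h5 := mul_nonpos_of_nonneg_of_nonpos hz0 (sub_nonpos.2 (h4.trans h3))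
    have h6 : (0 : ℤ) < (((a : ℤ) + 3) ^ 3 - (a + 3) ^ 2 + (a + 3) - 2) := by clear * -; ring_nf; positivity
    have h7 : (0 : ℤ) ≤ (u + 2) * (((a : ℤ) + 3) ^ 4 - (a + 3) ^ 3 + (a + 3) ^ 2 - (a + 3) + 1) :=
      mul_nonneg (by omega) (by clear * -; ring_nf; positivity)
    linarith

/-- `X = q⁴ + q² + q - 1`, `PSU_m`, odd -/
theorem m5O3 {q u z : ℤ} (hq : 3 ≤ q) (hqo : q ≠ 4) (hu : 2 ≤ u) (hz : u ^ 3 ≤ z) (hz2 : 61 ≤ u * z + 1)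
    (h : (q ^ 4 + q ^ 2 + q - 1) * (u * z + 1) = (q ^ 5 + 1) * (z - u - 2)) : False := by
  have h1 : z * ((q ^ 4 - q ^ 3 + q ^ 2 - q + 1) - (q ^ 3 - q ^ 2 + 2 * q - 1) * u) =
      (q ^ 3 - q ^ 2 + 2 * q - 1) + (u + 2) * (q ^ 4 - q ^ 3 + q ^ 2 - q + 1) := by
    apply mul_left_cancel₀ (show q + 1 ≠ 0 by omega)
    linear_combination -h
  have hz0 : 0 ≤ z := le_trans (by positivity) hz
  rcases lt_or_ge u q with h2 | h2
  · rcases lt_or_ge u 3 with h3 | h3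
    · obtain rfl : u = 2 := by omega
      obtain ⟨a, rfl⟩ : ∃ a : ℕ, q = a + 3 := ⟨(q - 3).toNat, by omega⟩
      have h4 : (30 : ℤ) ≤ z := by omega
      have h5 : (0 : ℤ) ≤ (((a : ℤ) + 3) ^ 4 - (a + 3) ^ 3 + (a + 3) ^ 2 - (a + 3) + 1) -
          (((a : ℤ) + 3) ^ 3 - (a + 3) ^ 2 + 2 * (a + 3) - 1) * 2 := by
        clear * -; ring_nf; positivity
      have h6 := mul_le_mul_of_nonneg_right h4 h5
      have h7 : (0 : ℤ) < 30 * ((((a : ℤ) + 3) ^ 4 - (a + 3) ^ 3 + (a + 3) ^ 2 - (a + 3) + 1) -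
          (((a : ℤ) + 3) ^ 3 - (a + 3) ^ 2 + 2 * (a + 3) - 1) * 2) - ((((a : ℤ) + 3) ^ 3 - (a + 3) ^ 2 + 2 * (a + 3) - 1) +
          (2 + 2) * (((a : ℤ) + 3) ^ 4 - (a + 3) ^ 3 + (a + 3) ^ 2 - (a + 3) + 1)) := by
        clear * -; ring_nf; positivity
      linarith
    · obtain ⟨b, rfl⟩ : ∃ b : ℕ, u = b + 3 := ⟨(u - 3).toNat, by omega⟩
      obtain ⟨e, rfl⟩ : ∃ e : ℕ, q = b + 3 + e + 1 := ⟨(q - (b + 3) - 1).toNat, by omega⟩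
      have h5 : (0 : ℤ) ≤ (((b : ℤ) + 3 + e + 1) ^ 4 - (b + 3 + e + 1) ^ 3 + (b + 3 + e + 1) ^ 2 - (b + 3 + e + 1) + 1) -
          (((b : ℤ) + 3 + e + 1) ^ 3 - (b + 3 + e + 1) ^ 2 + 2 * (b + 3 + e + 1) - 1) * (b + 3) := by
        clear * -; ring_nf; positivity
      have h6 := mul_le_mul_of_nonneg_right hz h5
      have h7 : (0 : ℤ) < ((b : ℤ) + 3) ^ 3 * ((((b : ℤ) + 3 + e + 1) ^ 4 - (b + 3 + e + 1) ^ 3 + (b + 3 + e + 1) ^ 2 -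
          (b + 3 + e + 1) + 1) - (((b : ℤ) + 3 + e + 1) ^ 3 - (b + 3 + e + 1) ^ 2 + 2 * (b + 3 + e + 1) - 1) * (b + 3)) -
          ((((b : ℤ) + 3 + e + 1) ^ 3 - (b + 3 + e + 1) ^ 2 + 2 * (b + 3 + e + 1) - 1) + (b + 3 + 2) *
          (((b : ℤ) + 3 + e + 1) ^ 4 - (b + 3 + e + 1) ^ 3 + (b + 3 + e + 1) ^ 2 - (b + 3 + e + 1) + 1)) := by
        rcases Nat.eq_zero_or_pos b with h8 | h8
        · subst h8
          rcases Nat.eq_zero_or_pos e with h9 | h9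
          · subst h9
            exact absurd rfl hqo
          · obtain ⟨e', rfl⟩ : ∃ e', e = e' + 1 := ⟨e - 1, by omega⟩
            clear * -; push_cast; ring_nf; positivity
        · obtain ⟨b', rfl⟩ : ∃ b', b = b' + 1 := ⟨b - 1, by omega⟩
          clear * -; push_cast; ring_nf; positivity
      linarith
  · obtain ⟨a, rfl⟩ : ∃ a : ℕ, q = a + 3 := ⟨(q - 3).toNat, by omega⟩
    have h3 : (((a : ℤ) + 3) ^ 3 - (a + 3) ^ 2 + 2 * (a + 3) - 1) * (a + 3) ≤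
        (((a : ℤ) + 3) ^ 3 - (a + 3) ^ 2 + 2 * (a + 3) - 1) * u :=
      mul_le_mul_of_nonneg_left (by omega) (by clear * -; ring_nf; positivity)
    have h4 : (((a : ℤ) + 3) ^ 4 - (a + 3) ^ 3 + (a + 3) ^ 2 - (a + 3) + 1) ≤
        (((a : ℤ) + 3) ^ 3 - (a + 3) ^ 2 + 2 * (a + 3) - 1) * (a + 3) :=
      pos_le (by clear * -; ring_nf; positivity)
    have h5 := mul_nonpos_of_nonneg_of_nonpos hz0 (sub_nonpos.2 (h4.trans h3))
    have h6 : (0 : ℤ) < (((a : ℤ) + 3) ^ 3 - (a + 3) ^ 2 + 2 * (a + 3) - 1) := by clear * -; ring_nf; positivity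
    have h7 : (0 : ℤ) ≤ (u + 2) * (((a : ℤ) + 3) ^ 4 - (a + 3) ^ 3 + (a + 3) ^ 2 - (a + 3) + 1) :=
      mul_nonneg (by omega) (by clear * -; ring_nf; positivity)
    linarith

/-- `X = q⁴ - q - 2`, `PSU_3` -/
theorem m5T1 {q u : ℤ} (hq : 3 ≤ q) (hu : 9 ≤ u)
    (h : (q ^ 4 - q - 2) * (u ^ 2 - u + 1) = (q ^ 5 + 1) * (u - 2)) : False := by
  have h1 : (u - 2) * ((q ^ 4 - q ^ 3 + q ^ 2 - q + 1) - (q ^ 3 - q ^ 2 + q - 2) * (u + 1)) =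
      3 * (q ^ 3 - q ^ 2 + q - 2) := by
    apply mul_left_cancel₀ (show q + 1 ≠ 0 by omega)
    linear_combination -h
  obtain ⟨a, rfl⟩ : ∃ a : ℕ, q = a + 3 := ⟨(q - 3).toNat, by omega⟩
  have hN : (0 : ℤ) < ((a : ℤ) + 3) ^ 3 - (a + 3) ^ 2 + (a + 3) - 2 := by clear * -; ring_nf; positivity
  have e1 : (((a : ℤ) + 3) ^ 4 - (a + 3) ^ 3 + (a + 3) ^ 2 - (a + 3) + 1) -
      (((a : ℤ) + 3) ^ 3 - (a + 3) ^ 2 + (a + 3) - 2) * (u + 1) =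
      (((a : ℤ) + 3) ^ 3 - (a + 3) ^ 2 + (a + 3) - 2) * (a + 2 - u) + (a + 4) := by ring
  rw [e1] at h1
  rcases lt_trichotomy (a + 2 - u) 0 with h2 | h2 | h2
  · have h3 : (((a : ℤ) + 3) ^ 3 - (a + 3) ^ 2 + (a + 3) - 2) * (a + 2 - u) ≤
        (((a : ℤ) + 3) ^ 3 - (a + 3) ^ 2 + (a + 3) - 2) * (-1) := mul_le_mul_of_nonneg_left (by omega) hN.le
    have h4 : (0 : ℤ) ≤ ((((a : ℤ) + 3) ^ 3 - (a + 3) ^ 2 + (a + 3) - 2)) - (a + 4) := by clear * -; ring_nf; positivity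
    have h5 : (u - 2) * ((((a : ℤ) + 3) ^ 3 - (a + 3) ^ 2 + (a + 3) - 2) * (a + 2 - u) + (a + 4)) ≤ 0 :=
      mul_nonpos_of_nonneg_of_nonpos (by omega) (by linarith)
    linarith
  · rw [h2] at h1
    obtain rfl : u = a + 2 := by omega
    have h4 : (0 : ℤ) < 3 * (((a : ℤ) + 3) ^ 3 - (a + 3) ^ 2 + (a + 3) - 2) - ((a + 2 - 2) * (0 + (a + 4))) := by
      clear * -; ring_nf; positivity
    rw [mul_zero] at h1
    linarith
  · have h3 : (((a : ℤ) + 3) ^ 3 - (a + 3) ^ 2 + (a + 3) - 2) * 1 ≤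
        (((a : ℤ) + 3) ^ 3 - (a + 3) ^ 2 + (a + 3) - 2) * (a + 2 - u) := mul_le_mul_of_nonneg_left (by omega) hN.le
    have h5 : 7 * ((((a : ℤ) + 3) ^ 3 - (a + 3) ^ 2 + (a + 3) - 2) * (a + 2 - u) + (a + 4)) ≤
        (u - 2) * ((((a : ℤ) + 3) ^ 3 - (a + 3) ^ 2 + (a + 3) - 2) * (a + 2 - u) + (a + 4)) :=
      mul_le_mul_of_nonneg_right (by omega) (by linarith)
    linarith

/-- `X = q⁴ + q² + q - 1`, `PSU_3` -/
theorem m5T3 {q u : ℤ} (hq : 3 ≤ q) (hu : 9 ≤ u)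
    (h : (q ^ 4 + q ^ 2 + q - 1) * (u ^ 2 - u + 1) = (q ^ 5 + 1) * (u - 2)) : False := by
  have h1 : (u - 2) * ((q ^ 4 - q ^ 3 + q ^ 2 - q + 1) - (q ^ 3 - q ^ 2 + 2 * q - 1) * (u + 1)) =
      3 * (q ^ 3 - q ^ 2 + 2 * q - 1) := by
    apply mul_left_cancel₀ (show q + 1 ≠ 0 by omega)
    linear_combination -h
  obtain ⟨a, rfl⟩ : ∃ a : ℕ, q = a + 3 := ⟨(q - 3).toNat, by omega⟩
  have hN : (0 : ℤ) < ((a : ℤ) + 3) ^ 3 - (a + 3) ^ 2 + 2 * (a + 3) - 1 := by clear * -; ring_nf; positivity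
  have e1 : (((a : ℤ) + 3) ^ 4 - (a + 3) ^ 3 + (a + 3) ^ 2 - (a + 3) + 1) -
      (((a : ℤ) + 3) ^ 3 - (a + 3) ^ 2 + 2 * (a + 3) - 1) * (u + 1) =
      (((a : ℤ) + 3) ^ 3 - (a + 3) ^ 2 + 2 * (a + 3) - 1) * (a + 2 - u) - ((a + 3) ^ 2 - 1) := by ring
  rw [e1] at h1
  have h9 : (0 : ℤ) ≤ ((a : ℤ) + 3) ^ 2 - 1 := by clear * -; ring_nf; positivity
  rcases lt_or_ge (a + 2 - u) 1 with h2 | h2
  · have h3 : (((a : ℤ) + 3) ^ 3 - (a + 3) ^ 2 + 2 * (a + 3) - 1) * (a + 2 - u) ≤ 0 :=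
      mul_nonpos_of_nonneg_of_nonpos hN.le (by omega)
    have h5 : (u - 2) * ((((a : ℤ) + 3) ^ 3 - (a + 3) ^ 2 + 2 * (a + 3) - 1) * (a + 2 - u) - ((a + 3) ^ 2 - 1)) ≤ 0 :=
      mul_nonpos_of_nonneg_of_nonpos (by omega) (by linarith)
    linarith
  · have h3 : (((a : ℤ) + 3) ^ 3 - (a + 3) ^ 2 + 2 * (a + 3) - 1) * 1 ≤
        (((a : ℤ) + 3) ^ 3 - (a + 3) ^ 2 + 2 * (a + 3) - 1) * (a + 2 - u) := mul_le_mul_of_nonneg_left (by omega) hN.le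
    have h4 : (0 : ℤ) < 7 * ((((a : ℤ) + 3) ^ 3 - (a + 3) ^ 2 + 2 * (a + 3) - 1) - ((a + 3) ^ 2 - 1)) -
        3 * (((a : ℤ) + 3) ^ 3 - (a + 3) ^ 2 + 2 * (a + 3) - 1) := by clear * -; ring_nf; positivity
    have h5 : 7 * ((((a : ℤ) + 3) ^ 3 - (a + 3) ^ 2 + 2 * (a + 3) - 1) * (a + 2 - u) - ((a + 3) ^ 2 - 1)) ≤
        (u - 2) * ((((a : ℤ) + 3) ^ 3 - (a + 3) ^ 2 + 2 * (a + 3) - 1) * (a + 2 - u) - ((a + 3) ^ 2 - 1)) :=
      mul_le_mul_of_nonneg_right (by omega) (by linarith)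
    linarith

end Cfsg.Agent.R2.Spec.X7
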