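import Mathlib

/-!
# The numerical conditions on the element orders near the isolated number (box X7 of S3435)
-/

set_option autoImplicit false

namespace Cfsg.Agent.R2.Spec.X7

/-- what the `S`-side needs: `R` is the isolated number, `W E` the condition satisfied by the element orders -/
structure NC (p R : ℕ) (W : ℕ → Prop) : Prop where
  hp : p.Prime
  big : R = 61 ∨ R = 121 ∨ R = 521 ∨ R = 547 ∨ R = 781 ∨ R = 1093 ∨ R = 1181 ∨ R = 2101 ∨ 2801 ≤ R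
  upper : ∀ E : ℕ, 0 < E → W E → 10 * E ≤ 14 * R
  near : ∀ E : ℕ, 0 < E → W E → E ≠ R → E ≤ R + 2 → R ≤ E + 2 → False
  neg : ∀ E E' : ℕ, 0 < E' → W E → W E' → 7 * R < 10 * E' → E' < E → E < R →
    23 * ((R : ℤ) - E) < 10 * (R - E') ∨ (10 * ((R : ℤ) - E') ≤ 11 * (R - E) ∧ ((E : ℤ) - E') * (R - E') ≤ R)
  posi : ∀ E E' : ℕ, 0 < E' → W E → W E' → E' < E → R < E' →
    (4 * ((E : ℤ) - R) ≤ 5 * (E' - R) ∧ ((E : ℤ) - E') * (E - R) ≤ 2 * R) ∨ 10 * ((E' : ℤ) - R) ≤ E - R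
  opp : ∀ E E' : ℕ, 0 < E' → W E → W E' → 7 * R < 10 * E' → E' < R → R < E →
    3 * ((R : ℤ) - E') ≤ E - R ∨ 4 * ((E : ℤ) - R) ≤ R - E'
  lT : ∀ u M κ E : ℕ, ¬ p ∣ u → 3 ≤ u → 3 ≤ M → R * κ = u ^ M - 1 → κ * E = (u ^ (M - 1) - 1) * (u - 1) → 0 < E → W E →
    R = 61 ∧ u = 13 ∧ M = 3
  two : ∀ z E : ℕ, 1 ≤ z → R + 1 = 4 * z → E = 3 * (z - 1) → W E → False
  mT : ∀ v M E : ℕ, 0 < v → 4 ≤ M → R * v = (v + 1) ^ M - 1 → E * v ^ 2 = (v + 1) ^ (M + 1) - 1 → 0 < E → W E → False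
  uE : ∀ u M κ E : ℕ, ¬ p ∣ u → 2 ≤ u → 6 ≤ M → R * κ = u ^ M - 1 → κ * E = (u ^ (M - 1) + 1) * (u + 1) → 0 < E → W E →
    False
  uO : ∀ u M κ E : ℕ, ¬ p ∣ u → 2 ≤ u → 4 ≤ M → 0 < κ → R * κ = u ^ M + 1 → κ * E = (u ^ (M - 1) - 1) * (u + 1) → 0 < E →
    W E → False
  uT : ∀ u g E : ℕ, 9 ≤ u → (R : ℤ) * g = (u : ℤ) ^ 2 - u + 1 → (E : ℤ) * g = (u : ℤ) ^ 2 - 1 → 0 < E → W E →
    R = 547 ∧ u = 41
  mO : ∀ u m E : ℕ, ¬ p ∣ u → 3 ≤ u → 4 ≤ m → Even m → 2 * R = u ^ m + 1 → 4 * E = (u ^ (m - 1) - 1) * (u + 1) → 0 < E →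
    W E → False
  d3 : ∀ E : ℕ, p ≠ 3 → 9 * ((E : ℤ) - R) = R - 25 → W E → False
  d5 : ∀ E : ℕ, 5 * ((E : ℤ) - R) = R + 9 → W E → False
  p3 : ∀ E : ℕ, p ≠ 3 → 3 * E = 2 * R + 4 → W E → False
  half : ∀ E : ℕ, R.Prime → 2 * E = R + 1 → W E → R = 61 ∨ R = 1181 ∨ R = 547
  c1093 : R = 1093 → p = 3
  n13 : ¬ 13 ∣ R

/-- the cross product -/
theorem cross {w R κ δ D K A B : ℤ} (h1 : w * δ = D) (h2 : w * R = K) (h3 : R * κ = A) (h4 : κ * δ = B) :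
    D * A = K * B := by
  rw [← h1, ← h2, ← h3, ← h4]
  ring

end Cfsg.Agent.R2.Spec.X7
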