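import Cfsg.Agent.R2.Spec.X7.NC
import Cfsg.Agent.R2.Spec.X7.LtM
import Cfsg.Agent.R2.Spec.X7.Groups

/-!
# The numerical conditions for `PSU_5(q)`, `q` odd
-/

set_option autoImplicit false

namespace Cfsg.Agent.R2.Spec.X7

theorem pos_of_mul_pos_nat' {b : ℤ} {w : ℕ} (h : 0 < (w : ℤ) * b) : 0 < b := by
  by_contra hcon
  have := mul_nonpos_of_nonneg_of_nonpos (Int.natCast_nonneg w) (not_lt.1 hcon)
  omega

/-- the numbers of `PSU_5(q)` -/
structure MNum (p q c w R : ℕ) : Prop where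
  hp : p.Prime
  hp2 : p ≠ 2
  hq : ∃ f, 1 ≤ f ∧ q = p ^ f
  hc : c = Nat.gcd 5 (q + 1)
  hw : w = c * (q + 1)
  hR : R * w = q ^ 5 + 1

/-- the condition for the element orders -/
def WM (p q c : ℕ) (E : ℕ) : Prop := ∃ E0, 0 < E0 ∧ E ∣ E0 ∧ Shape (-(q : ℤ)) p q (q + 1) (q + 1) 5 c E0

/-- the special numbers above `R` -/
def DM (p q : ℕ) (D : ℤ) : Prop :=
  D = (q : ℤ) ^ 4 - q - 2 ∨ (q = p ∧ D = (q : ℤ) ^ 4 + (q : ℤ) ^ 2 + q - 1)

namespace MNum

variable {p q c w R : ℕ} (h : MNum p q c w R)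

include h

theorem p3 : 3 ≤ p := by
  have := h.hp.two_le
  have := h.hp2
  omega

theorem pq : p = q ∨ 3 * p ≤ q := by
  obtain ⟨f, hf, hq⟩ := h.hq
  rcases Nat.eq_or_lt_of_le hf with h1 | h1
  · left; rw [hq, ← h1, pow_one]
  · right
    obtain ⟨g, rfl⟩ : ∃ g, f = g + 2 := ⟨f - 2, by omega⟩
    rw [hq, pow_add]
    calc 3 * p ≤ p * p := Nat.mul_le_mul_right _ h.p3
      _ = 1 * p ^ 2 := by ring
      _ ≤ p ^ g * p ^ 2 := Nat.mul_le_mul_right _ (Nat.one_le_pow _ _ h.hp.pos)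

theorem p_le : p ≤ q := by
  have := h.pq
  omega

theorem q3 : 3 ≤ q := by
  have := h.p_le
  have := h.p3
  omega

theorem q_odd : q % 2 = 1 := by
  obtain ⟨f, hf, hq⟩ := h.hq
  have : Odd q := by rw [hq]; exact (h.hp.odd_of_ne_two h.hp2).pow
  exact Nat.odd_iff.1 this

theorem c_cases : c = 1 ∨ (c = 5 ∧ 9 ≤ q ∧ (q = 9 ∨ 19 ≤ q)) := by
  have h3 := h.q3
  have ho := h.q_odd
  have hc := h.hc
  have h2 : c ∣ 5 := by rw [hc]; exact Nat.gcd_dvd_left _ _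
  rcases (Nat.dvd_prime (by norm_num)).1 h2 with h1 | h1
  · exact Or.inl h1
  · right
    refine ⟨h1, ?_⟩
    have h4 : 5 ∣ q + 1 := by rw [← h1, hc]; exact Nat.gcd_dvd_right _ _
    omega

theorem c_pos : 0 < c := by
  rcases h.c_cases with h1 | ⟨h1, -⟩ <;> omega

theorem two_c : 2 * c ≤ q + 1 := by
  have := h.q3
  rcases h.c_cases with h1 | ⟨h1, h2, -⟩ <;> omega

theorem w_le : 2 * w ≤ (q + 1) ^ 2 := by
  rw [h.hw, pow_two]
  calc 2 * (c * (q + 1)) = (2 * c) * (q + 1) := by ring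
    _ ≤ _ := Nat.mul_le_mul_right _ h.two_c

theorem w_le' : 2 * (w : ℤ) ≤ ((q : ℤ) + 1) ^ 2 := by exact_mod_cast h.w_le

theorem w_ge : q + 1 ≤ w := by
  rw [h.hw]
  exact Nat.le_mul_of_pos_left _ h.c_pos

theorem w_pos : 0 < w := by
  have := h.w_ge
  omega

theorem hRZ : (w : ℤ) * R = (q : ℤ) ^ 5 + 1 := by
  have := congrArg (fun x : ℕ => (x : ℤ)) h.hR
  push_cast at this
  linarith

/-- the small numbers -/
theorem small : 10 * (q ^ 2 * (q + 1)) ≤ 7 * R := by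
  have hR := h.hR
  have hw := h.hw
  have h3 := h.q3
  rcases h.c_cases with hc | ⟨hc, hq, -⟩
  · rw [hw, hc, one_mul] at hR
    obtain ⟨a, rfl⟩ : ∃ a, q = a + 3 := ⟨q - 3, by omega⟩
    have h1 : R = a ^ 4 + 11 * a ^ 3 + 46 * a ^ 2 + 86 * a + 61 := by
      apply Nat.eq_of_mul_eq_mul_right (show 0 < a + 3 + 1 by omega)
      rw [hR]; ring
    rw [h1]
    have e1 : 7 * (a ^ 4 + 11 * a ^ 3 + 46 * a ^ 2 + 86 * a + 61) = 10 * ((a + 3) ^ 2 * (a + 3 + 1)) +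
      (7 * a ^ 4 + 67 * a ^ 3 + 222 * a ^ 2 + 272 * a + 67) := by ring
    rw [e1]; exact Nat.le_add_right _ _
  · rw [hw, hc] at hR
    obtain ⟨a, rfl⟩ : ∃ a, q = a + 9 := ⟨q - 9, by omega⟩
    have h1 : 5 * R = a ^ 4 + 35 * a ^ 3 + 460 * a ^ 2 + 2690 * a + 5905 := by
      apply Nat.eq_of_mul_eq_mul_right (show 0 < a + 9 + 1 by omega)
      rw [show 5 * R * (a + 9 + 1) = R * (5 * (a + 9 + 1)) by ring, hR]; ring
    have e1 : 7 * (a ^ 4 + 35 * a ^ 3 + 460 * a ^ 2 + 2690 * a + 5905) = 50 * ((a + 9) ^ 2 * (a + 9 + 1)) +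
      (7 * a ^ 4 + 195 * a ^ 3 + 1820 * a ^ 2 + 5780 * a + 835) := by ring
    have h4 := Nat.zero_le (7 * a ^ 4 + 195 * a ^ 3 + 1820 * a ^ 2 + 5780 * a + 835)
    omega

theorem small2 (hq3 : q ≠ 3) (hq9 : q ≠ 9) : 2 * (q ^ 2 * (q + 1)) ≤ R := by
  have hR := h.hR
  have hw := h.hw
  have h3 := h.q3
  have ho := h.q_odd
  rcases h.c_cases with hc | ⟨hc, hq, hq'⟩
  · rw [hw, hc, one_mul] at hR
    obtain ⟨a, rfl⟩ : ∃ a, q = a + 5 := ⟨q - 5, by omega⟩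
    have h1 : R = a ^ 4 + 19 * a ^ 3 + 136 * a ^ 2 + 434 * a + 521 := by
      apply Nat.eq_of_mul_eq_mul_right (show 0 < a + 5 + 1 by omega)
      rw [hR]; ring
    rw [h1]
    have e1 : a ^ 4 + 19 * a ^ 3 + 136 * a ^ 2 + 434 * a + 521 = 2 * ((a + 5) ^ 2 * (a + 5 + 1)) +
      (a ^ 4 + 17 * a ^ 3 + 104 * a ^ 2 + 264 * a + 221) := by ring
    rw [e1]; exact Nat.le_add_right _ _
  · rw [hw, hc] at hR
    obtain ⟨a, rfl⟩ : ∃ a, q = a + 19 := ⟨q - 19, by omega⟩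
    have h1 : 5 * R = a ^ 4 + 75 * a ^ 3 + 2110 * a ^ 2 + 26390 * a + 123805 := by
      apply Nat.eq_of_mul_eq_mul_right (show 0 < a + 19 + 1 by omega)
      rw [show 5 * R * (a + 19 + 1) = R * (5 * (a + 19 + 1)) by ring, hR]; ring
    have e1 : a ^ 4 + 75 * a ^ 3 + 2110 * a ^ 2 + 26390 * a + 123805 = 10 * ((a + 19) ^ 2 * (a + 19 + 1)) +
      (a ^ 4 + 65 * a ^ 3 + 1530 * a ^ 2 + 15180 * a + 51605) := by ring
    have h4 := Nat.zero_le (a ^ 4 + 65 * a ^ 3 + 1530 * a ^ 2 + 15180 * a + 51605)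
    omega

theorem big : (q = 3 ∧ R = 61) ∨ (q = 5 ∧ R = 521) ∨ (q = 7 ∧ R = 2101) ∨ (q = 9 ∧ R = 1181) ∨ (11 ≤ q ∧ 2801 ≤ R) := by
  have h3 := h.q3
  have ho := h.q_odd
  have hR := h.hR
  have hw := h.hw
  have h4 : q = 3 ∨ q = 5 ∨ q = 7 ∨ q = 9 ∨ 11 ≤ q := by omega
  rcases h4 with h4 | h4 | h4 | h4 | h4
  · have hc := h.hc
    rw [h4] at hc
    norm_num at hc
    rw [hw, hc, h4] at hR; norm_num at hR; omega
  · have hc := h.hc
    rw [h4] at hc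
    norm_num at hc
    rw [hw, hc, h4] at hR; norm_num at hR; omega
  · have hc := h.hc
    rw [h4] at hc
    norm_num at hc
    rw [hw, hc, h4] at hR; norm_num at hR; omega
  · have hc := h.hc
    rw [h4] at hc
    norm_num at hc
    rw [hw, hc, h4] at hR; norm_num at hR; omega
  · right; right; right; right
    refine ⟨h4, ?_⟩
    have h5 := h.small2 (by omega) (by omega)
    have h6 : 11 ^ 2 * 12 ≤ q ^ 2 * (q + 1) := Nat.mul_le_mul (Nat.pow_le_pow_left h4 2) (by omega)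
    omega

theorem R61 : 61 ≤ R := by
  rcases h.big with ⟨-, h1⟩ | ⟨-, h1⟩ | ⟨-, h1⟩ | ⟨-, h1⟩ | ⟨-, h1⟩ <;> omega

/-- the shapes of the maximal element orders -/
theorem shape_cases {E : ℕ} (hS : Shape (-(q : ℤ)) p q (q + 1) (q + 1) 5 c E) :
    E = R ∨ (∃ D, DM p q D ∧ (w : ℤ) * ((E : ℤ) - R) = D) ∨ (w : ℤ) * ((R : ℤ) - E) = (q : ℤ) ^ 3 - (q : ℤ) ^ 2 + 2 ∨
      (2 * E ≤ R) ∨ E ≤ q ^ 2 * (q + 1) := by
  have h3 := h.q3
  have hw := h.hw
  have hR := h.hRZ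
  have hcp := h.c_pos
  have hw0 : 0 < w := h.w_pos
  rcases hS with h1 | ⟨a, b, ha, hb, hab, h1⟩ | h1 | ⟨k, h1, hk⟩ | h1
  · left
    rw [ua_minus_odd (by decide), ← hw, ← h.hR] at h1
    exact Nat.eq_of_mul_eq_mul_right hw0 h1
  · right
    have h5 : (a = 1 ∧ b = 4) ∨ (a = 2 ∧ b = 3) ∨ (a = 3 ∧ b = 2) ∨ (a = 4 ∧ b = 1) := by omega
    have h4 : 1 ≤ q ^ 4 := Nat.one_le_pow _ _ (by omega)
    have h2 : 1 ≤ q ^ 2 := Nat.one_le_pow _ _ (by omega)
    rcases h5 with ⟨rfl, rfl⟩ | ⟨rfl, rfl⟩ | ⟨rfl, rfl⟩ | ⟨rfl, rfl⟩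
    · left
      rw [ua_minus_odd (by decide), ua_minus_even (by omega) (by decide), ← hw] at h1
      have := congrArg (fun x : ℕ => (x : ℤ)) h1
      push_cast [Nat.cast_sub h4] at this
      exact ⟨_, Or.inl rfl, by linear_combination this - hR⟩
    · right; left
      rw [ua_minus_even (by omega) (by decide), ua_minus_odd (by decide), ← hw] at h1
      have := congrArg (fun x : ℕ => (x : ℤ)) h1
      push_cast [Nat.cast_sub h2] at this
      linear_combination hR - this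
    · right; left
      rw [ua_minus_odd (by decide), ua_minus_even (by omega) (by decide), ← hw] at h1
      have := congrArg (fun x : ℕ => (x : ℤ)) h1
      push_cast [Nat.cast_sub h2] at this
      linear_combination hR - this
    · left
      rw [ua_minus_even (by omega) (by decide), ua_minus_odd (by decide), ← hw] at h1
      have := congrArg (fun x : ℕ => (x : ℤ)) h1
      push_cast [Nat.cast_sub h4] at this
      exact ⟨_, Or.inl rfl, by linear_combination this - hR⟩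
  · rw [show 5 - 2 = 3 from rfl, ua_minus_odd (by decide)] at h1
    have hwZ : (w : ℤ) = c * ((q : ℤ) + 1) := by rw [hw]; push_cast; ring
    have h2 : (w : ℤ) * E = p * ((q : ℤ) ^ 3 + 1) * ((q : ℤ) + 1) := by
      have := congrArg (fun x : ℕ => (x : ℤ)) h1
      push_cast at this
      rw [hwZ]
      linear_combination ((q : ℤ) + 1) * this
    rcases h.pq with h5 | h5
    · right; left
      rw [h5] at h2
      exact ⟨_, Or.inr ⟨h5.symm, rfl⟩, by linear_combination h2 - hR⟩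
    · right; right; right; left
      have h6 : (w : ℤ) * (2 * E) ≤ (w : ℤ) * R := by
        have h8 : (0 : ℤ) ≤ ((q : ℤ) ^ 3 + 1) * ((q : ℤ) + 1) := by positivity
        have h9 : (3 * (p : ℤ)) * (((q : ℤ) ^ 3 + 1) * ((q : ℤ) + 1)) ≤
            q * (((q : ℤ) ^ 3 + 1) * ((q : ℤ) + 1)) := mul_le_mul_of_nonneg_right (by exact_mod_cast h5) h8
        obtain ⟨a, rfl⟩ : ∃ a, q = a + 3 := ⟨q - 3, by omega⟩
        have h10 : (0 : ℤ) ≤ 3 * (((a + 3 : ℕ) : ℤ) ^ 5 + 1) -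
            2 * (((a + 3 : ℕ) : ℤ) * (((((a + 3 : ℕ) : ℤ)) ^ 3 + 1) * (((a + 3 : ℕ) : ℤ) + 1))) := by
          clear * -
          push_cast
          ring_nf
          positivity
        have h11 : (w : ℤ) * (2 * E) * 3 ≤ (w : ℤ) * R * 3 := by
          rw [hR]
          have e1 : (w : ℤ) * (2 * E) * 3 = 2 * ((3 * (p : ℤ)) * (((((a + 3 : ℕ) : ℤ)) ^ 3 + 1) * (((a + 3 : ℕ) : ℤ) + 1))) := by
            linear_combination 6 * h2
          rw [e1]
          linarith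
        exact le_of_mul_le_mul_right h11 (by norm_num)
      have h7 := le_of_mul_le_mul_left h6 (by exact_mod_cast hw0)
      exact_mod_cast h7
  · right; right; right; right
    rw [h1]
    have hpq := h.p_le
    have hp3 := h.p3
    have h2 : p ^ (k + 1) ≤ q ^ 2 := by
      rcases Nat.eq_zero_or_pos k with h4 | h4
      · rw [h4]
        calc p ^ (0 + 1) ≤ q ^ 1 := Nat.pow_le_pow_left hpq 1
          _ ≤ q ^ 2 := Nat.pow_le_pow_right (by omega) (by norm_num)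
      · have h5 : k = 1 := by
          by_contra hcon
          have h6 : 3 ^ 2 ≤ p ^ k := (Nat.pow_le_pow_left hp3 2).trans (Nat.pow_le_pow_right (by omega) (by omega))
          omega
        rw [h5]
        exact Nat.pow_le_pow_left hpq 2
    rw [mul_comm]
    exact Nat.mul_le_mul_right _ h2
  · right; right; right; right
    have h2 : (q + 1) ^ 2 * E ≤ (q + 1) ^ 2 * (q ^ 2 * (q + 1)) := by
      refine h1.trans (le_of_eq ?_)
      norm_num
      ring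
    exact Nat.le_of_mul_le_mul_left h2 (by positivity)

/-- the special numbers -/
theorem DM_bd {D : ℤ} (hD : DM p q D) : ((q : ℤ) + 1) ^ 2 < D ∧ 5 * D ≤ 2 * ((q : ℤ) ^ 5 + 1) ∧
    3 * ((q : ℤ) ^ 3 - (q : ℤ) ^ 2 + 2) ≤ D ∧ ((q : ℤ) + 1) * D ≤ 2 * ((q : ℤ) ^ 5 + 1) ∧
      ((5 : ℤ) ≤ q → 4 * D < (q : ℤ) ^ 5 + 1) := by
  have h3 := h.q3
  refine ⟨?_, ?_, ?_, ?_, fun h5 => ?_⟩
  · obtain ⟨a, rfl⟩ : ∃ a, q = a + 3 := ⟨q - 3, by omega⟩
    rcases hD with rfl | ⟨-, rfl⟩ <;> push_cast <;> exact pos_lt (by clear * -; ring_nf; positivity)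
  · obtain ⟨a, rfl⟩ : ∃ a, q = a + 3 := ⟨q - 3, by omega⟩
    rcases hD with rfl | ⟨-, rfl⟩ <;> push_cast <;> exact pos_le (by clear * -; ring_nf; positivity)
  · obtain ⟨a, rfl⟩ : ∃ a, q = a + 3 := ⟨q - 3, by omega⟩
    rcases hD with rfl | ⟨-, rfl⟩ <;> push_cast <;> exact pos_le (by clear * -; ring_nf; positivity)
  · obtain ⟨a, rfl⟩ : ∃ a, q = a + 3 := ⟨q - 3, by omega⟩
    rcases hD with rfl | ⟨-, rfl⟩ <;> push_cast <;> exact pos_le (by clear * -; ring_nf; positivity)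
  · obtain ⟨a, rfl⟩ : ∃ a, q = a + 5 := ⟨q - 5, by omega⟩
    rcases hD with rfl | ⟨-, rfl⟩ <;> push_cast <;> exact pos_lt (by clear * -; ring_nf; positivity)

theorem shape_le {E : ℕ} (hS : Shape (-(q : ℤ)) p q (q + 1) (q + 1) 5 c E) : 10 * E ≤ 14 * R := by
  have hw0 : (0 : ℤ) < w := by exact_mod_cast h.w_pos
  rcases h.shape_cases hS with h1 | ⟨D, hD, h1⟩ | h1 | h1 | h1
  · omega
  · have h2 := (h.DM_bd hD).2.1
    rw [← h1, ← h.hRZ] at h2
    have h3 : (w : ℤ) * (5 * ((E : ℤ) - R)) ≤ w * (2 * R) := by linarith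
    have h4 := le_of_mul_le_mul_left h3 hw0
    omega
  · have h3 := h.q3
    obtain ⟨a, ha⟩ : ∃ a, q = a + 3 := ⟨q - 3, by omega⟩
    have h2 : (0 : ℤ) ≤ (w : ℤ) * ((R : ℤ) - E) := by
      rw [h1, ha]; push_cast; clear * -; ring_nf; positivity
    have h4 : (0 : ℤ) ≤ (R : ℤ) - E := by
      by_contra hcon
      have := mul_neg_of_pos_of_neg hw0 (not_le.1 hcon)
      linarith
    omega
  · omega
  · have := h.small
    omega

/-- the window -/
theorem spec {E : ℕ} (hW : WM p q c E) (h7 : 7 * R < 10 * E) (hne : E ≠ R) :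
    (∃ D, DM p q D ∧ (w : ℤ) * ((E : ℤ) - R) = D) ∨ (w : ℤ) * ((R : ℤ) - E) = (q : ℤ) ^ 3 - (q : ℤ) ^ 2 + 2 := by
  obtain ⟨E0, h0, ⟨j, hj⟩, hS⟩ := hW
  have h3 := h.shape_le hS
  have hj1 : j = 1 := by
    have h4 : j ≠ 0 := by
      rintro rfl
      omega
    by_contra h5
    have h6 : E * 2 ≤ E * j := Nat.mul_le_mul_left _ (by omega)
    omega
  rw [hj1, mul_one] at hj
  rw [hj] at hS
  have hs := h.small
  rcases h.shape_cases hS with h4 | h4 | h4 | h4 | h4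
  · exact absurd h4 hne
  · exact Or.inl h4
  · exact Or.inr h4
  · omega
  · omega

/-- the larger window -/
theorem spec2 (hq3 : q ≠ 3) (hq9 : q ≠ 9) {E : ℕ} (hW : WM p q c E) (h7 : R < 2 * E) (hne : E ≠ R) :
    (∃ D, DM p q D ∧ (w : ℤ) * ((E : ℤ) - R) = D) ∨ (w : ℤ) * ((R : ℤ) - E) = (q : ℤ) ^ 3 - (q : ℤ) ^ 2 + 2 ∨
      ∃ D, DM p q D ∧ (w : ℤ) * ((2 * E : ℤ) - R) = D := by
  obtain ⟨E0, h0, ⟨j, hj⟩, hS⟩ := hW
  have h3 := h.shape_le hS
  have hs := h.small2 hq3 hq9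
  have hj2 : j = 1 ∨ j = 2 := by
    have h4 : j ≠ 0 := by
      rintro rfl
      omega
    by_contra h5
    have h6 : E * 3 ≤ E * j := Nat.mul_le_mul_left _ (by omega)
    omega
  rcases hj2 with hj1 | hj1
  · rw [hj1, mul_one] at hj
    rw [hj] at hS
    rcases h.shape_cases hS with h4 | h4 | h4 | h4 | h4
    · exact absurd h4 hne
    · exact Or.inl h4
    · exact Or.inr (Or.inl h4)
    · omega
    · omega
  · rw [hj1] at hj
    rw [hj] at hS
    have hw0 : (0 : ℤ) < w := by exact_mod_cast h.w_pos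
    rcases h.shape_cases hS with h4 | ⟨D, hD, h4⟩ | h4 | h4 | h4
    · omega
    · right; right
      refine ⟨D, hD, ?_⟩
      rw [← h4]
      push_cast
      ring
    · exfalso
      have h5 := h.q3
      obtain ⟨a, ha⟩ : ∃ a, q = a + 3 := ⟨q - 3, by omega⟩
      have h6 : (0 : ℤ) < (w : ℤ) * ((R : ℤ) - (E * 2 : ℕ)) := by
        rw [h4, ha]; push_cast; clear * -; ring_nf; positivity
      have h7 := pos_of_mul_pos_nat' h6
      push_cast at h7
      omega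
    · omega
    · omega

end MNum

end Cfsg.Agent.R2.Spec.X7
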