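import Cfsg.Agent.R2.Spec.X7.NumM

/-!
# The numerical conditions for `PSU_5(q)`, `q` odd: conclusion
-/

set_option autoImplicit false

namespace Cfsg.Agent.R2.Spec.X7

namespace MNum

variable {p q c w R : ℕ} (h : MNum p q c w R)

include h

theorem wZ : (0 : ℤ) < w := by exact_mod_cast h.w_pos

theorem not_dvd_q {u : ℕ} (hu : ¬ p ∣ u) : ¬ q ∣ u := by
  intro hd
  obtain ⟨f, hf, hq⟩ := h.hq
  exact hu ((hq ▸ dvd_pow_self p (by omega) : p ∣ q).trans hd)

theorem ne_q {u : ℕ} (hu : ¬ p ∣ u) : (u : ℤ) ≠ q := by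
  intro h6
  have : u = q := by exact_mod_cast h6
  exact h.not_dvd_q hu (dvd_of_eq this.symm)

theorem ne39 (hp3 : p ≠ 3) : q ≠ 3 ∧ q ≠ 9 := by
  obtain ⟨f, hf, hq⟩ := h.hq
  have h1 : p ∣ q := hq ▸ dvd_pow_self p (by omega)
  constructor
  · intro h2
    rw [h2, Nat.prime_dvd_prime_iff_eq h.hp Nat.prime_three] at h1
    exact hp3 h1
  · intro h2
    rw [h2] at h1
    have h3 : p ∣ 3 := h.hp.dvd_of_dvd_pow (n := 2) (by norm_num; exact h1)
    rw [Nat.prime_dvd_prime_iff_eq h.hp Nat.prime_three] at h3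
    exact hp3 h3

theorem qZ : (3 : ℤ) ≤ q := by exact_mod_cast h.q3

/-- the special number below `R` -/
theorem X2_bd : ((q : ℤ) + 1) ^ 2 < (q : ℤ) ^ 3 - (q : ℤ) ^ 2 + 2 ∧
    8 * ((q : ℤ) ^ 3 - (q : ℤ) ^ 2 + 2) < 2 * ((q : ℤ) ^ 5 + 1) - 4 * ((q : ℤ) + 1) ^ 2 := by
  have h3 := h.q3
  obtain ⟨a, rfl⟩ : ∃ a, q = a + 3 := ⟨q - 3, by omega⟩
  push_cast
  exact ⟨pos_lt (by clear * -; ring_nf; positivity), pos_lt (by clear * -; ring_nf; positivity)⟩

theorem above {E : ℕ} {D : ℤ} (hD : DM p q D) (h1 : (w : ℤ) * ((E : ℤ) - R) = D) : R < E := by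
  have h2 := (h.DM_bd hD).1
  have h3 : (0 : ℤ) < (w : ℤ) * ((E : ℤ) - R) := by
    rw [h1]; exact lt_of_le_of_lt (sq_nonneg _) h2
  have := pos_of_mul_pos_nat' h3
  omega

theorem below {E : ℕ} (h1 : (w : ℤ) * ((R : ℤ) - E) = (q : ℤ) ^ 3 - (q : ℤ) ^ 2 + 2) : E < R := by
  have h2 := h.X2_bd.1
  have h3 : (0 : ℤ) < (w : ℤ) * ((R : ℤ) - E) := by
    rw [h1]; exact lt_of_le_of_lt (sq_nonneg _) h2
  have := pos_of_mul_pos_nat' h3
  omega

/-- an order above `R` in the window -/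
theorem spec_above {E : ℕ} (hW : WM p q c E) (h1 : R < E) : ∃ D, DM p q D ∧ (w : ℤ) * ((E : ℤ) - R) = D := by
  rcases h.spec hW (by omega) (by omega) with h2 | h2
  · exact h2
  · have := h.below h2
    omega

/-- an order below `R` in the window -/
theorem spec_below {E : ℕ} (hW : WM p q c E) (h7 : 7 * R < 10 * E) (h1 : E < R) :
    (w : ℤ) * ((R : ℤ) - E) = (q : ℤ) ^ 3 - (q : ℤ) ^ 2 + 2 := by
  rcases h.spec hW h7 (by omega) with ⟨D, hD, h2⟩ | h2
  · have := h.above hD h2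
    omega
  · exact h2

theorem le_upper {E : ℕ} (hW : WM p q c E) : 10 * E ≤ 14 * R := by
  obtain ⟨E0, h0, hd, hS⟩ := hW
  have h1 := Nat.le_of_dvd h0 hd
  have h2 := h.shape_le hS
  omega

theorem DM_pair {D D' : ℤ} (hD : DM p q D) (hD' : DM p q D') (hlt : D' < D) : 4 * D ≤ 5 * D' ∧
    D - D' = ((q : ℤ) + 1) ^ 2 := by
  have h3 := h.q3
  obtain ⟨a, rfl⟩ : ∃ a, q = a + 3 := ⟨q - 3, by omega⟩
  rcases hD with rfl | ⟨-, rfl⟩ <;> rcases hD' with rfl | ⟨-, rfl⟩ <;> push_cast at hlt ⊢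
  · exact absurd hlt (lt_irrefl _)
  · exact absurd hlt (not_lt.2 (pos_le (by clear * -; ring_nf; positivity)))
  · exact ⟨pos_le (by clear * -; ring_nf; positivity), by ring⟩
  · exact absurd hlt (lt_irrefl _)

theorem DM_13 (hq : 5 ≤ q) {D : ℤ} (hD : DM p q D) : 13 * D < 3 * ((q : ℤ) ^ 5 + 1) := by
  obtain ⟨a, rfl⟩ : ∃ a, q = a + 5 := ⟨q - 5, by omega⟩
  rcases hD with rfl | ⟨-, rfl⟩ <;> push_cast <;> exact pos_lt (by clear * -; ring_nf; positivity)

theorem DM_5 (hq : 7 ≤ q) {D : ℤ} (hD : DM p q D) : 5 * D < (q : ℤ) ^ 5 + 1 := by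
  obtain ⟨a, rfl⟩ : ∃ a, q = a + 7 := ⟨q - 7, by omega⟩
  rcases hD with rfl | ⟨-, rfl⟩ <;> push_cast <;> exact pos_lt (by clear * -; ring_nf; positivity)

theorem DM_9 (hq : 11 ≤ q) {D : ℤ} (hD : DM p q D) : 18 * D < 2 * ((q : ℤ) ^ 5 + 1) - 25 * ((q : ℤ) + 1) ^ 2 := by
  obtain ⟨a, rfl⟩ : ∃ a, q = a + 11 := ⟨q - 11, by omega⟩
  rcases hD with rfl | ⟨-, rfl⟩ <;> push_cast <;> exact pos_lt (by clear * -; ring_nf; positivity)

/-- the type `U`, odd -/
theorem typeO {u z : ℕ} {D : ℤ} (hD : DM p q D) (hpu : ¬ p ∣ u) (hu : 2 ≤ u) (hz : u ^ 3 ≤ z) (hz2 : 61 ≤ u * z + 1)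
    (hcr : D * ((u : ℤ) * z + 1) = ((q : ℤ) ^ 5 + 1) * (z - u - 2)) : False := by
  have hq4 : (q : ℤ) ≠ 4 := by
    have := h.q_odd
    omega
  have hzz : (u : ℤ) ^ 3 ≤ z := by exact_mod_cast hz
  have hzz2 : (61 : ℤ) ≤ (u : ℤ) * z + 1 := by exact_mod_cast hz2
  rcases hD with rfl | ⟨-, rfl⟩
  · exact h.ne_q hpu (m5O1 h.qZ hq4 (by omega) hzz hzz2 hcr)
  · exact m5O3 h.qZ hq4 (by omega) hzz hzz2 hcr

theorem w_small : (q = 3 → w = 4) ∧ (q = 5 → w = 6) ∧ (q = 7 → w = 8) := by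
  have hw := h.hw
  have hc := h.hc
  refine ⟨fun h4 => ?_, fun h4 => ?_, fun h4 => ?_⟩ <;> rw [h4] at hc <;> norm_num at hc <;> rw [hw, hc, h4]

theorem not_13 : ¬ 13 ∣ R := by
  intro hd
  have h3 := h.q3
  have hR := h.hR
  have hw := h.hw
  have h1 : (13 : ℤ) ∣ (q : ℤ) ^ 4 - (q : ℤ) ^ 3 + (q : ℤ) ^ 2 - q + 1 := by
    have h2 : (R : ℤ) * c = (q : ℤ) ^ 4 - (q : ℤ) ^ 3 + (q : ℤ) ^ 2 - q + 1 := by
      have h4 : (q : ℤ) + 1 ≠ 0 := by positivity
      apply mul_right_cancel₀ h4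
      rw [hw] at hR
      have h5 : (R : ℤ) * (c * (q + 1)) = (q : ℤ) ^ 5 + 1 := by exact_mod_cast hR
      linear_combination h5
    rw [← h2]
    exact Dvd.dvd.mul_right (by exact_mod_cast hd) _
  rw [show (13 : ℤ) = ((13 : ℕ) : ℤ) from rfl, ← ZMod.intCast_zmod_eq_zero_iff_dvd] at h1
  push_cast at h1
  have h2 : ∀ x : ZMod 13, x ^ 4 - x ^ 3 + x ^ 2 - x + 1 ≠ 0 := by decide
  exact h2 _ h1

/-- **the numerical conditions** -/
theorem nc : NC p R (WM p q c) where
  hp := h.hp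
  c1093 := fun hR => by rcases h.big with ⟨-, h1⟩ | ⟨-, h1⟩ | ⟨-, h1⟩ | ⟨-, h1⟩ | ⟨-, h1⟩ <;> omega
  n13 := h.not_13
  big := by rcases h.big with ⟨-, h1⟩ | ⟨-, h1⟩ | ⟨-, h1⟩ | ⟨-, h1⟩ | ⟨-, h1⟩ <;> omega
  upper := fun E _ hW => h.le_upper hW
  near := by
    intro E hE0 hW hne h1 h2
    have hR := h.R61
    have h6 := h.w_le'
    have hw := h.wZ
    rcases h.spec hW (by omega) hne with ⟨D, hD, h4⟩ | h4
    · have h5 := (h.DM_bd hD).1
      have h7 : (w : ℤ) * ((E : ℤ) - R) ≤ w * 2 := mul_le_mul_of_nonneg_left (by omega) hw.le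
      linarith
    · have h5 := h.X2_bd.1
      have h7 : (w : ℤ) * ((R : ℤ) - E) ≤ w * 2 := mul_le_mul_of_nonneg_left (by omega) hw.le
      linarith
  neg := by
    intro E E' hE0 hW hW' h7 h1 h2
    exfalso
    have h3 := h.spec_below hW (by omega) h2
    have h4 := h.spec_below hW' h7 (by omega)
    have h5 := mul_left_cancel₀ h.wZ.ne' (h3.trans h4.symm)
    omega
  posi := by
    intro E E' hE0 hW hW' h1 h2
    left
    obtain ⟨D, hD, h4⟩ := h.spec_above hW (by omega)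
    obtain ⟨D', hD', h4'⟩ := h.spec_above hW' h2
    have hw := h.wZ
    have hlt : D' < D := by
      rw [← h4, ← h4']
      exact mul_lt_mul_of_pos_left (by omega) hw
    obtain ⟨h5, h6⟩ := h.DM_pair hD hD' hlt
    have h7 := (h.DM_bd hD).2.2.2.1
    constructor
    · rw [← h4, ← h4'] at h5
      exact le_of_mul_le_mul_left (by linarith : (w : ℤ) * (4 * ((E : ℤ) - R)) ≤ w * (5 * (E' - R))) hw
    · have hq1 : (q : ℤ) + 1 ≤ w := by exact_mod_cast h.w_ge
      have hww : (0 : ℤ) < w * w := mul_pos hw hw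
      refine le_of_mul_le_mul_left (?_ : (w : ℤ) * w * (((E : ℤ) - E') * (E - R)) ≤ w * w * (2 * R)) hww
      have e1 : (w : ℤ) * w * (((E : ℤ) - E') * (E - R)) = (w * ((E : ℤ) - R) - w * (E' - R)) * (w * (E - R)) := by
        ring
      have e2 : (w : ℤ) * w * (2 * R) = w * (2 * (w * R)) := by ring
      rw [e1, e2, h4, h4', h6, h.hRZ]
      have h8 : ((q : ℤ) + 1) ^ 2 * D = ((q : ℤ) + 1) * (((q : ℤ) + 1) * D) := by ring
      rw [h8]
      refine (mul_le_mul_of_nonneg_left h7 (by positivity)).trans ?_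
      exact mul_le_mul_of_nonneg_right hq1 (by positivity)
  opp := by
    intro E E' _ hW hW' h7 h1 h2
    left
    obtain ⟨D, hD, h4⟩ := h.spec_above hW h2
    have h4' := h.spec_below hW' h7 h1
    have h5 := (h.DM_bd hD).2.2.1
    rw [← h4, ← h4'] at h5
    exact le_of_mul_le_mul_left (by linarith : (w : ℤ) * (3 * ((R : ℤ) - E')) ≤ w * (E - R)) h.wZ
  lT := by
    intro u M κ E hpu hu hM h1 h2 hE0 hW
    have hw := h.wZ
    obtain ⟨z, hz⟩ : ∃ z, u ^ (M - 1) = z := ⟨_, rfl⟩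
    have hz2 : u ^ 2 ≤ z := by rw [← hz]; exact Nat.pow_le_pow_right (by omega) (by omega)
    have hz3 : z = u ^ 2 ∨ u ^ 3 ≤ z := by
      rcases Nat.eq_or_lt_of_le hM with h3 | h3
      · left; rw [← hz, ← h3]
      · right; rw [← hz]; exact Nat.pow_le_pow_right (by omega) (by omega)
    have huM : u ^ M = u * z := by rw [← hz, ← pow_succ']; congr 1; omega
    rw [huM] at h1
    rw [hz] at h2
    have hz0 : 9 ≤ z := le_trans (by nlinarith) hz2
    have h1Z : (R : ℤ) * κ = (u : ℤ) * z - 1 := by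
      have h3 : 1 ≤ u * z := Nat.mul_pos (by omega) (by omega)
      have := congrArg (fun x : ℕ => (x : ℤ)) h1
      push_cast [Nat.cast_sub h3] at this
      exact this
    have h2Z : (κ : ℤ) * E = ((z : ℤ) - 1) * (u - 1) := by
      have := congrArg (fun x : ℕ => (x : ℤ)) h2
      push_cast [Nat.cast_sub (show 1 ≤ z by omega), Nat.cast_sub (show 1 ≤ u by omega)] at this
      exact this
    have hκ : (0 : ℤ) < κ := by
      rcases Nat.eq_zero_or_pos κ with h3 | h3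
      · rw [h3] at h1Z
        have : (3 : ℤ) * 9 ≤ u * z := by exact_mod_cast Nat.mul_le_mul hu hz0
        push_cast at h1Z
        linarith
      · exact_mod_cast h3
    have h4Z : (κ : ℤ) * ((R : ℤ) - E) = z + u - 2 := by linear_combination h1Z - h2Z
    have hER : E < R := by
      have h5 : (0 : ℤ) < (κ : ℤ) * ((R : ℤ) - E) := by rw [h4Z]; omega
      have := pos_of_mul_pos_nat' h5
      omega
    have huz : (u : ℤ) ^ 2 ≤ z := by exact_mod_cast hz2
    have hu2 : (2 : ℤ) ≤ u := by omega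
    have hzz3 : (z : ℤ) = (u : ℤ) ^ 2 ∨ (u : ℤ) ^ 3 ≤ z := by
      rcases hz3 with h6 | h6
      · left; exact_mod_cast h6
      · right; exact_mod_cast h6
    have fin : (w : ℤ) * ((R : ℤ) - E) = (q : ℤ) ^ 3 - (q : ℤ) ^ 2 + 2 → R = 61 ∧ u = 13 ∧ M = 3 := by
      intro h5
      have hcr := cross h5 h.hRZ h1Z h4Z
      obtain ⟨h6, h7, h8⟩ := m5L h.qZ hu2 hzz3 hcr
      have h9 : q = 3 := by exact_mod_cast h6
      have h10 : u = 13 := by exact_mod_cast h7
      have h11 : z = u ^ 2 := by exact_mod_cast h8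
      refine ⟨?_, h10, ?_⟩
      · rcases h.big with ⟨-, h12⟩ | ⟨h12, -⟩ | ⟨h12, -⟩ | ⟨h12, -⟩ | ⟨h12, -⟩ <;> omega
      · rw [h11] at hz
        have := Nat.pow_right_injective (show 2 ≤ u by omega) hz
        omega
    rcases Nat.eq_or_lt_of_le hu with hu3 | hu4
    · -- `u = 3`
      have hp3 : p ≠ 3 := by
        rintro rfl
        exact hpu (hu3 ▸ dvd_rfl)
      obtain ⟨hq3, hq9⟩ := h.ne39 hp3
      rw [← hu3] at h1Z h2Z
      push_cast at h1Z h2Z
      have h2E : R < 2 * E := by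
        have h5 : (κ : ℤ) * R < κ * (2 * E) := by
          have h6 : (κ : ℤ) * (2 * E) - κ * R = z - 3 := by linear_combination 2 * h2Z - h1Z
          omega
        have h6 := lt_of_mul_lt_mul_left h5 hκ.le
        exact_mod_cast h6
      rcases h.spec2 hq3 hq9 hW h2E (by omega) with ⟨D, hD, h5⟩ | h5 | ⟨D, hD, h5⟩
      · have := h.above hD h5
        omega
      · exact fin h5
      · exfalso
        have h6 : (κ : ℤ) * ((2 * E : ℤ) - R) = z - 3 := by linear_combination 2 * h2Z - h1Z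
        have hcr := cross h5 h.hRZ h1Z h6
        have hq5 : 5 ≤ q := by
          have := h.q3
          have := h.q_odd
          omega
        have h7 := h.DM_13 hq5 hD
        have h8 : (0 : ℤ) < 3 * z - 1 := by omega
        have h9 := mul_lt_mul_of_pos_right h7 h8
        have h10 : (0 : ℤ) < (q : ℤ) ^ 5 + 1 := by positivity
        have h11 : ((q : ℤ) ^ 5 + 1) * (13 * (z - 3)) < ((q : ℤ) ^ 5 + 1) * (3 * (3 * z - 1)) := by linarith
        have h12 := lt_of_mul_lt_mul_left h11 h10.le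
        omega
    · apply fin
      apply h.spec_below hW _ hER
      have h5 : (κ : ℤ) * (7 * R) < κ * (10 * E) := by
        have h6 : (κ : ℤ) * (10 * E) - κ * (7 * R) = (3 * u - 10) * z - 10 * u + 17 := by
          linear_combination 10 * h2Z - 7 * h1Z
        have h7 : (0 : ℤ) < (3 * (u : ℤ) - 10) * z - 10 * u + 17 := by
          have h8 : (3 * (u : ℤ) - 10) * (u ^ 2) ≤ (3 * (u : ℤ) - 10) * z :=
            mul_le_mul_of_nonneg_left huz (by omega)
          obtain ⟨a, rfl⟩ : ∃ a, u = a + 4 := ⟨u - 4, by omega⟩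
          have h9 : (0 : ℤ) < (3 * ((a + 4 : ℕ) : ℤ) - 10) * ((a + 4 : ℕ) : ℤ) ^ 2 - 10 * ((a + 4 : ℕ) : ℤ) + 17 := by
            clear * -
            push_cast
            ring_nf
            positivity
          linarith
        linarith
      have h6 := lt_of_mul_lt_mul_left h5 hκ.le
      exact_mod_cast h6
  two := by
    intro z E hz h1 h2 hW
    have hR := h.R61
    have h3 := h.spec_below hW (by omega) (by omega)
    have h4 := h.X2_bd.2
    have h5 : 4 * ((R : ℤ) - E) = R + 9 := by omega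
    have h6 : 4 * ((q : ℤ) ^ 3 - (q : ℤ) ^ 2 + 2) = ((q : ℤ) ^ 5 + 1) + 9 * w := by
      rw [← h3, ← h.hRZ]
      linear_combination (w : ℤ) * h5
    have := sq_nonneg ((q : ℤ) + 1)
    have := h.wZ
    linarith
  mT := by
    intro v M E hv hM h1 h2 hE0 hW
    obtain ⟨z, hz⟩ : ∃ z, (v + 1) ^ M = z := ⟨_, rfl⟩
    have hz4 : (v + 1) ^ 4 ≤ z := by rw [← hz]; exact Nat.pow_le_pow_right (by omega) hM
    have hz1 : 1 ≤ z := le_trans (Nat.one_le_pow _ _ (by omega)) hz4
    have e1 : (v + 1) ^ (M + 1) = (v + 1) * z := by rw [← hz, pow_succ']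
    rw [hz] at h1
    rw [e1] at h2
    have h1Z : (R : ℤ) * v = z - 1 := by
      have := congrArg (fun x : ℕ => (x : ℤ)) h1
      push_cast [Nat.cast_sub hz1] at this
      exact this
    have h2Z : (E : ℤ) * (v : ℤ) ^ 2 = ((v : ℤ) + 1) * z - 1 := by
      have h3 : 1 ≤ (v + 1) * z := Nat.mul_pos (by omega) (by omega)
      have := congrArg (fun x : ℕ => (x : ℤ)) h2
      push_cast [Nat.cast_sub h3] at this
      exact this
    have h3Z : (R : ℤ) * (v : ℤ) ^ 2 = (v : ℤ) * (z - 1) := by linear_combination (v : ℤ) * h1Z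
    have h4Z : (v : ℤ) ^ 2 * ((E : ℤ) - R) = z + v - 1 := by linear_combination h2Z - h3Z
    have hv2 : (0 : ℤ) < (v : ℤ) ^ 2 := by positivity
    have hRE : R < E := by
      by_contra hcon
      have h5 : (v : ℤ) ^ 2 * ((E : ℤ) - R) ≤ 0 := mul_nonpos_of_nonneg_of_nonpos hv2.le (by omega)
      rw [h4Z] at h5
      omega
    rcases Nat.eq_or_lt_of_le hv with hv1 | hv1
    · have h5 := h.le_upper hW
      rw [← hv1] at h1Z h2Z
      push_cast at h1Z h2Z
      omega
    · obtain ⟨D, hD, h5⟩ := h.spec_above hW hRE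
      have hcr := cross h5 h.hRZ h3Z h4Z
      have hzz : ((v : ℤ) + 1) ^ 4 ≤ z := by exact_mod_cast hz4
      rcases hD with rfl | ⟨-, rfl⟩
      · exact m5M1 h.qZ (by omega) hzz hcr
      · exact m5M3 h.qZ (by omega) hzz hcr
  uE := by
    intro u M κ E hpu hu hM h1 h2 hE0 hW
    obtain ⟨z, hz⟩ : ∃ z, u ^ (M - 1) = z := ⟨_, rfl⟩
    have huM : u ^ M = u * z := by rw [← hz, ← pow_succ']; congr 1; omega
    have hz5 : u ^ 5 ≤ z := by rw [← hz]; exact Nat.pow_le_pow_right (by omega) (by omega)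
    have hz1 : 1 ≤ z := le_trans (Nat.one_le_pow _ _ (by omega)) hz5
    rw [huM] at h1
    rw [hz] at h2
    have h1Z : (R : ℤ) * κ = (u : ℤ) * z - 1 := by
      have h3 : 1 ≤ u * z := Nat.mul_pos (by omega) (by omega)
      have := congrArg (fun x : ℕ => (x : ℤ)) h1
      push_cast [Nat.cast_sub h3] at this
      exact this
    have h2Z : (κ : ℤ) * E = ((z : ℤ) + 1) * (u + 1) := by
      have := congrArg (fun x : ℕ => (x : ℤ)) h2
      push_cast at this
      exact this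
    have h4Z : (κ : ℤ) * ((E : ℤ) - R) = z + u + 2 := by linear_combination h2Z - h1Z
    have hRE : R < E := by
      have h5 : (0 : ℤ) < (κ : ℤ) * ((E : ℤ) - R) := by rw [h4Z]; positivity
      have := pos_of_mul_pos_nat' h5
      omega
    obtain ⟨D, hD, h5⟩ := h.spec_above hW hRE
    have hcr := cross h5 h.hRZ h1Z h4Z
    have hzz : (u : ℤ) ^ 5 ≤ z := by exact_mod_cast hz5
    rcases hD with rfl | ⟨-, rfl⟩
    · exact m5E1 h.qZ (by omega) hzz hcr
    · exact h.ne_q hpu (m5E3 h.qZ (by omega) hzz hcr)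
  uO := by
    intro u M κ E hpu hu hM hκ0 h1 h2 hE0 hW
    obtain ⟨z, hz⟩ : ∃ z, u ^ (M - 1) = z := ⟨_, rfl⟩
    have huM : u ^ M = u * z := by rw [← hz, ← pow_succ']; congr 1; omega
    have hz3 : u ^ 3 ≤ z := by rw [← hz]; exact Nat.pow_le_pow_right (by omega) (by omega)
    have hz1 : 1 ≤ z := le_trans (Nat.one_le_pow _ _ (by omega)) hz3
    rw [huM] at h1
    rw [hz] at h2
    have h1Z : (R : ℤ) * κ = (u : ℤ) * z + 1 := by exact_mod_cast h1
    have h2Z : (κ : ℤ) * E = ((z : ℤ) - 1) * (u + 1) := by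
      have := congrArg (fun x : ℕ => (x : ℤ)) h2
      push_cast [Nat.cast_sub hz1] at this
      exact this
    have h4Z : (κ : ℤ) * ((E : ℤ) - R) = z - u - 2 := by linear_combination h2Z - h1Z
    have hzu : (0 : ℤ) < z - u - 2 := by
      have h5 : u + 3 ≤ u ^ 3 := by
        obtain ⟨a, rfl⟩ : ∃ a, u = a + 2 := ⟨u - 2, by omega⟩
        have : (a + 2) ^ 3 = a ^ 3 + 6 * a ^ 2 + 12 * a + 8 := by ring
        rw [this]
        have := Nat.zero_le (a ^ 3)
        have := Nat.zero_le (a ^ 2)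
        omega
      omega
    have hRE : R < E := by
      have h5 : (0 : ℤ) < (κ : ℤ) * ((E : ℤ) - R) := by rw [h4Z]; exact hzu
      have := pos_of_mul_pos_nat' h5
      omega
    obtain ⟨D, hD, h5⟩ := h.spec_above hW hRE
    have hcr := cross h5 h.hRZ h1Z h4Z
    refine h.typeO hD hpu hu hz3 ?_ hcr
    have h6 : R * 1 ≤ R * κ := Nat.mul_le_mul_left _ hκ0
    have := h.R61
    omega
  uT := by
    intro u g E hu h1 h2 hE0 hW
    exfalso
    have h4Z : (g : ℤ) * ((E : ℤ) - R) = u - 2 := by linear_combination h2 - h1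
    have hRE : R < E := by
      have h5 : (0 : ℤ) < (g : ℤ) * ((E : ℤ) - R) := by rw [h4Z]; omega
      have := pos_of_mul_pos_nat' h5
      omega
    obtain ⟨D, hD, h5⟩ := h.spec_above hW hRE
    have hcr := cross h5 h.hRZ h1 h4Z
    rcases hD with rfl | ⟨-, rfl⟩
    · exact m5T1 h.qZ (by omega) hcr
    · exact m5T3 h.qZ (by omega) hcr
  mO := by
    intro u m E hpu hu hm hme h1 h2 hE0 hW
    have hR := h.R61
    rcases h.big with ⟨hq, hRv⟩ | hbig
    · -- `q = 3`
      have h3 : u ^ 4 ≤ u ^ m := Nat.pow_le_pow_right (by omega) hm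
      have hu3 : u = 3 := by
        by_contra hcon
        have h4 : 4 ^ 4 ≤ u ^ 4 := Nat.pow_le_pow_left (by omega) 4
        norm_num at h4
        omega
      rw [hu3] at h1
      have h5 : 3 ∣ 3 ^ m := dvd_pow_self 3 (by omega)
      omega
    · by_cases hq9 : q = 9
      · have hRv : R = 1181 := by
          rcases hbig with ⟨h3, -⟩ | ⟨h3, -⟩ | ⟨-, h3⟩ | ⟨h3, -⟩ <;> omega
        obtain ⟨k, hk⟩ := hme
        have h3 : (u ^ k) ^ 2 = 2361 := by
          rw [← pow_mul, show k * 2 = m by omega]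
          omega
        have h4 : 48 < u ^ k := by
          by_contra hcon
          have : (u ^ k) ^ 2 ≤ 48 ^ 2 := Nat.pow_le_pow_left (by omega) 2
          omega
        have h5 : 49 ^ 2 ≤ (u ^ k) ^ 2 := Nat.pow_le_pow_left h4 2
        omega
      · have hq3 : q ≠ 3 := by
          rcases hbig with ⟨h3, -⟩ | ⟨h3, -⟩ | ⟨h3, -⟩ | ⟨h3, -⟩ <;> omega
        obtain ⟨z, hz⟩ : ∃ z, u ^ (m - 1) = z := ⟨_, rfl⟩
        have huM : u ^ m = u * z := by rw [← hz, ← pow_succ']; congr 1; omega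
        have hz3 : u ^ 3 ≤ z := by rw [← hz]; exact Nat.pow_le_pow_right (by omega) (by omega)
        rw [huM] at h1
        rw [hz] at h2
        have hz1 : 9 * u ≤ z := by
          refine le_trans ?_ hz3
          calc 9 * u = 3 ^ 2 * u := by norm_num
            _ ≤ u ^ 2 * u := Nat.mul_le_mul_right _ (Nat.pow_le_pow_left hu 2)
            _ = _ := by ring
        have h4 : 4 * E + u + 1 = u * z + z := by
          obtain ⟨y, hy⟩ : ∃ y, z = y + 1 := ⟨z - 1, by omega⟩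
          rw [h2, hy, Nat.add_sub_cancel]
          ring
        have h3z : 3 * z ≤ u * z := Nat.mul_le_mul_right _ hu
        rcases h.spec2 hq3 hq9 hW (by omega) (by omega) with ⟨D, hD, h5⟩ | h5 | ⟨D, hD, h5⟩
        · have := h.above hD h5
          omega
        · have h6 := h.X2_bd.2
          have h8 : (R : ℤ) ≤ 3 * ((R : ℤ) - E) := by omega
          have h9 := mul_le_mul_of_nonneg_left h8 h.wZ.le
          have h10 := sq_nonneg ((q : ℤ) + 1)
          have h11 : (w : ℤ) * (3 * ((R : ℤ) - E)) = 3 * ((q : ℤ) ^ 3 - (q : ℤ) ^ 2 + 2) := by rw [← h5]; ring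
          rw [h.hRZ, h11] at h9
          have h12 : (0 : ℤ) < (q : ℤ) ^ 5 + 1 := by positivity
          linarith
        · have h1Z : (R : ℤ) * 2 = (u : ℤ) * z + 1 := by
            have : R * 2 = u * z + 1 := by omega
            exact_mod_cast this
          have h6Z : (2 : ℤ) * ((2 * E : ℤ) - R) = z - u - 2 := by
            have h7 : (4 : ℤ) * E + u + 1 = u * z + z := by exact_mod_cast h4
            linear_combination h7 - h1Z
          have hcr := cross h5 h.hRZ h1Z h6Z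
          exact h.typeO hD hpu (by omega) hz3 (by omega) hcr
  d3 := by
    intro E hp3 h1 hW
    have hR := h.R61
    obtain ⟨hq3, hq9⟩ := h.ne39 hp3
    obtain ⟨D, hD, h5⟩ := h.spec_above hW (by omega)
    have h6 := h.w_le'
    have h7 : 9 * D = ((q : ℤ) ^ 5 + 1) - 25 * w := by
      rw [← h5, ← h.hRZ]
      linear_combination (w : ℤ) * h1
    rcases h.big with ⟨hq, hRv⟩ | ⟨hq, hRv⟩ | ⟨hq, hRv⟩ | ⟨hq, hRv⟩ | ⟨hq, -⟩
    · exact hq3 hq
    · rw [hRv] at h1; omega
    · rw [hRv] at h1; omega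
    · exact hq9 hq
    · have h8 := h.DM_9 hq hD
      linarith
  d5 := by
    intro E h1 hW
    have hR := h.R61
    obtain ⟨D, hD, h5⟩ := h.spec_above hW (by omega)
    have h7 : 5 * D = ((q : ℤ) ^ 5 + 1) + 9 * w := by
      rw [← h5, ← h.hRZ]
      linear_combination (w : ℤ) * h1
    have hw := h.wZ
    have h3 := h.q3
    have ho := h.q_odd
    obtain ⟨w3, w5, -⟩ := h.w_small
    have hq : q = 3 ∨ q = 5 ∨ 7 ≤ q := by omega
    rcases hq with hq | hq | hq
    · rw [w3 hq, hq] at h7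
      rcases hD with hD | ⟨-, hD⟩ <;> rw [hD, hq] at h7 <;> norm_num at h7
    · rw [w5 hq, hq] at h7
      rcases hD with hD | ⟨-, hD⟩ <;> rw [hD, hq] at h7 <;> norm_num at h7
    · have := h.DM_5 hq hD
      linarith
  p3 := by
    intro E hp3 h1 hW
    have hR := h.R61
    obtain ⟨hq3, hq9⟩ := h.ne39 hp3
    have hw := h.wZ
    have h3 := h.q3
    have ho := h.q_odd
    rcases h.spec2 hq3 hq9 hW (by omega) (by omega) with ⟨D, hD, h5⟩ | h5 | ⟨D, hD, h5⟩
    · have := h.above hD h5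
      omega
    · have h6 := h.X2_bd.2
      have h7 : 3 * ((R : ℤ) - E) = R - 4 := by omega
      have h8 : 3 * ((q : ℤ) ^ 3 - (q : ℤ) ^ 2 + 2) = ((q : ℤ) ^ 5 + 1) - 4 * w := by
        rw [← h5, ← h.hRZ]
        linear_combination (w : ℤ) * h7
      have h9 := h.w_le'
      have h10 := h.X2_bd.1
      have h11 := sq_nonneg ((q : ℤ) + 1)
      linarith
    · have h6 := h.DM_13 (by omega) hD
      have h7 : 3 * ((2 * E : ℤ) - R) = R + 8 := by omega
      have h8 : 3 * D = ((q : ℤ) ^ 5 + 1) + 8 * w := by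
        rw [← h5, ← h.hRZ]
        linear_combination (w : ℤ) * h7
      have h10 : (0 : ℤ) < (q : ℤ) ^ 5 + 1 := by positivity
      linarith
  half := by
    intro E _ h1 hW
    have hR := h.R61
    rcases h.big with ⟨hq, hRv⟩ | hbig
    · exact Or.inl hRv
    · by_cases hq9 : q = 9
      · right; left
        rcases hbig with ⟨h3, -⟩ | ⟨h3, -⟩ | ⟨-, h3⟩ | ⟨h3, -⟩ <;> omega
      · exfalso
        have hq3 : q ≠ 3 := by
          rcases hbig with ⟨h3, -⟩ | ⟨h3, -⟩ | ⟨h3, -⟩ | ⟨h3, -⟩ <;> omega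
        rcases h.spec2 hq3 hq9 hW (by omega) (by omega) with ⟨D, hD, h5⟩ | h5 | ⟨D, hD, h5⟩
        · have := h.above hD h5
          omega
        · have h6 := h.X2_bd.2
          have h7 : 2 * ((R : ℤ) - E) = R - 1 := by omega
          have h8 : 2 * ((q : ℤ) ^ 3 - (q : ℤ) ^ 2 + 2) = ((q : ℤ) ^ 5 + 1) - w := by
            rw [← h5, ← h.hRZ]
            linear_combination (w : ℤ) * h7
          have h9 := h.w_le'
          have h10 : (0 : ℤ) < (q : ℤ) ^ 5 + 1 := by positivity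
          have h11 := sq_nonneg ((q : ℤ) + 1)
          linarith
        · have h6 := (h.DM_bd hD).1
          have h7 : (2 * E : ℤ) - R = 1 := by omega
          rw [h7, mul_one] at h5
          have h9 := h.w_le'
          have := h.wZ
          linarith

end MNum

end Cfsg.Agent.R2.Spec.X7
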