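import Cfsg.Agent.R2.Spec.X7.NC
import Cfsg.Agent.R2.Spec.X7.LtP
import Cfsg.Agent.R2.Spec.X7.Groups

/-!
# The numerical conditions for `PSL_5(q)`, `PSL_7(q)`, `q` odd
-/

set_option autoImplicit false

namespace Cfsg.Agent.R2.Spec.X7

theorem pos_of_mul_pos_nat {b : ℤ} {w : ℕ} (h : 0 < (w : ℤ) * b) : 0 < b := by
  by_contra hcon
  have := mul_nonpos_of_nonneg_of_nonpos (Int.natCast_nonneg w) (not_lt.1 hcon)
  omega

/-- the numbers of `PSL_n(q)`, `n = 5, 7` -/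
structure PNum (p q n c w R : ℕ) : Prop where
  hn : n = 5 ∨ n = 7
  hp : p.Prime
  hp2 : p ≠ 2
  hq : ∃ f, 1 ≤ f ∧ q = p ^ f
  hc : c = Nat.gcd n (q - 1)
  hw : w = c * (q - 1)
  hR : R * w = q ^ n - 1

/-- the condition for the element orders -/
def WP (p q n c : ℕ) (E : ℕ) : Prop := ∃ E0, 0 < E0 ∧ E ∣ E0 ∧ Shape (q : ℤ) p q (q - 1) q n c E0

/-- the special numbers -/
def DP (p q n : ℕ) (D : ℤ) : Prop :=
  (n = 5 ∧ (D = (q : ℤ) ^ 4 + q - 2 ∨ D = (q : ℤ) ^ 3 + (q : ℤ) ^ 2 - 2 ∨ (q = p ∧ D = (q : ℤ) ^ 4 + (q : ℤ) ^ 2 - q - 1))) ∨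
  (n = 7 ∧ (D = (q : ℤ) ^ 6 + q - 2 ∨ D = (q : ℤ) ^ 5 + (q : ℤ) ^ 2 - 2 ∨ D = (q : ℤ) ^ 4 + (q : ℤ) ^ 3 - 2 ∨
    (q = p ∧ D = (q : ℤ) ^ 6 + (q : ℤ) ^ 2 - q - 1)))

namespace PNum

variable {p q n c w R : ℕ} (h : PNum p q n c w R)

include h

theorem p3 : 3 ≤ p := by
  have := h.hp.two_le
  have := h.hp2
  omega

theorem pq : p = q ∨ 3 * p ≤ q := by
  obtain ⟨f, hf, hq⟩ := h.hq
  rcases Nat.eq_or_lt_of_le hf with h1 | h1
  · left; rw [hq, ← h1, pow_one]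
  · right
    obtain ⟨g, rfl⟩ : ∃ g, f = g + 2 := ⟨f - 2, by omega⟩
    rw [hq, pow_add]
    calc 3 * p ≤ p * p := Nat.mul_le_mul_right _ h.p3
      _ = 1 * p ^ 2 := by ring
      _ ≤ p ^ g * p ^ 2 := Nat.mul_le_mul_right _ (Nat.one_le_pow _ _ h.hp.pos)

theorem p_le : p ≤ q := by
  have := h.pq
  omega

theorem q3 : 3 ≤ q := by
  have := h.p_le
  have := h.p3
  omega

theorem q_odd : q % 2 = 1 := by
  obtain ⟨f, hf, hq⟩ := h.hq
  have : Odd q := by rw [hq]; exact (h.hp.odd_of_ne_two h.hp2).pow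
  exact Nat.odd_iff.1 this

theorem c_cases : c = 1 ∨ (c = n ∧ 2 * n ≤ q - 1) := by
  have hnp : n.Prime := by
    rcases h.hn with h1 | h1 <;> rw [h1] <;> norm_num
  have h3 := h.q3
  have ho := h.q_odd
  have hc := h.hc
  have h2 : c ∣ n := by rw [hc]; exact Nat.gcd_dvd_left _ _
  rcases (Nat.dvd_prime hnp).1 h2 with h1 | h1
  · exact Or.inl h1
  · right
    refine ⟨h1, ?_⟩
    have h4 : n ∣ q - 1 := by rw [← h1, hc]; exact Nat.gcd_dvd_right _ _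
    have h5 : 2 ∣ q - 1 := ⟨(q - 1) / 2, by omega⟩
    have h6 : Nat.Coprime 2 n := by
      rcases h.hn with h1 | h1 <;> rw [h1] <;> norm_num
    exact Nat.le_of_dvd (by omega) (h6.mul_dvd_of_dvd_of_dvd h5 h4)

theorem c_pos : 0 < c := by
  rcases h.c_cases with h1 | ⟨h1, -⟩
  · omega
  · have := h.hn
    omega

theorem two_c : 2 * c ≤ q - 1 := by
  have := h.q3
  have := h.q_odd
  rcases h.c_cases with h1 | ⟨h1, h2⟩ <;> omega

theorem w_le : 2 * w ≤ (q - 1) ^ 2 := by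
  rw [h.hw, pow_two]
  calc 2 * (c * (q - 1)) = (2 * c) * (q - 1) := by ring
    _ ≤ _ := Nat.mul_le_mul_right _ h.two_c

theorem w_ge : q - 1 ≤ w := by
  rw [h.hw]
  exact Nat.le_mul_of_pos_left _ h.c_pos

theorem hRZ : (w : ℤ) * R = (q : ℤ) ^ n - 1 := by
  have h1 : 1 ≤ q ^ n := Nat.one_le_pow _ _ (by have := h.q3; omega)
  have := congrArg (fun x : ℕ => (x : ℤ)) h.hR
  push_cast [Nat.cast_sub h1] at this
  linarith

/-- small numbers -/
theorem small {E : ℕ} (hE : (q - 1) ^ 2 * E ≤ q ^ n) : 2 * E ≤ R := by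
  have h1 := h.w_le
  have h2 := h.w_ge
  have h3 := h.q3
  have h4 := h.hR
  by_contra hcon
  have h5 : (R + 1) * w ≤ 2 * E * w := Nat.mul_le_mul_right _ (by omega)
  have h6 : 2 * E * w ≤ (q - 1) ^ 2 * E := by
    calc 2 * E * w = (2 * w) * E := by ring
      _ ≤ _ := Nat.mul_le_mul_right _ h1
  have h7 : (R + 1) * w = R * w + w := by ring
  have h8 : 1 ≤ q ^ n := Nat.one_le_pow _ _ (by omega)
  omega

theorem small4 {k : ℕ} (hk : p ^ k < n) : 2 * ((q - 1) * p ^ (k + 1)) ≤ R := by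
  apply h.small
  have h3 := h.q3
  have hpq := h.p_le
  obtain ⟨t, ht⟩ : ∃ t, q = t + 3 := ⟨q - 3, by omega⟩
  have h1 : p ^ (k + 1) ≤ (n - 1) * q := by
    rw [pow_succ]
    exact Nat.mul_le_mul (by omega) hpq
  calc (q - 1) ^ 2 * ((q - 1) * p ^ (k + 1)) ≤ (q - 1) ^ 2 * ((q - 1) * ((n - 1) * q)) :=
        Nat.mul_le_mul_left _ (Nat.mul_le_mul_left _ h1)
    _ ≤ q ^ n := by
      have e1 : q - 1 = t + 2 := by omega
      rw [e1, ht]
      rcases h.hn with h1 | h1 <;> rw [h1]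
      · have e2 : (t + 3) ^ 5 = (t + 2) ^ 2 * ((t + 2) * ((5 - 1) * (t + 3))) +
            (t ^ 5 + 11 * t ^ 4 + 54 * t ^ 3 + 150 * t ^ 2 + 229 * t + 147) := by norm_num; ring
        rw [e2]; exact Nat.le_add_right _ _
      · have e2 : (t + 3) ^ 7 = (t + 2) ^ 2 * ((t + 2) * ((7 - 1) * (t + 3))) +
            (t ^ 7 + 21 * t ^ 6 + 189 * t ^ 5 + 939 * t ^ 4 + 2781 * t ^ 3 + 4923 * t ^ 2 + 4839 * t + 2043) := by
          norm_num; ring
        rw [e2]; exact Nat.le_add_right _ _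

/-- the shapes of the maximal element orders -/
theorem shape_cases {E : ℕ} (hS : Shape (q : ℤ) p q (q - 1) q n c E) :
    E = R ∨ 2 * E ≤ R ∨ ∃ D, DP p q n D ∧ (w : ℤ) * ((R : ℤ) - E) = D := by
  have h3 := h.q3
  have hw := h.hw
  have hR := h.hRZ
  have hcp := h.c_pos
  have hw0 : 0 < w := by have := h.w_ge; omega
  rcases hS with h1 | ⟨a, b, ha, hb, hab, h1⟩ | h1 | ⟨k, h1, hk⟩ | h1
  · left
    rw [ua_plus (by omega), ← hw, ← h.hR] at h1
    exact Nat.eq_of_mul_eq_mul_right hw0 h1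
  · right; right
    rw [ua_plus (by omega), ua_plus (by omega), ← hw] at h1
    have h2 : (w : ℤ) * E = ((q : ℤ) ^ a - 1) * ((q : ℤ) ^ b - 1) := by
      have h4 : 1 ≤ q ^ a := Nat.one_le_pow _ _ (by omega)
      have h5 : 1 ≤ q ^ b := Nat.one_le_pow _ _ (by omega)
      have := congrArg (fun x : ℕ => (x : ℤ)) h1
      push_cast [Nat.cast_sub h4, Nat.cast_sub h5] at this
      linarith
    rcases h.hn with h4 | h4
    · have h5 : (a = 1 ∧ b = 4) ∨ (a = 2 ∧ b = 3) ∨ (a = 3 ∧ b = 2) ∨ (a = 4 ∧ b = 1) := by omega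
      rw [h4] at hR
      rcases h5 with ⟨rfl, rfl⟩ | ⟨rfl, rfl⟩ | ⟨rfl, rfl⟩ | ⟨rfl, rfl⟩
      · exact ⟨_, Or.inl ⟨h4, Or.inl rfl⟩, by linear_combination hR - h2⟩
      · exact ⟨_, Or.inl ⟨h4, Or.inr (Or.inl rfl)⟩, by linear_combination hR - h2⟩
      · exact ⟨_, Or.inl ⟨h4, Or.inr (Or.inl rfl)⟩, by linear_combination hR - h2⟩
      · exact ⟨_, Or.inl ⟨h4, Or.inl rfl⟩, by linear_combination hR - h2⟩
    · have h5 : (a = 1 ∧ b = 6) ∨ (a = 2 ∧ b = 5) ∨ (a = 3 ∧ b = 4) ∨ (a = 4 ∧ b = 3) ∨ (a = 5 ∧ b = 2) ∨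
          (a = 6 ∧ b = 1) := by omega
      rw [h4] at hR
      rcases h5 with ⟨rfl, rfl⟩ | ⟨rfl, rfl⟩ | ⟨rfl, rfl⟩ | ⟨rfl, rfl⟩ | ⟨rfl, rfl⟩ | ⟨rfl, rfl⟩
      · exact ⟨_, Or.inr ⟨h4, Or.inl rfl⟩, by linear_combination hR - h2⟩
      · exact ⟨_, Or.inr ⟨h4, Or.inr (Or.inl rfl)⟩, by linear_combination hR - h2⟩
      · exact ⟨_, Or.inr ⟨h4, Or.inr (Or.inr (Or.inl rfl))⟩, by linear_combination hR - h2⟩
      · exact ⟨_, Or.inr ⟨h4, Or.inr (Or.inr (Or.inl rfl))⟩, by linear_combination hR - h2⟩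
      · exact ⟨_, Or.inr ⟨h4, Or.inr (Or.inl rfl)⟩, by linear_combination hR - h2⟩
      · exact ⟨_, Or.inr ⟨h4, Or.inl rfl⟩, by linear_combination hR - h2⟩
  · rw [ua_plus (by omega)] at h1
    have hN : 1 ≤ q ^ (n - 2) := Nat.one_le_pow _ _ (by omega)
    have hwZ : (w : ℤ) = c * ((q : ℤ) - 1) := by
      rw [hw]
      push_cast [Nat.cast_sub (show 1 ≤ q by omega)]
      ring
    have h2 : (w : ℤ) * E = p * ((q : ℤ) ^ (n - 2) - 1) * ((q : ℤ) - 1) := by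
      have := congrArg (fun x : ℕ => (x : ℤ)) h1
      push_cast [Nat.cast_sub hN] at this
      rw [hwZ]
      linear_combination ((q : ℤ) - 1) * this
    rcases h.pq with h5 | h5
    · right; right
      rw [h5] at h2
      rcases h.hn with h4 | h4
      · rw [h4] at hR h2
        exact ⟨_, Or.inl ⟨h4, Or.inr (Or.inr ⟨h5.symm, rfl⟩)⟩, by norm_num at h2; linear_combination hR - h2⟩
      · rw [h4] at hR h2
        exact ⟨_, Or.inr ⟨h4, Or.inr (Or.inr (Or.inr ⟨h5.symm, rfl⟩))⟩, by norm_num at h2; linear_combination hR - h2⟩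
    · right; left
      -- `3 w E ≤ q (q - 1) (q^(n-2) - 1) ≤ w R`
      have h6 : (w : ℤ) * (3 * E) ≤ (w : ℤ) * R := by
        have h7 : (w : ℤ) * (3 * E) = (3 * p) * (((q : ℤ) ^ (n - 2) - 1) * ((q : ℤ) - 1)) := by
          linear_combination 3 * h2
        have h8 : (0 : ℤ) ≤ ((q : ℤ) ^ (n - 2) - 1) * ((q : ℤ) - 1) := by
          apply mul_nonneg
          · have : (1 : ℤ) ≤ (q : ℤ) ^ (n - 2) := by exact_mod_cast hN
            linarith
          · omega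
        have h9 : (3 * (p : ℤ)) * (((q : ℤ) ^ (n - 2) - 1) * ((q : ℤ) - 1)) ≤
            q * (((q : ℤ) ^ (n - 2) - 1) * ((q : ℤ) - 1)) := mul_le_mul_of_nonneg_right (by exact_mod_cast h5) h8
        rw [h7, hR]
        refine h9.trans ?_
        have h10 : (q : ℤ) ^ n = (q : ℤ) ^ 2 * (q : ℤ) ^ (n - 2) := by
          rw [← pow_add]; congr 1; have := h.hn; omega
        have h11 : (1 : ℤ) ≤ (q : ℤ) ^ (n - 2) := by exact_mod_cast hN
        have h12 : (3 : ℤ) ≤ q := by exact_mod_cast h3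
        rw [h10]
        nlinarith
      have h7 := le_of_mul_le_mul_left h6 (by exact_mod_cast hw0)
      have h8 : 3 * E ≤ R := by exact_mod_cast h7
      omega
  · right; left
    rw [h1]
    exact h.small4 hk
  · right; left
    apply h.small
    refine h1.trans (le_of_eq ?_)
    rw [← pow_add]
    congr 1
    have := h.hn
    omega

/-- the special numbers are positive and not small -/
theorem DP_pos {D : ℤ} (hD : DP p q n D) : ((q : ℤ) - 1) ^ 2 < D := by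
  have h3 := h.q3
  obtain ⟨a, rfl⟩ : ∃ a, q = a + 3 := ⟨q - 3, by omega⟩
  rcases hD with ⟨-, rfl | rfl | ⟨-, rfl⟩⟩ | ⟨-, rfl | rfl | rfl | ⟨-, rfl⟩⟩ <;> push_cast <;>
    exact pos_lt (by clear * -; ring_nf; positivity)

theorem shape_le {E : ℕ} (hS : Shape (q : ℤ) p q (q - 1) q n c E) : E ≤ R := by
  rcases h.shape_cases hS with h1 | h1 | ⟨D, hD, h1⟩
  · exact h1.le
  · omega
  · have h2 := h.DP_pos hD
    have h3 : (0 : ℤ) < (w : ℤ) * ((R : ℤ) - E) := by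
      rw [h1]
      exact lt_of_le_of_lt (sq_nonneg _) h2
    have h4 : (0 : ℤ) < (R : ℤ) - E := pos_of_mul_pos_nat h3
    omega

end PNum

end Cfsg.Agent.R2.Spec.X7
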