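import Cfsg.Agent.R2.Spec.X7.NumP

/-!
# The numerical conditions for `PSL_5(q)`, `PSL_7(q)`, `q` odd: conclusion
-/

set_option autoImplicit false

namespace Cfsg.Agent.R2.Spec.X7

namespace PNum

variable {p q n c w R : ℕ} (h : PNum p q n c w R)

include h

theorem w_pos : 0 < w := by
  have := h.w_ge
  have := h.q3
  omega

theorem w_le' : 2 * (w : ℤ) ≤ ((q : ℤ) - 1) ^ 2 := by
  have h1 := h.w_le
  have h2 := h.q3
  obtain ⟨a, rfl⟩ : ∃ a, q = a + 3 := ⟨q - 3, by omega⟩
  have e1 : a + 3 - 1 = a + 2 := by omega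
  rw [e1] at h1
  have h3 : ((2 * w : ℕ) : ℤ) ≤ (((a + 2) ^ 2 : ℕ) : ℤ) := by exact_mod_cast h1
  push_cast at h3 ⊢
  have e2 : (a : ℤ) + 3 - 1 = a + 2 := by ring
  rw [e2]
  exact h3

theorem big : R = 121 ∨ R = 781 ∨ R = 1093 ∨ 2801 ≤ R := by
  have h3 := h.q3
  have ho := h.q_odd
  have hR := h.hR
  have hw := h.hw
  rcases h.c_cases with hc | ⟨hc, hq⟩
  · rw [hc, one_mul] at hw
    have h4 : q = 3 ∨ q = 5 ∨ 7 ≤ q := by omega
    rcases h.hn with hn | hn
    · rcases h4 with h4 | h4 | h4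
      · rw [hn, hw, h4] at hR; norm_num at hR; omega
      · rw [hn, hw, h4] at hR; norm_num at hR; omega
      · right; right; right
        obtain ⟨a, rfl⟩ : ∃ a, q = a + 7 := ⟨q - 7, by omega⟩
        have e1 : a + 7 - 1 = a + 6 := by omega
        have e2 : (a + 7) ^ 5 - 1 = (a ^ 4 + 29 * a ^ 3 + 316 * a ^ 2 + 1534 * a + 2801) * (a + 6) := by
          have : (a + 7) ^ 5 = (a ^ 4 + 29 * a ^ 3 + 316 * a ^ 2 + 1534 * a + 2801) * (a + 6) + 1 := by ring
          omega
        rw [hn, hw, e1, e2] at hR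
        have := Nat.eq_of_mul_eq_mul_right (by omega) hR
        rw [this]
        exact Nat.le_add_left _ _
    · rcases h4 with h4 | h4 | h4
      · rw [hn, hw, h4] at hR; norm_num at hR; omega
      · rw [hn, hw, h4] at hR; norm_num at hR; omega
      · right; right; right
        by_contra hcon
        have h5 : R * w ≤ 2800 * (q - 1) := Nat.mul_le_mul (by omega) hw.le
        have h6 : 7 ^ 6 * q ≤ q ^ 7 := by
          calc 7 ^ 6 * q ≤ q ^ 6 * q := Nat.mul_le_mul_right _ (Nat.pow_le_pow_left h4 6)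
            _ = _ := by ring
        rw [hn] at hR
        omega
  · right; right; right
    by_contra hcon
    have h5 : R * w ≤ 2800 * (n * (q - 1)) := Nat.mul_le_mul (by omega) (by rw [hw, hc])
    rcases h.hn with hn | hn
    · rw [hn] at hR h5 hq
      have h6 : 11 ^ 4 * q ≤ q ^ 5 := by
        calc 11 ^ 4 * q ≤ q ^ 4 * q := Nat.mul_le_mul_right _ (Nat.pow_le_pow_left (by omega) 4)
          _ = _ := by ring
      omega
    · rw [hn] at hR h5 hq
      have h6 : 11 ^ 6 * q ≤ q ^ 7 := by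
        calc 11 ^ 6 * q ≤ q ^ 6 * q := Nat.mul_le_mul_right _ (Nat.pow_le_pow_left (by omega) 6)
          _ = _ := by ring
      omega

theorem R1093 (hR3 : R = 1093) : p = 3 := by
  have h3 := h.q3
  have ho := h.q_odd
  have hR := h.hR
  have hw := h.w_le
  have hw' := h.w_ge
  have hq3 : q = 3 := by
    by_contra hcon
    have hq5 : 5 ≤ q := by omega
    rcases h.hn with hn | hn
    · rw [hn, hR3] at hR
      rcases h.c_cases with hc | ⟨hc, hq⟩
      · have hww := h.hw
        rw [hc, one_mul] at hww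
        rcases Nat.eq_or_lt_of_le hq5 with h5 | h5
        · rw [hww, ← h5] at hR
          norm_num at hR
        · have h6 : 7 ^ 4 * q ≤ q ^ 5 := by
            calc 7 ^ 4 * q ≤ q ^ 4 * q := Nat.mul_le_mul_right _ (Nat.pow_le_pow_left (by omega) 4)
              _ = _ := by ring
          omega
      · have hww := h.hw
        rw [hc, hn] at hww
        have h6 : 11 ^ 4 * q ≤ q ^ 5 := by
          calc 11 ^ 4 * q ≤ q ^ 4 * q := Nat.mul_le_mul_right _ (Nat.pow_le_pow_left (by omega) 4)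
            _ = _ := by ring
        omega
    · rw [hn, hR3] at hR
      have hww := h.hw
      have hc7 : c ≤ 7 := by
        rcases h.c_cases with hc | ⟨hc, -⟩ <;> omega
      have h6 : 5 ^ 6 * q ≤ q ^ 7 := by
        calc 5 ^ 6 * q ≤ q ^ 6 * q := Nat.mul_le_mul_right _ (Nat.pow_le_pow_left (by omega) 6)
          _ = _ := by ring
      have h7 : w ≤ 7 * (q - 1) := by rw [hww]; exact Nat.mul_le_mul_right _ hc7
      omega
  have h5 := h.p_le
  have h6 := h.p3
  omega

theorem not_13 : ¬ 13 ∣ R := by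
  intro hd
  have h3 := h.q3
  have hR := h.hR
  have hw := h.hw
  have key : ∀ Φ : ℕ, q ^ n - 1 = Φ * (q - 1) → (13 : ℕ) ∣ Φ := by
    intro Φ hΦ
    rw [hw, hΦ, ← mul_assoc] at hR
    have := Nat.eq_of_mul_eq_mul_right (by omega) hR
    rw [← this]
    exact hd.mul_right _
  rcases h.hn with hn | hn
  · have h1 := key (q ^ 4 + q ^ 3 + q ^ 2 + q + 1) (by
      rw [hn]
      obtain ⟨a, rfl⟩ : ∃ a, q = a + 1 := ⟨q - 1, by omega⟩
      rw [Nat.add_sub_cancel]
      have : (a + 1) ^ 5 = ((a + 1) ^ 4 + (a + 1) ^ 3 + (a + 1) ^ 2 + (a + 1) + 1) * a + 1 := by ring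
      omega)
    rw [← ZMod.natCast_eq_zero_iff] at h1
    push_cast at h1
    have h2 : ∀ x : ZMod 13, x ^ 4 + x ^ 3 + x ^ 2 + x + 1 ≠ 0 := by decide
    exact h2 _ h1
  · have h1 := key (q ^ 6 + q ^ 5 + q ^ 4 + q ^ 3 + q ^ 2 + q + 1) (by
      rw [hn]
      obtain ⟨a, rfl⟩ : ∃ a, q = a + 1 := ⟨q - 1, by omega⟩
      rw [Nat.add_sub_cancel]
      have : (a + 1) ^ 7 = ((a + 1) ^ 6 + (a + 1) ^ 5 + (a + 1) ^ 4 + (a + 1) ^ 3 + (a + 1) ^ 2 + (a + 1) + 1) * a + 1 := by
        ring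
      omega)
    rw [← ZMod.natCast_eq_zero_iff] at h1
    push_cast at h1
    have h2 : ∀ x : ZMod 13, x ^ 6 + x ^ 5 + x ^ 4 + x ^ 3 + x ^ 2 + x + 1 ≠ 0 := by decide
    exact h2 _ h1

theorem R121 : 121 ≤ R := by
  rcases h.big with h1 | h1 | h1 | h1 <;> omega

theorem le_R {E : ℕ} (hW : WP p q n c E) : E ≤ R := by
  obtain ⟨E0, h0, hd, hS⟩ := hW
  exact (Nat.le_of_dvd h0 hd).trans (h.shape_le hS)

/-- the element orders above `R / 2` -/
theorem spec {E : ℕ} (hW : WP p q n c E) (h2 : R < 2 * E) (hne : E ≠ R) :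
    ∃ D, DP p q n D ∧ (w : ℤ) * ((R : ℤ) - E) = D := by
  obtain ⟨E0, h0, ⟨j, hj⟩, hS⟩ := hW
  have h3 := h.shape_le hS
  have hj1 : j = 1 := by
    have h4 : j ≠ 0 := by
      rintro rfl
      omega
    by_contra h5
    have h6 : E * 2 ≤ E * j := Nat.mul_le_mul_left _ (by omega)
    omega
  rw [hj1, mul_one] at hj
  rw [hj] at hS
  rcases h.shape_cases hS with h4 | h4 | h4
  · exact absurd h4 hne
  · omega
  · exact h4

theorem DP_pair {D D' : ℤ} (hD : DP p q n D) (hD' : DP p q n D') (hlt : D < D') :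
    23 * D < 10 * D' ∨ (10 * D' ≤ 11 * D ∧ (D' - D) * D' ≤ ((q : ℤ) - 1) * ((q : ℤ) ^ n - 1)) := by
  have h3 := h.q3
  obtain ⟨a, rfl⟩ : ∃ a, q = a + 3 := ⟨q - 3, by omega⟩
  rcases hD with ⟨hn, rfl | rfl | ⟨-, rfl⟩⟩ | ⟨hn, rfl | rfl | rfl | ⟨-, rfl⟩⟩ <;>
    rcases hD' with ⟨hn', rfl | rfl | ⟨-, rfl⟩⟩ | ⟨hn', rfl | rfl | rfl | ⟨-, rfl⟩⟩ <;> (try omega) <;> push_cast at hlt ⊢
  -- n = 5
  · exfalso; exact absurd hlt (not_lt.2 (pos_le (by clear * -; ring_nf; positivity)))
  · right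
    rw [hn]
    exact ⟨pos_le (by clear * -; ring_nf; positivity), pos_le (by clear * -; ring_nf; positivity)⟩
  · left; exact pos_lt (by clear * -; ring_nf; positivity)
  · left; exact pos_lt (by clear * -; ring_nf; positivity)
  · exfalso; exact absurd hlt (not_lt.2 (pos_le (by clear * -; ring_nf; positivity)))
  · exfalso; exact absurd hlt (not_lt.2 (pos_le (by clear * -; ring_nf; positivity)))
  -- n = 7
  · exfalso; exact absurd hlt (not_lt.2 (pos_le (by clear * -; ring_nf; positivity)))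
  · exfalso; exact absurd hlt (not_lt.2 (pos_le (by clear * -; ring_nf; positivity)))
  · right
    rw [hn]
    exact ⟨pos_le (by clear * -; ring_nf; positivity), pos_le (by clear * -; ring_nf; positivity)⟩
  · left; exact pos_lt (by clear * -; ring_nf; positivity)
  · exfalso; exact absurd hlt (not_lt.2 (pos_le (by clear * -; ring_nf; positivity)))
  · left; exact pos_lt (by clear * -; ring_nf; positivity)
  · left; exact pos_lt (by clear * -; ring_nf; positivity)
  · left; exact pos_lt (by clear * -; ring_nf; positivity)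
  · left; exact pos_lt (by clear * -; ring_nf; positivity)
  · exfalso; exact absurd hlt (not_lt.2 (pos_le (by clear * -; ring_nf; positivity)))
  · exfalso; exact absurd hlt (not_lt.2 (pos_le (by clear * -; ring_nf; positivity)))
  · exfalso; exact absurd hlt (not_lt.2 (pos_le (by clear * -; ring_nf; positivity)))

/-- upper bounds for the special numbers -/
theorem DP_le {D : ℤ} (hD : DP p q n D) : 4 * D < 2 * ((q : ℤ) ^ n - 1) - ((q : ℤ) - 1) ^ 2 ∧
    5 * D < 2 * ((q : ℤ) ^ n - 1) ∧ (5 ≤ q → 4 * D < (q : ℤ) ^ n - 1 ∧ 3 * D < (q : ℤ) ^ n - 1 - 2 * ((q : ℤ) - 1) ^ 2) := by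
  have h3 := h.q3
  refine ⟨?_, ?_, fun h5 => ?_⟩
  · obtain ⟨a, rfl⟩ : ∃ a, q = a + 3 := ⟨q - 3, by omega⟩
    rcases hD with ⟨hn, rfl | rfl | ⟨-, rfl⟩⟩ | ⟨hn, rfl | rfl | rfl | ⟨-, rfl⟩⟩ <;> rw [hn] <;> push_cast <;>
      exact pos_lt (by clear * -; ring_nf; positivity)
  · obtain ⟨a, rfl⟩ : ∃ a, q = a + 3 := ⟨q - 3, by omega⟩
    rcases hD with ⟨hn, rfl | rfl | ⟨-, rfl⟩⟩ | ⟨hn, rfl | rfl | rfl | ⟨-, rfl⟩⟩ <;> rw [hn] <;> push_cast <;>
      exact pos_lt (by clear * -; ring_nf; positivity)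
  · obtain ⟨a, rfl⟩ : ∃ a, q = a + 5 := ⟨q - 5, by omega⟩
    rcases hD with ⟨hn, rfl | rfl | ⟨-, rfl⟩⟩ | ⟨hn, rfl | rfl | rfl | ⟨-, rfl⟩⟩ <;> rw [hn] <;> push_cast <;>
      exact ⟨pos_lt (by clear * -; ring_nf; positivity), pos_lt (by clear * -; ring_nf; positivity)⟩

theorem not_dvd_q {u : ℕ} (hu : ¬ p ∣ u) : ¬ q ∣ u := by
  intro hd
  obtain ⟨f, hf, hq⟩ := h.hq
  exact hu ((hq ▸ dvd_pow_self p (by omega) : p ∣ q).trans hd)

/-- **the numerical conditions** -/
theorem nc : NC p R (WP p q n c) where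
  hp := h.hp
  c1093 := h.R1093
  n13 := h.not_13
  big := by rcases h.big with h1 | h1 | h1 | h1 <;> omega
  upper := fun E _ hW => by have := h.le_R hW; omega
  near := by
    intro E hE0 hW hne h1 h2
    have hR := h.R121
    have h3 := h.le_R hW
    obtain ⟨D, hD, h4⟩ := h.spec hW (by omega) hne
    have h5 := h.DP_pos hD
    have h6 := h.w_le'
    have h7 : (w : ℤ) * ((R : ℤ) - E) ≤ w * 2 := mul_le_mul_of_nonneg_left (by omega) (Int.natCast_nonneg w)
    linarith
  neg := by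
    intro E E' hE0 hW hW' h7 h1 h2
    obtain ⟨D, hD, h4⟩ := h.spec hW (by omega) (by omega)
    obtain ⟨D', hD', h4'⟩ := h.spec hW' (by omega) (by omega)
    have hw : (0 : ℤ) < w := by exact_mod_cast h.w_pos
    have hlt : D < D' := by
      rw [← h4, ← h4']
      exact mul_lt_mul_of_pos_left (by omega) hw
    rcases h.DP_pair hD hD' hlt with h5 | ⟨h5, h6⟩
    · left
      rw [← h4, ← h4'] at h5
      exact lt_of_mul_lt_mul_left (by linarith : (w : ℤ) * (23 * ((R : ℤ) - E)) < w * (10 * (R - E'))) hw.le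
    · right
      constructor
      · rw [← h4, ← h4'] at h5
        exact le_of_mul_le_mul_left (by linarith : (w : ℤ) * (10 * ((R : ℤ) - E')) ≤ w * (11 * (R - E))) hw
      · rw [← h4, ← h4'] at h6
        have hq1 : (q : ℤ) - 1 ≤ w := by have := h.w_ge; have := h.q3; omega
        have h8 : (0 : ℤ) ≤ (q : ℤ) ^ n - 1 := by rw [← h.hRZ]; positivity
        have h9 : ((q : ℤ) - 1) * ((q : ℤ) ^ n - 1) ≤ w * ((q : ℤ) ^ n - 1) := mul_le_mul_of_nonneg_right hq1 h8
        rw [← h.hRZ] at h9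
        rw [← h.hRZ] at h6
        have hww : (0 : ℤ) < w * w := mul_pos hw hw
        refine le_of_mul_le_mul_left (?_ : (w : ℤ) * w * (((E : ℤ) - E') * (R - E')) ≤ w * w * R) hww
        have e1 : (w : ℤ) * w * (((E : ℤ) - E') * (R - E')) = (w * ((R : ℤ) - E') - w * (R - E)) * (w * (R - E')) := by
          ring
        rw [e1]
        linarith
  posi := by
    intro E E' _ hW _ h1 h2
    have := h.le_R hW
    omega
  opp := by
    intro E E' _ hW _ _ _ h2
    have := h.le_R hW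
    omega
  lT := by
    intro u M κ E hpu hu hM h1 h2 hE0 hW
    exfalso
    have hw : (0 : ℤ) < w := by exact_mod_cast h.w_pos
    obtain ⟨z, hz⟩ : ∃ z, u ^ (M - 1) = z := ⟨_, rfl⟩
    have hz2 : u ^ 2 ≤ z := by rw [← hz]; exact Nat.pow_le_pow_right (by omega) (by omega)
    have hz3 : z = u ^ 2 ∨ u ^ 3 ≤ z := by
      rcases Nat.eq_or_lt_of_le hM with h3 | h3
      · left; rw [← hz, ← h3]
      · right; rw [← hz]; exact Nat.pow_le_pow_right (by omega) (by omega)
    have huM : u ^ M = u * z := by rw [← hz, ← pow_succ']; congr 1; omega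
    rw [huM] at h1
    rw [hz] at h2
    have hz0 : 9 ≤ z := le_trans (by nlinarith) hz2
    have h1Z : (R : ℤ) * κ = (u : ℤ) * z - 1 := by
      have h3 : 1 ≤ u * z := Nat.mul_pos (by omega) (by omega)
      have := congrArg (fun x : ℕ => (x : ℤ)) h1
      push_cast [Nat.cast_sub h3] at this
      exact this
    have h2Z : (κ : ℤ) * E = ((z : ℤ) - 1) * (u - 1) := by
      have := congrArg (fun x : ℕ => (x : ℤ)) h2
      push_cast [Nat.cast_sub (show 1 ≤ z by omega), Nat.cast_sub (show 1 ≤ u by omega)] at this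
      exact this
    have hκ : (0 : ℤ) < κ := by
      rcases Nat.eq_zero_or_pos κ with h3 | h3
      · rw [h3] at h1Z
        have : (3 : ℤ) * 9 ≤ u * z := by exact_mod_cast Nat.mul_le_mul hu hz0
        push_cast at h1Z
        linarith
      · exact_mod_cast h3
    have h4Z : (κ : ℤ) * ((R : ℤ) - E) = z + u - 2 := by linear_combination h1Z - h2Z
    have hne : E ≠ R := by
      rintro rfl
      rw [sub_self, mul_zero] at h4Z
      omega
    have h2E : R < 2 * E := by
      have h5 : (κ : ℤ) * R < κ * (2 * E) := by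
        have h6 : (κ : ℤ) * (2 * E) - κ * R = (u - 2) * z - 2 * u + 3 := by linear_combination 2 * h2Z - h1Z
        have h7 : (0 : ℤ) < ((u : ℤ) - 2) * z - 2 * u + 3 := by
          have h8 : (1 : ℤ) * (u ^ 2) ≤ ((u : ℤ) - 2) * z := mul_le_mul (by omega) (by exact_mod_cast hz2) (by positivity) (by omega)
          have h9 : (3 : ℤ) * u ≤ u ^ 2 := by rw [pow_two]; exact mul_le_mul_of_nonneg_right (by exact_mod_cast hu) (by positivity)
          linarith
        linarith
      have h6 := lt_of_mul_lt_mul_left h5 hκ.le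
      exact_mod_cast h6
    obtain ⟨D, hD, h5⟩ := h.spec hW h2E hne
    have hcr := cross h5 h.hRZ h1Z h4Z
    have hq3 : (3 : ℤ) ≤ q := by exact_mod_cast h.q3
    have hu2 : (2 : ℤ) ≤ u := by omega
    have hzz : (u : ℤ) ^ 2 ≤ z := by exact_mod_cast hz2
    have hzz3 : (z : ℤ) = (u : ℤ) ^ 2 ∨ (u : ℤ) ^ 3 ≤ z := by
      rcases hz3 with h6 | h6
      · left; exact_mod_cast h6
      · right; exact_mod_cast h6
    have huq : (u : ℤ) ≠ q := by
      intro h6
      have : u = q := by exact_mod_cast h6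
      exact h.not_dvd_q hpu (dvd_of_eq this.symm)
    rcases hD with ⟨hn, rfl | rfl | ⟨-, rfl⟩⟩ | ⟨hn, rfl | rfl | rfl | ⟨-, rfl⟩⟩ <;> rw [hn] at hcr
    · exact huq (p5D1 hq3 hu2 hzz hcr)
    · exact p5D2 hq3 hu2 hzz3 hcr
    · exact huq (p5D1' hq3 hu2 hzz hcr)
    · exact huq (p7D1 hq3 hu2 hzz hcr)
    · have h6 := p7D2 hq3 hu2 hzz hcr
      have h7 : u = q ^ 2 := by exact_mod_cast h6
      exact h.not_dvd_q hpu (h7 ▸ dvd_pow_self q (by norm_num))
    · have h6 := p7D3 hq3 hu2 hzz hcr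
      have h7 : (q : ℤ) ∣ (u : ℤ) := ⟨(q : ℤ) ^ 2 - q + 1, by rw [h6]; ring⟩
      exact h.not_dvd_q hpu (by exact_mod_cast h7)
    · exact huq (p7D1' hq3 hu2 hzz hcr)
  two := by
    intro z E hz h1 h2 hW
    have hR := h.R121
    obtain ⟨D, hD, h5⟩ := h.spec hW (by omega) (by omega)
    have hKR := h.hRZ
    -- `4 (R - E) = R + 9`
    have h6 : 4 * D = ((q : ℤ) ^ n - 1) + 9 * w := by
      rw [← h5, ← hKR]
      have : 4 * ((R : ℤ) - E) = R + 9 := by omega
      linear_combination (w : ℤ) * this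
    have hw0 : (0 : ℤ) < w := by exact_mod_cast h.w_pos
    rcases Nat.lt_or_ge q 5 with hq | hq
    · have hq3 : q = 3 := by have := h.q3; have := h.q_odd; omega
      have hw2 : w = 2 := by
        have h7 := h.w_le
        have h8 := h.w_ge
        rw [hq3] at h7 h8
        norm_num at h7 h8
        omega
      rw [hw2, hq3] at h6
      rcases hD with ⟨hn, hD | hD | ⟨-, hD⟩⟩ | ⟨hn, hD | hD | hD | ⟨-, hD⟩⟩ <;> rw [hn, hD, hq3] at h6 <;> norm_num at h6
    · have := ((h.DP_le hD).2.2 hq).1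
      linarith
  mT := by
    intro v M E hv hM h1 h2 _ hW
    have hle := h.le_R hW
    obtain ⟨z, hz⟩ : ∃ z, (v + 1) ^ M = z := ⟨_, rfl⟩
    have hz1 : 1 ≤ z := by rw [← hz]; exact Nat.one_le_pow _ _ (by omega)
    have e1 : (v + 1) ^ (M + 1) = (v + 1) * z := by rw [← hz, pow_succ']
    rw [hz] at h1
    rw [e1] at h2
    have h3 : E * v ^ 2 ≤ R * v ^ 2 := Nat.mul_le_mul_right _ hle
    have e2 : R * v ^ 2 = (z - 1) * v := by rw [← h1]; ring
    rw [e2, h2] at h3
    obtain ⟨y, rfl⟩ : ∃ y, z = y + 1 := ⟨z - 1, by omega⟩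
    have e3 : (v + 1) * (y + 1) = y * v + (y + v + 1) := by ring
    rw [e3, Nat.add_sub_cancel] at h3
    omega
  uE := by
    intro u M κ E _ hu hM h1 h2 _ hW
    have hle := h.le_R hW
    obtain ⟨z, hz⟩ : ∃ z, u ^ (M - 1) = z := ⟨_, rfl⟩
    have huM : u ^ M = u * z := by rw [← hz, ← pow_succ']; congr 1; omega
    rw [huM] at h1
    rw [hz] at h2
    have h3 : κ * E ≤ κ * R := Nat.mul_le_mul_left _ hle
    rw [h2, mul_comm κ R, h1] at h3
    have : (z + 1) * (u + 1) = u * z + (z + u + 1) := by ring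
    omega
  uO := by
    intro u M κ E _ hu hM hκ h1 h2 _ hW
    have hle := h.le_R hW
    obtain ⟨z, hz⟩ : ∃ z, u ^ (M - 1) = z := ⟨_, rfl⟩
    have huM : u ^ M = u * z := by rw [← hz, ← pow_succ']; congr 1; omega
    have hz3 : u ^ 3 ≤ z := by rw [← hz]; exact Nat.pow_le_pow_right (by omega) (by omega)
    rw [huM] at h1
    rw [hz] at h2
    have h3 : κ * E ≤ κ * R := Nat.mul_le_mul_left _ hle
    rw [h2, mul_comm κ R, h1] at h3
    have h4 : u + 3 ≤ u ^ 3 := by
      obtain ⟨a, rfl⟩ : ∃ a, u = a + 2 := ⟨u - 2, by omega⟩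
      have : (a + 2) ^ 3 = a ^ 3 + 6 * a ^ 2 + 12 * a + 8 := by ring
      rw [this]
      have := Nat.zero_le (a ^ 3)
      have := Nat.zero_le (a ^ 2)
      omega
    obtain ⟨y, rfl⟩ : ∃ y, z = y + 1 := ⟨z - 1, by omega⟩
    have e3 : y * (u + 1) + (u + 1) = u * (y + 1) + (y + 1) := by ring
    rw [Nat.add_sub_cancel] at h3
    omega
  uT := by
    intro u g E hu h1 h2 _ hW
    have hle := h.le_R hW
    have h3 : (E : ℤ) * g ≤ R * g := mul_le_mul_of_nonneg_right (by exact_mod_cast hle) (by positivity)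
    rw [h1, h2] at h3
    omega
  mO := by
    intro u m E hpu hu hm _ h1 h2 hE0 hW
    have hle := h.le_R hW
    obtain ⟨z, hz⟩ : ∃ z, u ^ (m - 1) = z := ⟨_, rfl⟩
    have huM : u ^ m = u * z := by rw [← hz, ← pow_succ']; congr 1; omega
    have hz3 : u ^ 3 ≤ z := by rw [← hz]; exact Nat.pow_le_pow_right (by omega) (by omega)
    rw [huM] at h1
    rw [hz] at h2
    have hz1 : 9 * u ≤ z := by
      refine le_trans ?_ hz3
      calc 9 * u = 3 ^ 2 * u := by norm_num
        _ ≤ u ^ 2 * u := Nat.mul_le_mul_right _ (Nat.pow_le_pow_left hu 2)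
        _ = _ := by ring
    have h4 : 4 * E + u + 1 = u * z + z := by
      obtain ⟨y, hy⟩ : ∃ y, z = y + 1 := ⟨z - 1, by omega⟩
      rw [h2, hy, Nat.add_sub_cancel]
      ring
    have h3z : 3 * z ≤ u * z := Nat.mul_le_mul_right _ hu
    obtain ⟨D, hD, h5⟩ := h.spec hW (by omega) (by omega)
    have hKR := h.hRZ
    have hb := h.DP_le hD
    have hw0 : (0 : ℤ) < w := by exact_mod_cast h.w_pos
    rcases Nat.lt_or_ge q 5 with hq | hq
    · have hq3 : q = 3 := by have := h.q3; have := h.q_odd; omega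
      have hp3 : p = 3 := by have := h.p_le; have := h.p3; omega
      have hu5 : 5 ≤ u := by
        have h6 : u ≠ 3 := by rintro rfl; rw [hp3] at hpu; exact hpu dvd_rfl
        have h7 : u ≠ 4 := by rintro rfl; omega
        omega
      have h5z : 5 * z ≤ u * z := Nat.mul_le_mul_right _ hu5
      have h8 : 2 * (R : ℤ) ≤ 5 * ((R : ℤ) - E) := by omega
      have h9 := mul_le_mul_of_nonneg_left h8 hw0.le
      have h10 := hb.2.1
      rw [← h5, ← hKR] at h10
      linarith
    · have h8 : (R : ℤ) ≤ 3 * ((R : ℤ) - E) := by omega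
      have h9 := mul_le_mul_of_nonneg_left h8 hw0.le
      have h10 := (hb.2.2 hq).2
      rw [← h5, ← hKR] at h10
      have := sq_nonneg ((q : ℤ) - 1)
      linarith
  d3 := by
    intro E _ h1 hW
    have hle := h.le_R hW
    have hR := h.R121
    omega
  d5 := by
    intro E h1 hW
    have hle := h.le_R hW
    omega
  p3 := by
    intro E hp3 h1 hW
    have hR := h.R121
    obtain ⟨D, hD, h5⟩ := h.spec hW (by omega) (by omega)
    have hKR := h.hRZ
    have hq5 : 5 ≤ q := by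
      have := h.p3
      have := h.p_le
      have := h.q_odd
      omega
    have h6 := ((h.DP_le hD).2.2 hq5).2
    have h7 : 3 * ((R : ℤ) - E) = R - 4 := by omega
    have h8 := h.w_le'
    have h9 : 3 * D = ((q : ℤ) ^ n - 1) - 4 * w := by
      rw [← h5, ← hKR]
      linear_combination (w : ℤ) * h7
    linarith
  half := by
    intro E _ h1 hW
    exfalso
    have hR := h.R121
    obtain ⟨D, hD, h5⟩ := h.spec hW (by omega) (by omega)
    have hKR := h.hRZ
    have h6 := (h.DP_le hD).1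
    have h7 : 2 * ((R : ℤ) - E) = R - 1 := by omega
    have h8 := h.w_le'
    have h9 : 2 * D = ((q : ℤ) ^ n - 1) - w := by
      rw [← h5, ← hKR]
      linear_combination (w : ℤ) * h7
    linarith

end PNum

end Cfsg.Agent.R2.Spec.X7
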