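import Mathlib

/-!
# Orbits of `x ↦ x ^ s`, `s` an integer, on a finite set of non-zero elements of a field (box X7 of S3435)
-/

set_option autoImplicit false

namespace Cfsg.Agent.R2.Spec.X7

open Finset Function

variable {K : Type*} [Field K]

/-- the map `x ↦ x ^ s` -/
def zp (s : ℤ) (x : K) : K := x ^ s

/-- `∑_{i < a} s^i` -/
def es (s : ℤ) (a : ℕ) : ℤ := ∑ i ∈ range a, s ^ i

/-- `|s^a - 1|` -/
def ua (s : ℤ) (a : ℕ) : ℕ := (s ^ a - 1).natAbs

theorem es_mul (s : ℤ) (a : ℕ) : es s a * (s - 1) = s ^ a - 1 := by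
  rw [es, geom_sum_mul]

theorem ua_eq (s : ℤ) (a : ℕ) : ua s a = (es s a).natAbs * (s - 1).natAbs := by
  rw [ua, ← es_mul, Int.natAbs_mul]

theorem dvd_ua (s : ℤ) (a : ℕ) : (s - 1).natAbs ∣ ua s a := ⟨_, by rw [ua_eq, mul_comm]⟩

/-- the numerical parameters: `q = |s|`, `t = |s - 1|` and `|s^a - 1| ≤ q^(a-1) L` -/
structure Par (s : ℤ) (q t L : ℕ) : Prop where
  hs : s.natAbs = q
  ht : (s - 1).natAbs = t
  hq : 3 ≤ q
  ht2 : 2 ≤ t
  htL : t ≤ L
  hLt : L ≤ q * t
  hua : ∀ a, 1 ≤ a → ua s a ≤ q ^ (a - 1) * L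
  pos : ∀ a, 1 ≤ a → 0 < ua s a

variable {s : ℤ}

theorem iter_eq {x : K} (i : ℕ) : (zp s)^[i] x = x ^ (s ^ i) := by
  induction i with
  | zero => simp
  | succ i ih =>
    rw [Function.iterate_succ_apply', ih, zp, ← zpow_mul, pow_succ]

theorem iter_ne_zero {x : K} (hx : x ≠ 0) (i : ℕ) : (zp s)^[i] x ≠ 0 := by
  rw [iter_eq]
  exact zpow_ne_zero _ hx

theorem pow_natAbs_eq_one {x : K} {z : ℤ} (h : x ^ z = 1) : x ^ z.natAbs = 1 := by
  rcases Int.natAbs_eq z with h1 | h1
  · rw [h1] at h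
    exact_mod_cast h
  · rw [h1, zpow_neg, inv_eq_one] at h
    exact_mod_cast h

theorem pow_ua {x : K} (hx : x ≠ 0) {a : ℕ} (h : (zp s)^[a] x = x) : x ^ ua s a = 1 := by
  rw [iter_eq] at h
  apply pow_natAbs_eq_one
  rw [zpow_sub₀ hx, h, zpow_one, div_self hx]

/-- the product over an orbit -/
theorem prod_iter {x : K} (hx : x ≠ 0) (a : ℕ) : ∏ i ∈ range a, (zp s)^[i] x = x ^ es s a := by
  induction a with
  | zero => simp [es]
  | succ a ih =>
    rw [Finset.prod_range_succ, ih, iter_eq, es, es, Finset.sum_range_succ, zpow_add₀ hx]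

/-- a stable finite set of non-zero elements -/
structure Stab (s : ℤ) (Λ : Finset K) : Prop where
  ne : ∀ x ∈ Λ, x ≠ 0
  st : ∀ x ∈ Λ, zp s x ∈ Λ

section

variable (hinj : Injective (zp s : K → K)) {Λ : Finset K} (hΛ : Stab s Λ)

include hΛ in
theorem Stab.iter {x : K} (hx : x ∈ Λ) (i : ℕ) : (zp s)^[i] x ∈ Λ := by
  induction i with
  | zero => exact hx
  | succ i ih => rw [Function.iterate_succ_apply']; exact hΛ.st _ ih

include hinj hΛ in
theorem Stab.period {x : K} (hx : x ∈ Λ) : 1 ≤ minimalPeriod (zp s) x := by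
  classical
  have h1 : ¬ Set.InjOn (fun i : ℕ => (zp s)^[i] x) (Set.univ : Set ℕ) := by
    intro h
    refine Set.infinite_univ (α := ℕ) ?_
    refine Set.Finite.of_finite_image ?_ h
    exact (Finset.finite_toSet Λ).subset (by rintro _ ⟨i, -, rfl⟩; exact hΛ.iter hx i)
  have key : ∀ i j : ℕ, i < j → (zp s)^[i] x = (zp s)^[j] x → 1 ≤ minimalPeriod (zp s) x := by
    intro i j hij h
    obtain ⟨k, rfl⟩ : ∃ k, j = i + k := ⟨j - i, by omega⟩
    rw [Function.iterate_add_apply] at h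
    have h2 := (hinj.iterate i) h
    have h3 : IsPeriodicPt (zp s) k x := h2.symm
    exact h3.minimalPeriod_pos (by omega)
  by_contra h0
  apply h1
  intro i _ j _ h
  rcases lt_trichotomy i j with h2 | h2 | h2
  · exact absurd (key i j h2 h) h0
  · exact h2
  · exact absurd (key j i h2 h.symm) h0

open Classical in
/-- the orbit -/
noncomputable def orb (s : ℤ) (x : K) : Finset K := (range (minimalPeriod (zp s) x)).image fun i => (zp s)^[i] x

theorem mem_orb {x y : K} : y ∈ orb s x ↔ ∃ i < minimalPeriod (zp s) x, (zp s)^[i] x = y := by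
  classical
  simp [orb]

theorem card_orb (x : K) : (orb s x).card = minimalPeriod (zp s) x := by
  classical
  rw [orb, Finset.card_image_of_injOn, card_range]
  intro i hi j hj h
  exact iterate_injOn_Iio_minimalPeriod (by simpa using hi) (by simpa using hj) h

theorem prod_orb {x : K} (hx : x ≠ 0) : ∏ y ∈ orb s x, y = x ^ es s (minimalPeriod (zp s) x) := by
  classical
  rw [orb, Finset.prod_image, prod_iter hx]
  intro i hi j hj h
  exact iterate_injOn_Iio_minimalPeriod (by simpa using hi) (by simpa using hj) h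

include hΛ in
theorem Stab.orb_subset {x : K} (hx : x ∈ Λ) : orb s x ⊆ Λ := by
  intro y hy
  obtain ⟨i, -, rfl⟩ := mem_orb.1 hy
  exact hΛ.iter hx i

include hinj hΛ in
theorem Stab.self_mem_orb {x : K} (hx : x ∈ Λ) : x ∈ orb s x :=
  mem_orb.2 ⟨0, hΛ.period hinj hx, rfl⟩

open Classical in
include hinj hΛ in
theorem Stab.sdiff {x : K} (hx : x ∈ Λ) : Stab s (Λ \ orb s x) := by
  refine ⟨fun y hy => hΛ.ne y (Finset.mem_sdiff.1 hy).1, fun y hy => ?_⟩
  rw [Finset.mem_sdiff] at hy ⊢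
  refine ⟨hΛ.st y hy.1, fun h => hy.2 ?_⟩
  obtain ⟨i, hi, h1⟩ := mem_orb.1 h
  have hper := hΛ.period hinj hx
  rcases Nat.eq_zero_or_pos i with rfl | hi0
  · have h2 : (zp s)^[minimalPeriod (zp s) x] x = zp s y := by
      rw [iterate_minimalPeriod]; exact h1
    obtain ⟨k, hk⟩ : ∃ k, minimalPeriod (zp s) x = k + 1 := ⟨minimalPeriod (zp s) x - 1, by omega⟩
    rw [hk, Function.iterate_succ_apply'] at h2
    exact mem_orb.2 ⟨k, by omega, hinj h2⟩
  · obtain ⟨k, rfl⟩ : ∃ k, i = k + 1 := ⟨i - 1, by omega⟩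
    rw [Function.iterate_succ_apply'] at h1
    exact mem_orb.2 ⟨k, by omega, hinj h1⟩

/-- the exponent of an orbit -/
theorem pow_orb {x y : K} (hx : x ≠ 0) (hy : y ∈ orb s x) : y ^ ua s (minimalPeriod (zp s) x) = 1 := by
  obtain ⟨i, -, rfl⟩ := mem_orb.1 hy
  apply pow_ua (iter_ne_zero hx i)
  rw [← Function.iterate_add_apply, add_comm, Function.iterate_add_apply, iterate_minimalPeriod]

theorem lcm_bound {u v w : ℕ} (hw : 0 < w) (hu : w ∣ u) (hv : w ∣ v) : Nat.lcm u v * w ≤ u * v := by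
  rcases Nat.eq_zero_or_pos u with rfl | hu0
  · simp
  have h1 : w ≤ Nat.gcd u v := Nat.le_of_dvd (Nat.gcd_pos_of_pos_left _ hu0) (Nat.dvd_gcd hu hv)
  calc Nat.lcm u v * w ≤ Nat.lcm u v * Nat.gcd u v := Nat.mul_le_mul_left _ h1
    _ = u * v := by rw [mul_comm, Nat.gcd_mul_lcm]

variable {q t L : ℕ} (P : Par s q t L)

include P in
theorem Par.dvd (a : ℕ) : t ∣ ua s a := by
  rw [← P.ht]
  exact dvd_ua s a

include hinj hΛ P in
/-- **Exponent of a stable set.** -/
theorem Stab.exists_exp (hne : Λ.Nonempty) :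
    ∃ N, 0 < N ∧ t ∣ N ∧ (∀ x ∈ Λ, x ^ N = 1) ∧ N ≤ q ^ (Λ.card - 1) * L := by
  classical
  have ht0 : 0 < t := by have := P.ht2; omega
  have hq0 : 0 < q := by have := P.hq; omega
  induction hc : Λ.card using Nat.strong_induction_on generalizing Λ with
  | _ c ih =>
    obtain ⟨x, hx⟩ := hne
    have hx0 := hΛ.ne x hx
    have hper := hΛ.period hinj hx
    set a := minimalPeriod (zp s) x with ha
    by_cases h0 : (Λ \ orb s x).Nonempty
    · have hcard : (Λ \ orb s x).card + a = c := by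
        rw [← hc, ha, ← card_orb (s := s) x, Finset.card_sdiff_add_card_eq_card (hΛ.orb_subset hx)]
      have hcp : 1 ≤ (Λ \ orb s x).card := h0.card_pos
      obtain ⟨N, hN0, hNd, hN, hle⟩ := ih _ (by omega) (hΛ.sdiff hinj hx) h0 rfl
      refine ⟨Nat.lcm (ua s a) N, Nat.lcm_pos (P.pos a hper) hN0, hNd.trans (Nat.dvd_lcm_right _ _), ?_, ?_⟩
      · intro y hy
        by_cases hyo : y ∈ orb s x
        · have h1 := pow_orb hx0 hyo
          obtain ⟨k, hk⟩ := Nat.dvd_lcm_left (ua s a) N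
          rw [hk, pow_mul, h1, one_pow]
        · have h1 := hN y (Finset.mem_sdiff.2 ⟨hy, hyo⟩)
          obtain ⟨k, hk⟩ := Nat.dvd_lcm_right (ua s a) N
          rw [hk, pow_mul, h1, one_pow]
      · have h1 := lcm_bound (w := t) ht0 (P.dvd a) hNd
        have h2 : ua s a * N ≤ (q ^ (a - 1) * L) * (q ^ ((Λ \ orb s x).card - 1) * L) :=
          Nat.mul_le_mul (P.hua a hper) hle
        have h3 : Nat.lcm (ua s a) N * t ≤ (q ^ (a - 1) * (q ^ ((Λ \ orb s x).card - 1) * L) * q) * t := by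
          calc _ ≤ _ := h1
            _ ≤ _ := h2
            _ = (q ^ (a - 1) * q ^ ((Λ \ orb s x).card - 1) * L) * L := by ring
            _ ≤ (q ^ (a - 1) * q ^ ((Λ \ orb s x).card - 1) * L) * (q * t) := Nat.mul_le_mul_left _ P.hLt
            _ = _ := by ring
        have h4 := Nat.le_of_mul_le_mul_right h3 ht0
        refine h4.trans ?_
        have h5 : q ^ (a - 1) * (q ^ ((Λ \ orb s x).card - 1) * L) * q =
            q ^ (a - 1 + ((Λ \ orb s x).card - 1) + 1) * L := by ring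
        rw [h5]
        exact Nat.mul_le_mul_right _ (Nat.pow_le_pow_right hq0 (by omega))
    · rw [Finset.not_nonempty_iff_eq_empty, Finset.sdiff_eq_empty_iff_subset] at h0
      have hcard : c = a := by
        rw [← hc, ha, ← card_orb (s := s) x]
        exact congrArg _ (Finset.Subset.antisymm h0 (hΛ.orb_subset hx))
      exact ⟨ua s a, P.pos a hper, P.dvd a, fun y hy => pow_orb hx0 (h0 hy), by rw [hcard]; exact P.hua a hper⟩

include hinj hΛ in
theorem Stab.mem_periodic {x : K} (hx : x ∈ Λ) : x ∈ periodicPts (zp s) :=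
  minimalPeriod_pos_iff_mem_periodicPts.1 (hΛ.period hinj hx)

include hinj hΛ in
theorem Stab.period_of_mem {x z : K} (hx : x ∈ Λ) (hz : z ∈ orb s x) :
    minimalPeriod (zp s) z = minimalPeriod (zp s) x := by
  obtain ⟨i, -, rfl⟩ := mem_orb.1 hz
  exact minimalPeriod_apply_iterate (hΛ.mem_periodic hinj hx) i

theorem orb_eq_singleton {x : K} (h : minimalPeriod (zp s) x = 1) : orb s x = {x} := by
  classical
  rw [orb, h]
  simp

/-- the numerical end of the last case -/
def RestCase (q t L n N M : ℕ) : Prop :=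
  (M = 1 ∧ t ^ 2 * N ≤ q ^ (n - 3) * L ^ 3) ∨ ((M = 2 ∨ M = 3) ∧ q * (t ^ 2 * N) ≤ q ^ (n - 3) * L ^ 3) ∨
    (4 ≤ M ∧ (M - 1) * (q * (t ^ 2 * N)) ≤ q ^ (n - 3) * L ^ 3)

include hinj hΛ P in
/-- **The shapes.** -/
theorem Stab.cases {n : ℕ} (hn : n.Prime) (h5 : 3 ≤ n) (m : K → ℕ) (hm1 : ∀ x ∈ Λ, 1 ≤ m x)
    (hms : ∀ x ∈ Λ, m (zp s x) = m x) (hsum : ∑ x ∈ Λ, m x = n) :
    (∃ x ∈ Λ, Λ = orb s x ∧ minimalPeriod (zp s) x = n ∧ ∀ y ∈ Λ, m y = 1) ∨
    (∃ x ∈ Λ, ∃ y ∈ Λ, y ∉ orb s x ∧ Disjoint (orb s x) (orb s y) ∧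
      (∀ z, z ∈ Λ ↔ z ∈ orb s x ∨ z ∈ orb s y) ∧
      minimalPeriod (zp s) x + minimalPeriod (zp s) y = n ∧ ∀ z ∈ Λ, m z = 1) ∨
    (∃ x ∈ Λ, ∃ y ∈ Λ, x ∉ orb s y ∧ (∀ z, z ∈ Λ ↔ z = x ∨ z ∈ orb s y) ∧ minimalPeriod (zp s) x = 1 ∧
      minimalPeriod (zp s) y + 2 = n ∧ m x = 2 ∧ ∀ z ∈ orb s y, m z = 1) ∨
    (∃ x ∈ Λ, (∀ y ∈ Λ, y = x) ∧ x ^ t = 1 ∧ m x = n) ∨
    (∃ N M, 0 < N ∧ (∀ x ∈ Λ, x ^ N = 1) ∧ (∀ x ∈ Λ, m x ≤ M) ∧ RestCase q t L n N M) := by
  classical
  have ht0 : 0 < t := by have := P.ht2; omega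
  have hq := P.hq
  have hq0 : 0 < q := by omega
  have hcard : Λ.card + ∑ x ∈ Λ, (m x - 1) = n := by
    rw [← hsum, Finset.card_eq_sum_ones, ← Finset.sum_add_distrib]
    apply Finset.sum_congr rfl
    intro x hx
    have := hm1 x hx
    omega
  have hne : Λ.Nonempty := by
    rw [Finset.nonempty_iff_ne_empty]
    rintro rfl
    simp at hsum
    omega
  -- the largest multiplicity
  obtain ⟨x0, hx0, hmax⟩ := Finset.exists_max_image Λ m hne
  set M := m x0 with hM
  have hM1 : 1 ≤ M := hm1 x0 hx0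
  have hDM : M - 1 ≤ ∑ x ∈ Λ, (m x - 1) := Finset.single_le_sum (f := fun x => m x - 1) (fun _ _ => Nat.zero_le _) hx0
  set D := ∑ x ∈ Λ, (m x - 1) with hD
  have hpow : 4 ≤ M → M - 1 ≤ q ^ (M - 3) := by
    intro h4
    obtain ⟨k, hk⟩ : ∃ k, M = k + 4 := ⟨M - 4, by omega⟩
    rw [hk]
    have h1 : ∀ k : ℕ, k + 3 ≤ 3 ^ (k + 1) := by
      intro k
      induction k with
      | zero => norm_num
      | succ k ih => rw [pow_succ]; omega
    have h2 : 3 ^ (k + 1) ≤ q ^ (k + 1) := Nat.pow_le_pow_left hq _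
    have h3 : k + 4 - 1 = k + 3 := by omega
    have h4 : k + 4 - 3 = k + 1 := by omega
    rw [h3, h4]
    exact (h1 k).trans h2
  -- the numerical end
  have fin : ∀ N j : ℕ, 0 < N → (∀ x ∈ Λ, x ^ N = 1) → t ^ 2 * N ≤ q ^ j * L ^ 3 → j + 2 + D ≤ n →
      j + 4 ≤ n ∨ (M = 1 ∧ j + 3 ≤ n) →
      ∃ N M, 0 < N ∧ (∀ x ∈ Λ, x ^ N = 1) ∧ (∀ x ∈ Λ, m x ≤ M) ∧ RestCase q t L n N M := by
    intro N j hN0 hN hle hj hj'
    refine ⟨N, M, hN0, hN, hmax, ?_⟩
    have h1 : M = 1 ∨ (M = 2 ∨ M = 3) ∨ 4 ≤ M := by omega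
    rcases h1 with h1 | h1 | h1
    · left
      exact ⟨h1, hle.trans (Nat.mul_le_mul_right _ (Nat.pow_le_pow_right hq0 (by omega)))⟩
    · right; left
      refine ⟨h1, ?_⟩
      calc q * (t ^ 2 * N) ≤ q * (q ^ j * L ^ 3) := Nat.mul_le_mul_left _ hle
        _ = q ^ (j + 1) * L ^ 3 := by ring
        _ ≤ _ := Nat.mul_le_mul_right _ (Nat.pow_le_pow_right hq0 (by omega))
    · right; right
      refine ⟨h1, ?_⟩
      calc (M - 1) * (q * (t ^ 2 * N)) ≤ q ^ (M - 3) * (q * (q ^ j * L ^ 3)) :=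
            Nat.mul_le_mul (hpow h1) (Nat.mul_le_mul_left _ hle)
        _ = q ^ (M - 3 + 1 + j) * L ^ 3 := by ring
        _ ≤ _ := Nat.mul_le_mul_right _ (Nat.pow_le_pow_right hq0 (by omega))
  obtain ⟨x, hx⟩ := hne
  have hxo := hΛ.ne x hx
  have hpx := hΛ.period hinj hx
  have hmit : ∀ z ∈ Λ, ∀ i : ℕ, m ((zp s)^[i] z) = m z := by
    intro z hz i
    induction i with
    | zero => rfl
    | succ i ih => rw [Function.iterate_succ_apply', hms _ (hΛ.iter hz i), ih]
  have hmo : ∀ z ∈ Λ, ∀ y ∈ orb s z, m y = m z := by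
    intro z hz y hy
    obtain ⟨i, -, rfl⟩ := mem_orb.1 hy
    exact hmit z hz i
  by_cases h0 : (Λ \ orb s x).Nonempty
  swap
  · -- one orbit
    rw [Finset.not_nonempty_iff_eq_empty, Finset.sdiff_eq_empty_iff_subset] at h0
    have hΛx : Λ = orb s x := Finset.Subset.antisymm h0 (hΛ.orb_subset hx)
    have h1 : minimalPeriod (zp s) x * m x = n := by
      rw [← hsum]
      have : ∑ y ∈ Λ, m y = ∑ y ∈ Λ, m x := Finset.sum_congr rfl fun y hy => hmo x hx y (h0 hy)
      rw [this, Finset.sum_const, smul_eq_mul, hΛx, card_orb]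
    rcases (Nat.dvd_prime hn).1 ⟨_, h1.symm⟩ with h2 | h2
    · -- one eigenvalue
      right; right; right; left
      rw [h2, one_mul] at h1
      have h3 : ∀ y ∈ Λ, y = x := by
        intro y hy
        have := h0 hy
        rw [orb_eq_singleton h2] at this
        simpa using this
      refine ⟨x, hx, h3, ?_, h1⟩
      have := pow_orb hxo (hΛ.self_mem_orb hinj hx)
      rwa [h2, ua, pow_one, P.ht] at this
    · left
      refine ⟨x, hx, hΛx, h2, fun y hy => ?_⟩
      rw [hmo x hx y (h0 hy)]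
      rw [h2] at h1
      have : n * m x = n * 1 := by rw [h1, mul_one]
      exact Nat.eq_of_mul_eq_mul_left hn.pos this
  have hst1 := hΛ.sdiff hinj hx
  have hcx : (Λ \ orb s x).card + minimalPeriod (zp s) x = Λ.card := by
    rw [← card_orb (s := s) x, Finset.card_sdiff_add_card_eq_card (hΛ.orb_subset hx)]
  have hxexp : ∀ z ∈ orb s x, z ^ ua s (minimalPeriod (zp s) x) = 1 := fun z hz => pow_orb hxo hz
  obtain ⟨y, hy⟩ := h0
  have hyΛ : y ∈ Λ := (Finset.mem_sdiff.1 hy).1
  have hyx : y ∉ orb s x := (Finset.mem_sdiff.1 hy).2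
  have hyo := hΛ.ne y hyΛ
  have hpy := hΛ.period hinj hyΛ
  have hcy : ((Λ \ orb s x) \ orb s y).card + minimalPeriod (zp s) y = (Λ \ orb s x).card := by
    rw [← card_orb (s := s) y, Finset.card_sdiff_add_card_eq_card (hst1.orb_subset hy)]
  have hdis : Disjoint (orb s x) (orb s y) := by
    rw [Finset.disjoint_left]
    intro z hz1 hz2
    exact (Finset.mem_sdiff.1 (hst1.orb_subset hy hz2)).2 hz1
  set a := minimalPeriod (zp s) x with ha
  set b := minimalPeriod (zp s) y with hb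
  have hab : Nat.lcm (ua s a) (ua s b) * t ≤ q ^ (a + b - 2) * L ^ 2 := by
    have h1 := lcm_bound (w := t) ht0 (P.dvd a) (P.dvd b)
    have h2 : ua s a * ua s b ≤ (q ^ (a - 1) * L) * (q ^ (b - 1) * L) :=
      Nat.mul_le_mul (P.hua a hpx) (P.hua b hpy)
    refine (h1.trans h2).trans (le_of_eq ?_)
    have : a + b - 2 = (a - 1) + (b - 1) := by omega
    rw [this]
    ring
  have habp : 0 < Nat.lcm (ua s a) (ua s b) := Nat.lcm_pos (P.pos _ hpx) (P.pos _ hpy)
  by_cases h1 : ((Λ \ orb s x) \ orb s y).Nonempty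
  swap
  · -- two orbits
    rw [Finset.not_nonempty_iff_eq_empty] at h1
    rw [h1, Finset.card_empty, zero_add] at hcy
    have hiff : ∀ z, z ∈ Λ ↔ z ∈ orb s x ∨ z ∈ orb s y := by
      intro z
      constructor
      · intro hz
        by_contra hcon
        push Not at hcon
        have : z ∈ (Λ \ orb s x) \ orb s y := Finset.mem_sdiff.2 ⟨Finset.mem_sdiff.2 ⟨hz, hcon.1⟩, hcon.2⟩
        rw [h1] at this
        simp at this
      · rintro (hz | hz)
        · exact hΛ.orb_subset hx hz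
        · exact hΛ.orb_subset hyΛ hz
    have hexp : ∀ z ∈ Λ, z ^ Nat.lcm (ua s a) (ua s b) = 1 := by
      intro z hz
      rcases (hiff z).1 hz with h | h
      · obtain ⟨k, hk⟩ := Nat.dvd_lcm_left (ua s a) (ua s b)
        rw [hk, pow_mul, hxexp z h, one_pow]
      · obtain ⟨k, hk⟩ := Nat.dvd_lcm_right (ua s a) (ua s b)
        rw [hk, pow_mul, pow_orb hyo h, one_pow]
    rcases Nat.lt_or_ge D 2 with hD2 | hD2
    · rcases Nat.lt_or_ge D 1 with hD1 | hD1
      · right; left
        refine ⟨x, hx, y, hyΛ, hyx, hdis, hiff, by omega, fun z hz => ?_⟩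
        have := hmax z hz
        have := hm1 z hz
        omega
      · right; right; left
        have hD1' : D = 1 := by omega
        -- exactly one element of multiplicity 2
        have hM2 : M = 2 := by
          have h3 : M ≠ 1 := by
            intro h3
            have : D = 0 := by
              rw [hD]
              apply Finset.sum_eq_zero
              intro z hz
              have := hmax z hz
              omega
            omega
          omega
        have huniq : ∀ z ∈ Λ, z ≠ x0 → m z = 1 := by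
          intro z hz hzx
          have h4 : (m x0 - 1) + (m z - 1) ≤ D := by
            rw [hD, ← Finset.sum_pair (f := fun x => m x - 1) hzx.symm]
            apply Finset.sum_le_sum_of_subset
            intro w hw
            rcases Finset.mem_insert.1 hw with rfl | hw
            · exact hx0
            · rw [Finset.mem_singleton.1 hw]; exact hz
          have := hm1 z hz
          omega
        have hfix : zp s x0 = x0 := by
          by_contra hcon
          have h5 := huniq _ (hΛ.st x0 hx0) hcon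
          have h6 := hms x0 hx0
          omega
        have hper0 : minimalPeriod (zp s) x0 = 1 := minimalPeriod_eq_one_iff_isFixedPt.2 hfix
        rcases (hiff x0).1 hx0 with h7' | h7'
        · have h8 : a = 1 := by rw [ha, ← hΛ.period_of_mem hinj hx h7', hper0]
          have h9 : x0 = x := by
            rw [orb_eq_singleton (by rw [← ha]; exact h8)] at h7'
            simpa using h7'
          refine ⟨x, hx, y, hyΛ, ?_, ?_, h8, by omega, by rw [← h9]; omega, ?_⟩
          · intro h10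
            exact Finset.disjoint_left.1 hdis (hΛ.self_mem_orb hinj hx) h10
          · intro z
            rw [hiff z, orb_eq_singleton (by rw [← ha]; exact h8), Finset.mem_singleton]
          · intro z hz
            apply huniq z (hΛ.orb_subset hyΛ hz)
            rintro rfl
            exact Finset.disjoint_left.1 hdis h7' hz
        · have h8 : b = 1 := by rw [hb, ← hΛ.period_of_mem hinj hyΛ h7', hper0]
          have h9 : x0 = y := by
            rw [orb_eq_singleton (by rw [← hb]; exact h8)] at h7'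
            simpa using h7'
          refine ⟨y, hyΛ, x, hx, hyx, ?_, h8, by omega, by rw [← h9]; omega, ?_⟩
          · intro z
            rw [hiff z, orb_eq_singleton (by rw [← hb]; exact h8) (x := y), Finset.mem_singleton, or_comm]
          · intro z hz
            apply huniq z (hΛ.orb_subset hx hz)
            rintro rfl
            exact Finset.disjoint_left.1 hdis hz h7'
    · right; right; right; right
      refine fin _ (a + b - 2) habp hexp ?_ (by omega) (Or.inl (by omega))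
      calc t ^ 2 * Nat.lcm (ua s a) (ua s b) = t * (Nat.lcm (ua s a) (ua s b) * t) := by ring
        _ ≤ L * (q ^ (a + b - 2) * L ^ 2) := Nat.mul_le_mul P.htL hab
        _ = _ := by ring
  · -- at least three orbits
    right; right; right; right
    have hst2 := hst1.sdiff hinj hy
    have hcp : 1 ≤ ((Λ \ orb s x) \ orb s y).card := h1.card_pos
    obtain ⟨N, hN0, hNd, hN, hle⟩ := hst2.exists_exp hinj P h1
    set c := ((Λ \ orb s x) \ orb s y).card with hc
    have hexp : ∀ z ∈ Λ, z ^ Nat.lcm (Nat.lcm (ua s a) (ua s b)) N = 1 := by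
      intro z hz
      by_cases h2 : z ∈ orb s x
      · obtain ⟨k, hk⟩ := (Nat.dvd_lcm_left (ua s a) (ua s b)).trans (Nat.dvd_lcm_left _ N)
        rw [hk, pow_mul, hxexp z h2, one_pow]
      by_cases h3 : z ∈ orb s y
      · obtain ⟨k, hk⟩ := (Nat.dvd_lcm_right (ua s a) (ua s b)).trans (Nat.dvd_lcm_left _ N)
        rw [hk, pow_mul, pow_orb hyo h3, one_pow]
      · obtain ⟨k, hk⟩ := Nat.dvd_lcm_right (Nat.lcm (ua s a) (ua s b)) N
        rw [hk, pow_mul, hN z (Finset.mem_sdiff.2 ⟨Finset.mem_sdiff.2 ⟨hz, h2⟩, h3⟩), one_pow]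
    have h2 : t ^ 2 * Nat.lcm (Nat.lcm (ua s a) (ua s b)) N ≤ q ^ (a + b + c - 3) * L ^ 3 := by
      have h3 := lcm_bound (w := t) ht0 ((P.dvd a).trans (Nat.dvd_lcm_left _ (ua s b))) hNd
      calc t ^ 2 * Nat.lcm (Nat.lcm (ua s a) (ua s b)) N = t * (Nat.lcm (Nat.lcm (ua s a) (ua s b)) N * t) := by ring
        _ ≤ t * (Nat.lcm (ua s a) (ua s b) * N) := Nat.mul_le_mul_left _ h3
        _ = (Nat.lcm (ua s a) (ua s b) * t) * N := by ring
        _ ≤ (q ^ (a + b - 2) * L ^ 2) * (q ^ (c - 1) * L) := Nat.mul_le_mul hab hle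
        _ = q ^ (a + b - 2 + (c - 1)) * L ^ 3 := by ring
        _ = _ := by congr 2; omega
    refine fin _ (a + b + c - 3) (Nat.lcm_pos habp hN0) hexp h2 (by omega) ?_
    rcases Nat.lt_or_ge D 1 with hD1 | hD1
    · right
      refine ⟨by omega, by omega⟩
    · left
      omega

end

end Cfsg.Agent.R2.Spec.X7
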