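import Cfsg.Agent.R2.Spec.X7.Groups
import Cfsg.Agent.R2.Spec.Iface
import Cfsg.Agent.H437.Win.Frame
import Cfsg.Agent.R2.Spec.X7.FamC

/-!
# The isolated class; the frame
-/

set_option autoImplicit false

namespace Cfsg.Agent.R2.Spec.X7

open Finset Function Cfsg Subgroup Cfsg.Agent.H420.QR Cfsg.Agent.H360.Iso
open Cfsg.Agent.H437.Win (pow_scalar scalar_of_map roots_ne_zero exists_elt_factor count_stable sg' sg'_injective)

/-- an element whose order is divisible by a prime of the class `n` -/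
theorem top_mat {F : Type*} [Field F] {K : Type*} [Field K] [IsAlgClosed K] [Algebra F K] {s : ℤ} {p q t L n : ℕ}
    [Fact p.Prime] [CharP K p] (P : Par s q t L) (hn : 1 ≤ n)
    (A : Matrix (Fin n) (Fin n) F) (hdetA : A.det = 1) (hinj : Injective (zp s : K → K))
    [DecidableEq K]
    (hcs : ∀ x, (A.map (algebraMap F K)).charpoly.roots.count (zp s x) = (A.map (algebraMap F K)).charpoly.roots.count x)
    {r : ℕ} (hr : r.Prime) (hrp : r ≠ p) (hra : ∀ a, 1 ≤ a → a < n → ¬ r ∣ ua s a)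
    (hA : ∀ E, (∃ z : F, A ^ E = z • (1 : Matrix (Fin n) (Fin n) F)) → r ∣ E) :
    ∃ E, (∃ z : F, A ^ E = z • (1 : Matrix (Fin n) (Fin n) F)) ∧ E * (Nat.gcd n t * t) = ua s n := by
  set Y : Matrix (Fin n) (Fin n) K := A.map (algebraMap F K) with hY
  have hdet : Y.det = 1 := by
    rw [hY, show A.map (algebraMap F K) = (algebraMap F K).mapMatrix A from rfl, ← RingHom.map_det, hdetA, map_one]
  set Λ := Y.charpoly.roots.toFinset with hΛ
  have hmem : ∀ x, x ∈ Λ ↔ 1 ≤ Y.charpoly.roots.count x := by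
    intro x
    rw [hΛ, Multiset.mem_toFinset, Multiset.one_le_count_iff_mem]
  have hst : Stab s Λ := by
    refine ⟨fun x hx => roots_ne_zero hdet (Multiset.mem_toFinset.1 hx), fun x hx => ?_⟩
    rw [hmem] at hx ⊢
    rw [hcs]
    exact hx
  have hsum : ∑ x ∈ Λ, Y.charpoly.roots.count x = n := by
    rw [hΛ, Multiset.toFinset_sum_count_eq, ← (IsAlgClosed.splits Y.charpoly).natDegree_eq_card_roots,
      Matrix.charpoly_natDegree_eq_dim, Fintype.card_fin]
  have hprod : ∏ x ∈ Λ, x ^ Y.charpoly.roots.count x = 1 := by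
    rw [hΛ, ← Finset.prod_multiset_count, ← Matrix.det_eq_prod_roots_charpoly, hdet]
  have key : ∀ k j : ℕ, (∃ z, ∀ x ∈ Λ, x ^ k = z) → (∀ x ∈ Λ, Y.charpoly.roots.count x ≤ p ^ j) →
      ∃ z : F, A ^ (k * p ^ j) = z • (1 : Matrix (Fin n) (Fin n) F) := by
    rintro k j ⟨z, hz⟩ hc
    exact scalar_of_map A hn (pow_scalar Y (k := k) (s := j) (z := z)
      (fun x hx => hz x (Multiset.mem_toFinset.2 hx)) (fun x hx => hc x (Multiset.mem_toFinset.2 hx)))
  have hp := (Fact.out : p.Prime)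
  have hcount : ∀ x ∈ Λ, Y.charpoly.roots.count x ≤ n := by
    intro x hx
    exact (Finset.single_le_sum (f := fun x => Y.charpoly.roots.count x) (fun _ _ => Nat.zero_le _) hx).trans hsum.le
  -- an eigenvalue of period `n`
  obtain ⟨x, hx, hxn⟩ : ∃ x ∈ Λ, n ≤ minimalPeriod (zp s) x := by
    by_contra hcon
    push Not at hcon
    have h1 : ∀ x ∈ Λ, x ^ (∏ a ∈ Finset.Ico 1 n, ua s a) = 1 := by
      intro x hx
      have h2 := pow_orb (hst.ne x hx) (hst.self_mem_orb hinj hx)
      obtain ⟨k, hk⟩ := Finset.dvd_prod_of_mem (fun a => ua s a)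
        (Finset.mem_Ico.2 ⟨hst.period hinj hx, hcon x hx⟩)
      rw [hk, pow_mul, h2, one_pow]
    have h2 := hA _ (key _ n ⟨1, h1⟩ fun x hx => (hcount x hx).trans (Nat.lt_pow_self hp.one_lt).le)
    rcases (hr.dvd_mul).1 h2 with h3 | h3
    · obtain ⟨a, ha, h4⟩ := (Prime.dvd_finsetProd_iff (Nat.prime_iff.1 hr) _).1 h3
      rw [Finset.mem_Ico] at ha
      exact hra a ha.1 ha.2 h4
    · exact hrp ((Nat.prime_dvd_prime_iff_eq hr hp).1 (hr.dvd_of_dvd_pow h3))
  have hcard : Λ.card ≤ n := by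
    refine le_trans ?_ hsum.le
    rw [Finset.card_eq_sum_ones]
    exact Finset.sum_le_sum fun x hx => (hmem x).1 hx
  have hsub := hst.orb_subset hx
  have horb : (orb s x).card ≤ Λ.card := Finset.card_le_card hsub
  rw [card_orb] at horb
  have hper : minimalPeriod (zp s) x = n := le_antisymm (horb.trans hcard) hxn
  have hΛx : Λ = orb s x := (Finset.eq_of_subset_of_card_le hsub (by rw [card_orb, hper]; exact hcard)).symm
  have hcardn : Λ.card = n := by rw [hΛx, card_orb, hper]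
  have hm : ∀ y ∈ Λ, Y.charpoly.roots.count y = 1 := by
    have h1 : ∑ x ∈ Λ, 1 = ∑ x ∈ Λ, Y.charpoly.roots.count x := by
      rw [hsum, ← Finset.card_eq_sum_ones, hcardn]
    intro y hy
    exact ((Finset.sum_eq_sum_iff_of_le (fun x hx => (hmem x).1 hx)).1 h1 y hy).symm
  have hx0 := hst.ne x hx
  have ht0 : 0 < t := by have := P.ht2; omega
  have hcn : Nat.gcd n t ∣ n := Nat.gcd_dvd_left _ _
  obtain ⟨d, hd⟩ := Nat.gcd_dvd_right n t
  set c := Nat.gcd n t with hc
  obtain ⟨d', hd'⟩ : ∃ d' : ℤ, s - 1 = c * d' := by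
    have h1 : ((s - 1).natAbs : ℤ) = (c * d : ℕ) := by rw [P.ht, ← hd]
    rcases Int.natAbs_eq (s - 1) with h2 | h2
    · refine ⟨d, ?_⟩
      rw [h2, h1]; push_cast; ring
    · refine ⟨-d, ?_⟩
      rw [h2, h1]; push_cast; ring
  have hdvd : ∀ X : ℤ, (s - 1) ∣ X - n → (c : ℤ) ∣ X := by
    intro X hX
    have h1 : (c : ℤ) ∣ X - n := (Dvd.intro _ hd'.symm).trans hX
    have h2 : (c : ℤ) ∣ n := by exact_mod_cast hcn
    have := dvd_add h1 h2
    rwa [sub_add_cancel] at this
  obtain ⟨e, he⟩ := hdvd (es s n) (es_modEq s n)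
  have h1 : x ^ es s n = 1 := by
    have hpo := prod_orb (s := s) hx0
    rw [hper, ← hΛx] at hpo
    rw [← hpo, ← hprod]
    apply Finset.prod_congr rfl
    intro z hz
    rw [hm z hz, pow_one]
  have h2 : (x ^ e) ^ (s - 1) = 1 := by
    rw [← zpow_mul, hd', ← mul_assoc, mul_comm e, ← he, zpow_mul, h1, one_zpow]
  have h3 : ∀ t ∈ Λ, t ^ e = x ^ e := by
    intro t ht
    rw [hΛx] at ht
    obtain ⟨i, -, rfl⟩ := mem_orb.1 ht
    exact iter_zpow_eq hx0 h2 i
  have h4 := key e.natAbs 0 (pow_natAbs_of_zpow h3) (fun t ht => by rw [hm t ht]; simp)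
  rw [pow_zero, mul_one] at h4
  refine ⟨e.natAbs, h4, ?_⟩
  rw [ua_eq, he, Int.natAbs_mul, Int.natAbs_natCast, P.ht]
  ring

section

variable {F : Type*} [Field F] [Fintype F] {p f q n : ℕ} [Fact p.Prime] [CharP F p]

/-- the element orders divisible by a prime of the class `n` in `PSL_n(q)` -/
theorem top_psl (hq : q = p ^ f) (hF : Fintype.card F = q) (hq3 : 3 ≤ q) (hn : 1 ≤ n)
    {r : ℕ} (hr : r.Prime) (hrp : r ≠ p) (hra : ∀ a, 1 ≤ a → a < n → ¬ r ∣ ua (q : ℤ) a)
    (g : Matrix.ProjectiveSpecialLinearGroup (Fin n) F) (hg : r ∣ orderOf g) :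
    ∃ E, orderOf g ∣ E ∧ E * (Nat.gcd n (q - 1) * (q - 1)) = ua (q : ℤ) n := by
  classical
  obtain ⟨g, rfl⟩ := QuotientGroup.mk_surjective g
  set A : Matrix (Fin n) (Fin n) F := ((g : Matrix.SpecialLinearGroup (Fin n) F) : Matrix (Fin n) (Fin n) F) with hA
  let K := AlgebraicClosure F
  have hCP : CharP K p := charP_of_injective_algebraMap (algebraMap F K).injective p
  have hdetA : A.det = 1 := g.2
  have hzp : (zp (q : ℤ) : K → K) = fun x => x ^ q := by
    funext x
    rw [zp, zpow_natCast]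
  have hinj : Injective (zp (q : ℤ) : K → K) := by
    rw [hzp]
    intro x y hxy
    apply (iterateFrobenius K p f).injective
    rw [iterateFrobenius_def, iterateFrobenius_def, ← hq]
    exact hxy
  have hcs : ∀ x, (A.map (algebraMap F K)).charpoly.roots.count (zp (q : ℤ) x) =
      (A.map (algebraMap F K)).charpoly.roots.count x := by
    intro x
    set Y : Matrix (Fin n) (Fin n) K := A.map (algebraMap F K) with hY
    have h1 : (Y.map (iterateFrobenius K p f)).charpoly.roots = Y.charpoly.roots.map (iterateFrobenius K p f) := by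
      rw [Matrix.charpoly_map]
      exact (IsAlgClosed.splits Y.charpoly).roots_map _
    have h2 : Y.map (iterateFrobenius K p f) = Y := by
      ext i j
      rw [hY, Matrix.map_apply, Matrix.map_apply, iterateFrobenius_def, ← map_pow, ← hq, ← hF, FiniteField.pow_card]
    rw [h2] at h1
    have h3 : Multiset.count (iterateFrobenius K p f x) (Y.charpoly.roots.map (iterateFrobenius K p f)) =
        Y.charpoly.roots.count x := Multiset.count_map_eq_count' _ _ (iterateFrobenius K p f).injective x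
    rw [← h1, iterateFrobenius_def, ← hq] at h3
    rw [hzp]
    exact h3
  have hscal : ∀ E, (∃ z : F, A ^ E = z • (1 : Matrix (Fin n) (Fin n) F)) →
      orderOf (QuotientGroup.mk g : Matrix.ProjectiveSpecialLinearGroup (Fin n) F) ∣ E := by
    rintro E ⟨z, hz⟩
    apply orderOf_dvd_of_pow_eq_one
    have h4 : g ^ E ∈ Subgroup.center (Matrix.SpecialLinearGroup (Fin n) F) := by
      rw [Subgroup.mem_center_iff]
      intro h
      apply Subtype.ext
      show (h : Matrix (Fin n) (Fin n) F) * ((g ^ E : Matrix.SpecialLinearGroup (Fin n) F) : Matrix (Fin n) (Fin n) F) =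
        ((g ^ E : Matrix.SpecialLinearGroup (Fin n) F) : Matrix (Fin n) (Fin n) F) * (h : Matrix (Fin n) (Fin n) F)
      rw [Matrix.SpecialLinearGroup.coe_pow, ← hA, hz, Matrix.mul_smul, Matrix.smul_mul, Matrix.mul_one, Matrix.one_mul]
    rw [← QuotientGroup.mk_pow]
    exact (QuotientGroup.eq_one_iff _).2 h4
  obtain ⟨E, hz, hE⟩ := top_mat (par_plus hq3) hn A hdetA hinj hcs hr hrp hra
    (fun E hE => hg.trans (hscal E hE))
  exact ⟨E, hscal E hz, hE⟩

end

end Cfsg.Agent.R2.Spec.X7
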