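import Cfsg.Agent.R2.Spec.X7.Orb
import Cfsg.Agent.H437.Win.Eig
import Cfsg.Agent.H149.PGU

/-!
# The large element orders of `PSL_n(q)`, `PSU_n(q)`, `n` prime
-/

set_option autoImplicit false

namespace Cfsg.Agent.R2.Spec.X7

open Finset Function
open Cfsg.Agent.H437.Win (pow_scalar scalar_of_map roots_ne_zero)

section

variable {K : Type*} [Field K] {s : ℤ}

theorem iter_zpow_eq {x : K} (hx : x ≠ 0) {W : ℤ} (h : (x ^ W) ^ (s - 1) = 1) (i : ℕ) :
    ((zp s)^[i] x) ^ W = x ^ W := by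
  rw [iter_eq, ← zpow_mul]
  have h1 : s ^ i * W = W + (W * (s - 1)) * es s i := by
    have := es_mul s i
    linear_combination W * (-this)
  rw [h1, zpow_add₀ hx, zpow_mul, zpow_mul, h, one_zpow, mul_one]

theorem es_modEq (s : ℤ) (a : ℕ) : (s - 1) ∣ es s a - a := by
  induction a with
  | zero => simp [es]
  | succ a ih =>
    have h1 : es s (a + 1) = es s a + s ^ a := by rw [es, es, Finset.sum_range_succ]
    rw [h1]
    have h2 := es_mul s a
    have h3 : es s a + s ^ a - ((a + 1 : ℕ) : ℤ) = (es s a - a) + (s - 1) * es s a := by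
      push_cast
      linear_combination -h2
    rw [h3]
    exact dvd_add ih (dvd_mul_right _ _)

theorem pow_natAbs_of_zpow {Λ : Finset K} {W : ℤ} {z : K} (h : ∀ t ∈ Λ, t ^ W = z) :
    ∃ z', ∀ t ∈ Λ, t ^ W.natAbs = z' := by
  rcases Int.natAbs_eq W with h1 | h1
  · refine ⟨z, fun t ht => ?_⟩
    rw [← h t ht, ← zpow_natCast, ← h1]
  · refine ⟨z⁻¹, fun t ht => ?_⟩
    rw [← h t ht, ← zpow_natCast, ← zpow_neg]
    congr 1
    omega

end

/-- the possible shapes of a (multiple of an) element order -/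
def Shape (s : ℤ) (p q t L n c E : ℕ) : Prop :=
  E * (c * t) = ua s n ∨
  (∃ a b, 1 ≤ a ∧ 1 ≤ b ∧ a + b = n ∧ E * (c * t) = ua s a * ua s b) ∨
  E * c = p * ua s (n - 2) ∨
  (∃ k, E = t * p ^ (k + 1) ∧ p ^ k < n) ∨
  t ^ 2 * E ≤ q ^ (n - 3) * L ^ 3

/-- **The window lemma** for matrices. -/
theorem window_mat {F : Type*} [Field F] {K : Type*} [Field K] [IsAlgClosed K] [Algebra F K] {s : ℤ} {p q t L n : ℕ}
    [Fact p.Prime] [CharP K p] (P : Par s q t L) (hpq : p ≤ q) (hp2 : p ≠ 2) (hn : n.Prime) (h5 : 3 ≤ n)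
    (A : Matrix (Fin n) (Fin n) F) (hdetA : A.det = 1) (hinj : Injective (zp s : K → K))
    [DecidableEq K]
    (hcs : ∀ x, (A.map (algebraMap F K)).charpoly.roots.count (zp s x) = (A.map (algebraMap F K)).charpoly.roots.count x) :
    ∃ E, 0 < E ∧ (∃ z : F, A ^ E = z • (1 : Matrix (Fin n) (Fin n) F)) ∧ Shape s p q t L n (Nat.gcd n t) E := by
  set Y : Matrix (Fin n) (Fin n) K := A.map (algebraMap F K) with hY
  have hdet : Y.det = 1 := by
    rw [hY, show A.map (algebraMap F K) = (algebraMap F K).mapMatrix A from rfl, ← RingHom.map_det, hdetA, map_one]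
  set Λ := Y.charpoly.roots.toFinset with hΛ
  have hmem : ∀ x, x ∈ Λ ↔ 1 ≤ Y.charpoly.roots.count x := by
    intro x
    rw [hΛ, Multiset.mem_toFinset, Multiset.one_le_count_iff_mem]
  have hst : Stab s Λ := by
    refine ⟨fun x hx => roots_ne_zero hdet (Multiset.mem_toFinset.1 hx), fun x hx => ?_⟩
    rw [hmem] at hx ⊢
    rw [hcs]
    exact hx
  have hsum : ∑ x ∈ Λ, Y.charpoly.roots.count x = n := by
    rw [hΛ, Multiset.toFinset_sum_count_eq, ← (IsAlgClosed.splits Y.charpoly).natDegree_eq_card_roots,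
      Matrix.charpoly_natDegree_eq_dim, Fintype.card_fin]
  have hprod : ∏ x ∈ Λ, x ^ Y.charpoly.roots.count x = 1 := by
    rw [hΛ, ← Finset.prod_multiset_count, ← Matrix.det_eq_prod_roots_charpoly, hdet]
  -- the scalar powers
  have key : ∀ k j : ℕ, (∃ z, ∀ x ∈ Λ, x ^ k = z) → (∀ x ∈ Λ, Y.charpoly.roots.count x ≤ p ^ j) →
      ∃ z : F, A ^ (k * p ^ j) = z • (1 : Matrix (Fin n) (Fin n) F) := by
    rintro k j ⟨z, hz⟩ hc
    exact scalar_of_map A hn.one_lt.le (pow_scalar Y (k := k) (s := j) (z := z)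
      (fun x hx => hz x (Multiset.mem_toFinset.2 hx)) (fun x hx => hc x (Multiset.mem_toFinset.2 hx)))
  have hp := (Fact.out : p.Prime)
  have hp3 : 3 ≤ p := by
    have := hp.two_le
    omega
  have ht0 : 0 < t := by have := P.ht2; omega
  have hcn : Nat.gcd n t ∣ n := Nat.gcd_dvd_left _ _
  obtain ⟨d, hd⟩ := Nat.gcd_dvd_right n t
  set c := Nat.gcd n t with hc
  have hc0 : 0 < c := Nat.gcd_pos_of_pos_left _ hn.pos
  have hd0 : 0 < d := by
    rcases Nat.eq_zero_or_pos d with h | h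
    · rw [h, mul_zero] at hd; omega
    · exact h
  -- `s - 1 = c * d'`, `|d'| = d`
  obtain ⟨d', hd', hdd⟩ : ∃ d' : ℤ, s - 1 = c * d' ∧ d'.natAbs = d := by
    have h1 : ((s - 1).natAbs : ℤ) = (c * d : ℕ) := by rw [P.ht, ← hd]
    rcases Int.natAbs_eq (s - 1) with h2 | h2
    · refine ⟨d, ?_, Int.natAbs_natCast d⟩
      rw [h2, h1]; push_cast; ring
    · refine ⟨-d, ?_, by rw [Int.natAbs_neg, Int.natAbs_natCast]⟩
      rw [h2, h1]; push_cast; ring
  have hdvd : ∀ X : ℤ, (s - 1) ∣ X - n → (c : ℤ) ∣ X := by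
    intro X hX
    have h1 : (c : ℤ) ∣ X - n := (Dvd.intro _ hd'.symm).trans hX
    have h2 : (c : ℤ) ∣ n := by exact_mod_cast hcn
    have := dvd_add h1 h2
    rwa [sub_add_cancel] at this
  have hes0 : ∀ a, 1 ≤ a → 0 < (es s a).natAbs := by
    intro a ha
    have h1 := P.pos a ha
    rw [ua_eq] at h1
    exact Nat.pos_of_mul_pos_right h1 |> fun h => h
  rcases hst.cases hinj P hn h5 (fun x => Y.charpoly.roots.count x) (fun x hx => (hmem x).1 hx)
    (fun x _ => hcs x) hsum with ⟨x, hx, hΛx, hper, hm⟩ | ⟨x, hx, y, hy, hyx, hdis, hiff, hab, hm⟩ |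
      ⟨x, hx, y, hy, hxy, hiff, hper, hb, hmx, hmy⟩ | ⟨x, hx, hall, hxt, hmx⟩ | ⟨N, M, hN0, hN, hM, hcase⟩
  · -- one orbit
    have hx0 := hst.ne x hx
    obtain ⟨e, he⟩ := hdvd (es s n) (es_modEq s n)
    have h1 : x ^ es s n = 1 := by
      have hpo := prod_orb (s := s) hx0
      rw [hper, ← hΛx] at hpo
      rw [← hpo, ← hprod]
      apply Finset.prod_congr rfl
      intro z hz
      rw [hm z hz, pow_one]
    have h2 : (x ^ e) ^ (s - 1) = 1 := by
      rw [← zpow_mul, hd', ← mul_assoc, mul_comm e, ← he, zpow_mul, h1, one_zpow]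
    have h3 : ∀ t ∈ Λ, t ^ e = x ^ e := by
      intro t ht
      rw [hΛx] at ht
      obtain ⟨i, -, rfl⟩ := mem_orb.1 ht
      exact iter_zpow_eq hx0 h2 i
    have h4 := key e.natAbs 0 (pow_natAbs_of_zpow h3) (fun t ht => by rw [hm t ht]; simp)
    rw [pow_zero, mul_one] at h4
    have h5 : e.natAbs * (c * t) = ua s n := by
      rw [ua_eq, he, Int.natAbs_mul, Int.natAbs_natCast, P.ht]
      ring
    refine ⟨e.natAbs, ?_, h4, Or.inl h5⟩
    rcases Nat.eq_zero_or_pos e.natAbs with h6 | h6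
    · rw [h6, zero_mul] at h5
      have := P.pos n hn.one_lt.le
      omega
    · exact h6
  · -- two orbits
    have hx0 := hst.ne x hx
    have hy0 := hst.ne y hy
    have hpx := hst.period hinj hx
    have hpy := hst.period hinj hy
    set a := minimalPeriod (zp s) x with ha
    set b := minimalPeriod (zp s) y with hb
    have hΛ' : Λ = (orb s x).disjUnion (orb s y) hdis := by
      ext z
      rw [hiff z, Finset.mem_disjUnion]
    have h1 : x ^ es s a * y ^ es s b = 1 := by
      rw [← hprod, ha, hb, ← prod_orb hx0, ← prod_orb hy0, hΛ', Finset.prod_disjUnion]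
      congr 1
      · apply Finset.prod_congr rfl
        intro z hz
        rw [hm z ((hiff z).2 (Or.inl hz)), pow_one]
      · apply Finset.prod_congr rfl
        intro z hz
        rw [hm z ((hiff z).2 (Or.inr hz)), pow_one]
    have h2 : (x ^ es s a) ^ (s - 1) = 1 := by
      rw [← zpow_mul, es_mul, zpow_sub₀ hx0, zpow_one]
      have h3 : (zp s)^[a] x = x := by rw [ha, iterate_minimalPeriod]
      rw [iter_eq] at h3
      rw [h3, div_self hx0]
    have h2y : y ^ es s b = (x ^ es s a)⁻¹ := eq_inv_of_mul_eq_one_right h1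
    obtain ⟨e, he⟩ := hdvd (es s a + es s b) (by
      have h5 := dvd_add (es_modEq s a) (es_modEq s b)
      have h6 : es s a - a + (es s b - b) = es s a + es s b - n := by
        rw [← hab]; push_cast; ring
      rwa [h6] at h5)
    set W : ℤ := es s a * es s b * d' with hW
    set w := x ^ es s a with hw
    have hw0 : w ≠ 0 := zpow_ne_zero _ hx0
    have hxW : x ^ W = w ^ (es s b * d') := by rw [hW, mul_assoc, zpow_mul]
    have hyW : y ^ W = w ^ (es s b * d') := by
      have h7 : y ^ W = w ^ (-(es s a * d')) := by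
        rw [hW, mul_comm (es s a), mul_assoc, zpow_mul, h2y, inv_zpow', ]
      have h8 : w ^ (es s b * d' - (-(es s a * d'))) = 1 := by
        have h9 : es s b * d' - (-(es s a * d')) = (s - 1) * e := by
          rw [hd']
          linear_combination d' * he
        rw [h9, zpow_mul, h2, one_zpow]
      rw [zpow_sub₀ hw0, div_eq_one_iff_eq (zpow_ne_zero _ hw0)] at h8
      rw [h7, h8]
    have hall : ∀ t ∈ Λ, t ^ W = w ^ (es s b * d') := by
      intro t ht
      have h10 : (w ^ (es s b * d')) ^ (s - 1) = 1 := by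
        rw [← zpow_mul, mul_comm, zpow_mul, h2, one_zpow]
      rcases (hiff t).1 ht with h | h
      · obtain ⟨i, -, rfl⟩ := mem_orb.1 h
        rw [iter_zpow_eq hx0 (by rw [hxW]; exact h10) i, hxW]
      · obtain ⟨i, -, rfl⟩ := mem_orb.1 h
        rw [iter_zpow_eq hy0 (by rw [hyW]; exact h10) i, hyW]
    have h4 := key W.natAbs 0 (pow_natAbs_of_zpow hall) (fun t ht => by rw [hm t ht]; simp)
    rw [pow_zero, mul_one] at h4
    have h5 : W.natAbs * (c * t) = ua s a * ua s b := by
      rw [ua_eq, ua_eq, hW, Int.natAbs_mul, Int.natAbs_mul, hdd, P.ht]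
      calc (es s a).natAbs * (es s b).natAbs * d * (c * t) =
          (es s a).natAbs * (es s b).natAbs * ((c * d) * t) := by ring
        _ = _ := by rw [← hd]; ring
    refine ⟨W.natAbs, ?_, h4, Or.inr (Or.inl ⟨a, b, hpx, hpy, hab, h5⟩)⟩
    rw [hW, Int.natAbs_mul, Int.natAbs_mul, hdd]
    exact Nat.mul_pos (Nat.mul_pos (hes0 a hpx) (hes0 b hpy)) hd0
  · -- a fixed point of multiplicity two
    have hx0 := hst.ne x hx
    have hy0 := hst.ne y hy
    have hpy := hst.period hinj hy
    set b := minimalPeriod (zp s) y with hbdef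
    have hxq : x ^ (s - 1) = 1 := by
      have h3 : (zp s)^[1] x = x := by rw [← hper, iterate_minimalPeriod]
      rw [iter_eq, pow_one] at h3
      rw [zpow_sub₀ hx0, zpow_one, h3, div_self hx0]
    have h1 : x ^ (2 : ℤ) * y ^ es s b = 1 := by
      have hΛ' : Λ = ({x} : Finset K).disjUnion (orb s y) (by
          rw [Finset.disjoint_singleton_left]; exact hxy) := by
        ext z
        rw [hiff z, Finset.mem_disjUnion, Finset.mem_singleton]
      rw [← hprod, hbdef, ← prod_orb hy0, hΛ', Finset.prod_disjUnion, Finset.prod_singleton]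
      congr 1
      · rw [hmx]; norm_cast
      · apply Finset.prod_congr rfl
        intro z hz
        rw [hmy z hz, pow_one]
    have h2 : (y ^ es s b) = x ^ (-2 : ℤ) := by
      rw [zpow_neg]
      exact eq_inv_of_mul_eq_one_right h1
    obtain ⟨e, he⟩ := hdvd (es s b + 2) (by
      have h5 := es_modEq s b
      have h6 : es s b - b = es s b + 2 - n := by
        rw [← hb]; push_cast; ring
      rwa [h6] at h5)
    set W : ℤ := es s b * d' with hW
    have hyW : y ^ W = x ^ W := by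
      have h7 : y ^ W = x ^ (-2 * d' : ℤ) := by rw [hW, zpow_mul, h2, ← zpow_mul]
      have h8 : x ^ (W - (-2 * d')) = 1 := by
        have h9 : W - (-2 * d') = (s - 1) * e := by
          rw [hd', hW]
          linear_combination d' * he
        rw [h9, zpow_mul, hxq, one_zpow]
      rw [zpow_sub₀ hx0, div_eq_one_iff_eq (zpow_ne_zero _ hx0)] at h8
      rw [h7, h8]
    have hall : ∀ t ∈ Λ, t ^ W = x ^ W := by
      intro t ht
      have h10 : (x ^ W) ^ (s - 1) = 1 := by
        rw [← zpow_mul, mul_comm, zpow_mul, hxq, one_zpow]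
      rcases (hiff t).1 ht with rfl | h
      · rfl
      · obtain ⟨i, -, rfl⟩ := mem_orb.1 h
        rw [iter_zpow_eq hy0 (by rw [hyW]; exact h10) i, hyW]
    have h4 := key W.natAbs 1 (pow_natAbs_of_zpow hall) (fun t ht => by
      rw [pow_one]
      rcases (hiff t).1 ht with rfl | h
      · rw [hmx]; omega
      · rw [hmy t h]; omega)
    rw [pow_one] at h4
    have h5 : W.natAbs * c = ua s (n - 2) := by
      rw [show n - 2 = b by omega, ua_eq, hW, Int.natAbs_mul, hdd, P.ht, hd]
      ring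
    refine ⟨W.natAbs * p, ?_, h4, Or.inr (Or.inr (Or.inl ?_))⟩
    · rw [hW, Int.natAbs_mul, hdd]
      exact Nat.mul_pos (Nat.mul_pos (hes0 b hpy) hd0) hp.pos
    · rw [← h5]; ring
  · -- one eigenvalue
    have hex : ∃ k, n ≤ p ^ k := ⟨n, (Nat.lt_pow_self hp.one_lt).le⟩
    have h1 := Nat.find_spec hex
    have h2 := fun m (hm : m < Nat.find hex) => Nat.find_min hex hm
    set k := Nat.find hex with hk
    have hk0 : k ≠ 0 := by
      intro h0
      rw [h0, pow_zero] at h1
      omega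
    obtain ⟨k', hk'⟩ : ∃ k', k = k' + 1 := ⟨k - 1, by omega⟩
    have h3 := h2 k' (by omega)
    have h4 := key t k ⟨1, fun y hy => by rw [hall y hy]; exact hxt⟩ (fun y hy => by rw [hall y hy]; exact hmx.trans_le h1)
    rw [hk'] at h4
    exact ⟨t * p ^ (k' + 1), Nat.mul_pos ht0 (pow_pos hp.pos _), h4,
      Or.inr (Or.inr (Or.inr (Or.inl ⟨k', rfl, by omega⟩)))⟩
  · -- the rest
    have hN' : ∃ z, ∀ x ∈ Λ, x ^ N = z := ⟨1, hN⟩
    have htN : 0 < t ^ 2 * N := Nat.mul_pos (pow_pos ht0 2) hN0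
    rcases hcase with ⟨rfl, hle⟩ | ⟨hM23, hle⟩ | ⟨hM4, hle⟩
    · have h1 := key N 0 hN' (fun t ht => by rw [pow_zero]; exact hM t ht)
      rw [pow_zero, mul_one] at h1
      exact ⟨N, hN0, h1, Or.inr (Or.inr (Or.inr (Or.inr hle)))⟩
    · have h1 := key N 1 hN' (fun t ht => by rw [pow_one]; exact (hM t ht).trans (by omega))
      rw [pow_one] at h1
      refine ⟨N * p, Nat.mul_pos hN0 hp.pos, h1, Or.inr (Or.inr (Or.inr (Or.inr (le_trans ?_ hle))))⟩
      calc t ^ 2 * (N * p) = p * (t ^ 2 * N) := by ring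
        _ ≤ _ := Nat.mul_le_mul_right _ hpq
    · -- the least `k` with `M ≤ p ^ k`
      have hex : ∃ k, M ≤ p ^ k := ⟨M, (Nat.lt_pow_self hp.one_lt).le⟩
      have h1 := Nat.find_spec hex
      have h2 := fun m (hm : m < Nat.find hex) => Nat.find_min hex hm
      set k := Nat.find hex with hk
      have hk0 : k ≠ 0 := by
        intro h0
        rw [h0, pow_zero] at h1
        omega
      obtain ⟨k', hk'⟩ : ∃ k', k = k' + 1 := ⟨k - 1, by omega⟩
      have h3 := h2 k' (by omega)
      have h4 : p ^ k ≤ q * (M - 1) := by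
        rw [hk', pow_succ, mul_comm]
        exact Nat.mul_le_mul hpq (by omega)
      have h5 := key N k hN' (fun t ht => (hM t ht).trans h1)
      have hps : 0 < p ^ k := pow_pos hp.pos _
      refine ⟨N * p ^ k, Nat.mul_pos hN0 hps, h5, Or.inr (Or.inr (Or.inr (Or.inr (le_trans ?_ hle))))⟩
      calc t ^ 2 * (N * p ^ k) = (t ^ 2 * N) * p ^ k := by ring
        _ ≤ (t ^ 2 * N) * (q * (M - 1)) := Nat.mul_le_mul_left _ h4
        _ = _ := by ring

end Cfsg.Agent.R2.Spec.X7
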